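import Cfsg.Agent.H11.EG1
import Cfsg.Agent.H11.CertAll
import Cfsg.Agent.H11.StAut
import Cfsg.Agent.H11.StMat

/-! Iterated cores of the branch-node parabolic subgroup of `E₈(2)` and a conjugate (namespace `H11.C8`). -/

set_option autoImplicit false
set_option maxRecDepth 4000

namespace H11.C8
open H11 Cfsg Cfsg.Lie StSys Subgroup H11.EG

theorem gen1 {D : ChevalleyDatum} [Good D] [Cert D] {K G : Type*} [Field K] [Group G] {S : StSys D K G} {j : Node D} {M : Subgroup G} (hU : S.U ≤ M)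
    {ψ : Node D → ℤ} (hψ : fv ψ (sroot j) = 1) (hM : M ≤ S.US {s | 0 ≤ fv ψ s}) {a : G} (ha : a ∈ S.U)
    (h : S.n (sroot j) 1 * a * (S.n (sroot j) 1)⁻¹ ∈ M) : a ∈ S.US {s | 0 < fv (psiJ {j}) s} := by
  obtain ⟨v, hv, t, rfl⟩ := exists_mul_x_of_mem_U j ha
  have c1 : S.n (sroot j) 1 * v * (S.n (sroot j) 1)⁻¹ ∈ M := hU (UJ_le_U _ (cjU (n_mem_PJ (Set.mem_singleton j)) hv))
  have c2 : S.n (sroot j) 1 * S.x (sroot j) t * (S.n (sroot j) 1)⁻¹ ∈ M := (mul_mem_cancel_left c1).1 (by rwa [conj_mul])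
  rw [n_conj _ _ one_ne_zero, refl_self] at c2
  have c3 := tri_of_mem_US (ψ := ψ) (c := 0) le_rfl (fun _ q => q) (hM c2)
  rw [S.θ_x] at c3
  have t0 := eq_zero_of_tri (ψ := ψ) (m := (sroot j).rev) (by rw [fv_rev, hψ, neg_add_cancel]; exact c3)
  rw [(mul_eq_zero.1 t0).resolve_left (coef_ne_zero _ _ one_ne_zero), x_zero, mul_one, ← UJ_eq]
  exact hv

/-- the branch node -/
def j0 : Node chevE8 := ⟨3, by decide⟩
/-- the fundamental coweight of the branch node -/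
def ψ0 : Node chevE8 → ℤ := fun i => [10, 15, 20, 30, 24, 18, 12, 6].getD i 0
/-- level of a root -/
def l (r : Root chevE8) : ℤ := fv ψ0 r

set_option synthInstance.maxSize 2000 in
theorem t1 : allLt 240 (fun r => decide ((sumLt 8 fun i => [10, 15, 20, 30, 24, 18, 12, 6].getD i 0 * fastE8.wt r i) = fastE8.cor r 3 ∧
    fastE8.cor r 3 ≤ 6 ∧ (2 ≤ fastE8.cor r 3 → fastE8.wt r 3 ≤ 1) ∧ (1 ≤ fastE8.cor r 3 → r = (sroot j0).1 ∨
      (2 ≤ fastE8.cor r 3 ∧ 0 < fastE8.wt r 3) ∨ ∃ i : Fin 8, i.1 ≠ 3 ∧ 0 < fastE8.wt r i))) = true := by decide +kernel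

theorem t2 : ∀ i : Fin 8, i.1 ≠ 3 → ∃ r : Fin 240, fastE8.cor r 3 = 1 ∧ fastE8.wt r i = -1 := by decide +kernel

theorem l_eq (r : Root chevE8) : l r = cor r j0 := by
  rw [agreeE8.cor_eq]
  refine Eq.trans ?_ (of_decide_eq_true (allLt_spec t1 r.2)).1
  simp only [l, fv, dotProduct, agreeE8.wt_eq, sumLt_eq, ψ0]
  exact Fin.sum_univ_eq_sum_range (fun j => [10, 15, 20, 30, 24, 18, 12, 6].getD j 0 * fastE8.wt r j) 8

theorem f3 (r : Root chevE8) : l r ≤ 6 ∧ (2 ≤ l r → wt r j0 ≤ 1) ∧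
    (1 ≤ l r → r = sroot j0 ∨ (2 ≤ l r ∧ 0 < wt r j0) ∨ ∃ i, i ≠ j0 ∧ 0 < wt r i) := by
  simp only [l_eq, agreeE8.cor_eq, agreeE8.wt_eq, Fin.ext_iff (a := r)]
  obtain ⟨-, a, b, c⟩ := of_decide_eq_true (allLt_spec t1 r.2)
  exact ⟨a, b, fun q => (c q).imp_right (Or.imp_right fun ⟨i, i1, i2⟩ => ⟨i, fun e => i1 (congrArg Fin.val e), i2⟩)⟩

theorem f4 (i : Node chevE8) (h : i ≠ j0) : ∃ r, l r = 1 ∧ wt r i = -1 := by
  simp only [l_eq, agreeE8.cor_eq, agreeE8.wt_eq]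
  exact t2 i fun e => h (Fin.ext e)

theorem fv_rf (ψ : Node chevE8 → ℤ) (i : Node chevE8) (r : Root chevE8) : fv ψ (refl (sroot i) r) = fv ψ r - wt r i * fv ψ (sroot i) := by
  rw [fv, wt_refl, dotProduct_sub, dotProduct_smul, pair_sroot]; rfl

theorem l_rev (r : Root chevE8) : l r.rev = - l r := fv_rev _ _
theorem l_rf (i : Node chevE8) (r : Root chevE8) : l (refl (sroot i) r) = l r - wt r i * l (sroot i) := fv_rf _ i r
theorem l_lin {u r s : Root chevE8} {a b : ℤ} (e : wt u = a • wt r + b • wt s) : l u = a * l r + b * l s := fv_lin _ e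

theorem l_s (i : Node chevE8) : l (sroot i) = if i = j0 then 1 else 0 := by simp [l_eq, cor_sroot, Pi.single_apply, eq_comm]

theorem l_nn {r : Root chevE8} (h : IsPos r) : 0 ≤ l r := l_eq r ▸ isPos_iff_cor.1 h j0

theorem l_pos {r : Root chevE8} (h : 0 < l r) : IsPos r := by
  by_contra q
  have := l_nn (isPos_rev_iff.2 q)
  rw [l_rev] at this; omega

theorem inJ_iff {r : Root chevE8} : InJ {j0}ᶜ r ↔ l r = 0 := by simp [InJ, l_eq]

theorem cl_of {T : Set (Root chevE8)} {k : ℤ} (hk : 1 ≤ k) (h1 : ∀ s ∈ T, k ≤ l s) (h2 : ∀ s, k < l s → s ∈ T) : Closed T :=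
  fun r hr s hs u i j hi hj e => h2 u (by have := h1 r hr; have := h1 s hs; rw [l_lin e]; nlinarith)

variable {K G : Type*} [Field K] [Group G] {S : StSys chevE8 K G}

variable (S) in
/-- the level filtration -/
abbrev Uk (k : ℤ) : Subgroup G := S.US {r | k ≤ l r}

variable (S) in
/-- the parabolic subgroup -/
abbrev P : Subgroup G := S.PJ {j0}ᶜ

variable (S) in
/-- the conjugating element -/
abbrev g0 : G := S.n (sroot j0) 1

theorem inf_le {A : Subgroup G} {T T' : Set (Root chevE8)} (h : Closed T) (h' : Closed T') (p : ∀ r ∈ T, IsPos r) (p' : ∀ r ∈ T', IsPos r)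
    (a : A ≤ S.US T) (a' : A ≤ S.US T') : A ≤ S.US (T ∩ T') := (le_inf a a').trans (US_inf (S := S) closed_isPos pos_U h h' p p').le

theorem fin_le {A : Subgroup G} {T : Set (Root chevE8)} (f : Root chevE8 → Set (Root chevE8)) (h : Closed T) (p : ∀ r ∈ T, IsPos r)
    (a : A ≤ S.US T) (hf : ∀ r, Closed (f r) ∧ (∀ s ∈ f r, IsPos s) ∧ A ≤ S.US (f r)) : A ≤ S.US {s | s ∈ T ∧ ∀ r, s ∈ f r} := by
  have : ∀ F : Finset (Root chevE8), Closed {s | s ∈ T ∧ ∀ r ∈ F, s ∈ f r} ∧ A ≤ S.US {s | s ∈ T ∧ ∀ r ∈ F, s ∈ f r} := fun F => by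
    induction F using Finset.induction_on with
    | empty => simpa using ⟨h, a⟩
    | insert r F _ ih =>
      rw [show {s | s ∈ T ∧ ∀ r' ∈ insert r F, s ∈ f r'} = {s | s ∈ T ∧ ∀ r ∈ F, s ∈ f r} ∩ f r from Set.ext fun s => by simp; tauto]
      exact ⟨ih.1.inter (hf r).1, inf_le ih.1 (hf r).1 (fun _ q => p _ q.1) (hf r).2.1 ih.2 (hf r).2.2⟩
  simpa using (this Finset.univ).2

variable (hH : S.H = ⊥)
include hH

theorem P_le : P S ≤ S.US {r | 0 ≤ l r} := by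
  rw [P, PJ_eq, hH, bot_sup_eq]
  exact US_mono fun r h => h.elim l_nn fun q => (inJ_iff.1 q).ge

theorem nrm {k : ℤ} (hk : 1 ≤ k) {m a : G} (hm : m ∈ P S) (ha : a ∈ Uk S k) : m * a * m⁻¹ ∈ Uk S k :=
  (mem_normalizer_iff.1 (US_le_normalizer (T := {r | k ≤ l r}) (fun r (hr : 0 ≤ l r) => ⟨fun (q : k ≤ l r.rev) => by
    rw [l_rev] at q; omega, fun s (hs : k ≤ l s) u i j hi hj e => show k ≤ l u by rw [l_lin e]; nlinarith⟩) (P_le hH hm)) a).1 ha

omit hH in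
theorem Uk_le {k : ℤ} (hk : 1 ≤ k) : Uk S k ≤ P S := (US_mono fun r (h : k ≤ l r) => l_pos (by omega)).trans (U_le_B.trans (B_le_PJ _))

omit hH in
theorem nP {r : Root chevE8} (h : l r = 0) : S.n r 1 ∈ P S :=
  n_mem_of (x_mem_PJ (inJ_iff.2 h)) (x_mem_PJ (inJ_rev.2 (inJ_iff.2 h))) 1

omit hH in
theorem up {A : Subgroup G} (hA : ∀ m ∈ P S, ∀ a ∈ A, m * a * m⁻¹ ∈ A) {k : ℤ} (hk : 1 ≤ k) (h : A ≤ Uk S k)
    (h0 : ∀ r, l r = k → r = sroot j0 ∨ (2 ≤ l r ∧ 0 < wt r j0) → A ≤ S.US {s | k ≤ l s ∧ s ≠ r}) : A ≤ Uk S (k + 1) := by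
  have key : ∀ r, l r = k → A ≤ S.US {s | k ≤ l s ∧ s ≠ r} := fun r => by
    induction r using WellFoundedLT.induction with
    | ind r ih =>
    intro hr
    rcases or_assoc.2 ((f3 r).2.2 (by omega)) with q | ⟨i, i1, i2⟩
    · exact h0 r hr q
    have e : ∀ s, l (refl (sroot i) s) = l s := fun s => by rw [l_rf, l_s, if_neg i1]; simp
    have := ih (refl (sroot i) r) (phi_lt_iff.1 (by
      rw [← fv_phiV, ← fv_phiV, fv_rf]; have := pos_U _ (isPos_sroot i); nlinarith)) ((e r).trans hr)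
    intro a ha
    have n := nP (S := S) ((l_s i).trans (if_neg i1))
    simpa [mul_assoc] using (acts_n (sroot i) one_ne_zero).conj_mem (T' := {s | k ≤ l s ∧ s ≠ r})
      (fun s hs => ⟨(e s).ge.trans' hs.1, fun q => hs.2 (by rw [← q]; simp)⟩) (this (hA _ (inv_mem n) a ha))
  refine (fin_le (fun r => {s | k ≤ l s ∧ (l r = k → s ≠ r)}) (cl_of hk (fun _ q => q) fun _ q => q.le) (fun r (q : k ≤ l r) => l_pos (by omega))
    h fun r => ⟨cl_of hk (fun _ q => q.1) fun s q => ⟨q.le, fun a b => by rw [b] at q; omega⟩, fun s q => l_pos (by have := q.1; omega), ?_⟩).trans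
      (US_mono fun s q => show k + 1 ≤ l s from lt_of_le_of_ne q.1 fun e => (q.2 s).2 e.symm rfl)
  by_cases q : l r = k
  · simpa [q] using key r q
  · simpa [q] using h

omit hH in
theorem upk {A : Subgroup G} (hA : ∀ m ∈ P S, ∀ a ∈ A, m * a * m⁻¹ ∈ A) {k : ℤ} (hk : 2 ≤ k) (h : A ≤ Uk S k)
    (h' : ∀ a ∈ A, g0 S * a * (g0 S)⁻¹ ∈ Uk S k) : A ≤ Uk S (k + 1) := up hA (by omega) h fun r hr q => by
  have c : Closed {r | k ≤ l r} := cl_of (by omega : 1 ≤ k) (fun _ q => q) fun _ q => q.le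
  have a : A ≤ S.US (sref (sroot j0) ⁻¹' {r | k ≤ l r}) := fun a ha => by
    simpa [mul_assoc] using ((acts_n (S := S) (sroot j0) one_ne_zero).inv (sref_mem_RootAut _)).conj_mem
      (T' := sref (sroot j0) ⁻¹' {r | k ≤ l r}) (fun s hs => by simpa using hs) (h' a ha)
  refine (inf_le c (c.preimage (sref_mem_RootAut _)) (fun r (q : k ≤ l r) => l_pos (by omega)) (fun s (q : k ≤ l (refl _ s)) => ?_) h a).trans
    (US_mono fun s ⟨q1, (q2 : k ≤ l (refl _ s))⟩ => ⟨q1, ?_⟩)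
  · simpa using isPos_refl_sroot (i := j0) (l_pos (by omega : 0 < l (refl (sroot j0) s))) fun e => by rw [e, l_s, if_pos rfl] at q; omega
  · intro e
    rw [e, l_rf, l_s, if_pos rfl] at q2
    rcases q with q | q
    · rw [q, l_s, if_pos rfl] at hr; omega
    · have := q.2; omega

theorem up1 {A : Subgroup G} (hA : ∀ m ∈ P S, ∀ a ∈ A, m * a * m⁻¹ ∈ A) (h : A ≤ Uk S 1)
    (h' : ∀ a ∈ A, g0 S * a * (g0 S)⁻¹ ∈ P S) : A ≤ Uk S 2 := up (k := 1) hA le_rfl h fun r hr q => by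
  have e : r = sroot j0 := q.resolve_right fun q => absurd (hr ▸ q.1 : (2 : ℤ) ≤ 1) (by decide)
  have p1 : ∀ r ∈ {r | 1 ≤ l r}, IsPos r := fun r (q : 1 ≤ l r) => l_pos (by omega)
  have h1 : fv ψ0 (sroot j0) = 1 := (l_s j0).trans (if_pos rfl)
  have a : A ≤ S.US {s | 0 < fv (psiJ {j0}) s} := fun a ha => gen1 (ψ := ψ0) (j := j0) (M := P S) (U_le_B.trans (B_le_PJ _)) h1 (P_le hH)
    (US_mono p1 (h ha)) (h' a ha)
  have a2 := inf_le (cl_of le_rfl (fun _ q => q) fun _ q => q.le) (closed_pos _) p1 (fun r q => (fv_psi_single.1 q).1) h a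
  refine a2.trans (US_mono fun s q => ⟨q.1, ?_⟩)
  rw [e]; exact (fv_psi_single.1 q.2).2

theorem up0 (hg : S.grp = ⊤) {A : Subgroup G} (hA : ∀ m ∈ P S, ∀ a ∈ A, m * a * m⁻¹ ∈ A) (h : A ≤ P S)
    (h' : ∀ a ∈ A, g0 S * a * (g0 S)⁻¹ ∈ P S) : A ≤ Uk S 2 := by
  have hB : S.B = S.U := by rw [StSys.B, hH, sup_bot_eq]
  have UP : S.U ≤ P S := U_le_B.trans (B_le_PJ _)
  have h2 : A ⊓ Uk S 1 ≤ Uk S 2 := up1 hH (fun m hm a ha => ⟨hA m hm a ha.1, nrm hH le_rfl hm ha.2⟩) inf_le_right fun a ha => h' a ha.1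
  have L1 : ∀ c ∈ S.U, ∀ m : S.N, c * m ∈ A → ∀ β, l β = 1 → l ((S.π m).1 β) = 1 ∧ β ≤ (S.π m).1 β := fun c hc m hm β hβ => by
    obtain ⟨χ, -, a⟩ := acts_π m
    have mP : m.1 ∈ P S := (mul_mem_cancel_left (UP hc)).1 (h hm)
    have x1 : S.x β 1 ∈ Uk S 1 := x_mem_US hβ.ge 1
    have cl : ∀ r, IsPos r → r.rev ∉ {s | 2 ≤ l s ∨ l s = 1 ∧ β ≤ s} ∧ Cl r {s | 2 ≤ l s ∨ l s = 1 ∧ β ≤ s} := fun r hr => by
      have := l_nn hr
      refine ⟨fun (q : 2 ≤ l r.rev ∨ l r.rev = 1 ∧ _) => by rw [l_rev] at q; omega,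
        fun s (hs : 2 ≤ l s ∨ l s = 1 ∧ β ≤ s) u i j hi hj e => ?_⟩
      have e1 : l u = i * l r + j * l s := l_lin e
      have e2 : phi u = i * phi r + j * phi s := fv_lin (phiV _) e
      have := isPos_iff_phi.1 hr
      have := isPos_iff_phi.1 (l_pos (by omega : 0 < l s))
      have e3 : l s ≤ l u := by have : 1 ≤ l s := by omega
                                nlinarith
      rcases hs with hs | hs
      · exact .inl (hs.trans e3)
      · exact (by omega : 2 ≤ l u ∨ l u = 1).imp_right fun q => ⟨q, hs.2.trans (phi_le_iff.1 (by nlinarith))⟩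
    have z : c * m * S.x β 1 * (c * m)⁻¹ * (S.x β 1)⁻¹ ∈ Uk S 2 := h2 (mem_inf.2 ⟨by
      simpa only [mul_assoc, inv_inv] using mul_mem hm (hA _ (Uk_le le_rfl x1) _ (inv_mem hm)),
      mul_mem (nrm hH le_rfl (h hm) x1) (inv_mem x1)⟩)
    have := (mem_normalizer_iff.1 (US_le_normalizer (S := S) cl (inv_mem hc)) _).1
      (mul_mem (US_mono (fun s q => .inl q) z) (x_mem_US (.inr ⟨hβ, le_rfl⟩) 1))
    rw [show c⁻¹ * (c * m * S.x β 1 * (c * m)⁻¹ * (S.x β 1)⁻¹ * S.x β 1) * c⁻¹⁻¹ = m * S.x β 1 * m.1⁻¹ by group, a] at this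
    have pp : ∀ s ∈ {s | 2 ≤ l s ∨ l s = 1 ∧ β ≤ s}, IsPos s := fun s (q : 2 ≤ l s ∨ l s = 1 ∧ β ≤ s) => l_pos (by omega)
    refine (mem_of_x_mem_US (fun r q => (cl r (pp r q)).2) (fun r q => pos_U r (pp r q)) (by simp) this).resolve_left fun q => ?_
    have := nrm hH one_le_two (inv_mem mP) (a β 1 ▸ x_mem_US q _)
    rw [show m.1⁻¹ * (m * S.x β 1 * m.1⁻¹) * m.1⁻¹⁻¹ = S.x β 1 by group] at this
    have : 2 ≤ l β := mem_of_x_mem_US (cl_of one_le_two (fun _ q => q) fun _ q => q.le)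
      (fun r (q : 2 ≤ l r) => pos_U r (l_pos (by omega))) one_ne_zero this
    omega
  have hU : A ≤ S.U := fun a ha => by
    obtain ⟨b, hb, m, hm, b', hb', rfl⟩ := exists_bnb (hg ▸ mem_top a : a ∈ S.grp)
    rw [hB] at hb hb'
    have a1 : b' * b * (⟨m, hm⟩ : S.N) ∈ A := by simpa [mul_assoc] using hA _ (UP hb') _ ha
    have a2 : (b' * b)⁻¹ * ((⟨m, hm⟩ : S.N)⁻¹ : S.N) ∈ A := by
      simpa [mul_assoc] using hA _ (inv_mem (UP (mul_mem hb' hb))) _ (inv_mem a1)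
    have e : ∀ β, l β = 1 → (S.π ⟨m, hm⟩).1 β = β := fun β hβ => by
      obtain ⟨q1, q2⟩ := L1 _ (mul_mem hb' hb) _ a1 β hβ
      have := (L1 _ (inv_mem (mul_mem hb' hb)) _ a2 _ q1).2
      rw [map_inv] at this
      exact le_antisymm (by simpa using this) q2
    have : S.π ⟨m, hm⟩ = 1 := eq_one_of_pos fun i => by
      by_cases q : i = j0
      · rw [e _ ((l_s i).trans (if_pos q))]; exact isPos_sroot i
      obtain ⟨β, b1, b2⟩ := f4 i q
      obtain ⟨ψ, hψ⟩ := exists_fv_comp (Weyl.aut (S.π ⟨m, hm⟩)) (phiV _)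
      have e1 := fv_rf ψ i β
      rw [hψ, hψ, hψ, e β b1, e _ (by rw [l_rf, l_s, if_neg q]; simpa using b1), fv_rf, b2] at e1
      have := pos_U _ (isPos_sroot i)
      exact isPos_iff_phi.2 (by rw [← fv_phiV]; omega)
    rw [mem_bot.1 (hH ▸ π_eq_one_iff.1 this : m ∈ ⊥), mul_one]
    exact mul_mem hb hb'
  refine up1 hH hA ((fin_le (fun r => {s | IsPos s ∧ (l r = 0 → IsPos (sref r s))}) closed_isPos (fun _ q => q) hU fun r => ?_).trans
    (US_mono fun s q => show 1 ≤ l s from lt_of_le_of_ne (l_nn q.1) fun e => not_isPos_rev q.1 (by simpa using (q.2 s).2 e.symm))) h'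
  by_cases q : l r = 0
  · simp only [q, forall_true_left]
    refine ⟨closed_isPos.inter (closed_isPos.preimage (sref_mem_RootAut r)), fun _ q => q.1, fun y hy => ?_⟩
    obtain ⟨a, ha, c, hc, rfl⟩ := exists_mul_Inv (sref r) (hU hy)
    have h3 : S.n r 1 * a * (S.n r 1)⁻¹ ∈ S.U := (acts_n r one_ne_zero).conj_mem (fun r hr => hr.2) ha
    have h4 : S.n r 1 * c * (S.n r 1)⁻¹ ∈ S.B ⊓ S.V := ⟨U_le_B ((mul_mem_cancel_left h3).1 (by rw [conj_mul]; exact hU (hA _ (nP q) _ hy))),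
      (acts_n r one_ne_zero).conj_mem (fun r hr => hr.2) hc⟩
    rw [B_inf_V, mem_bot, conj_eq_one_iff] at h4
    rwa [h4, mul_one]
  · simpa [q] using ⟨closed_isPos, hU⟩

theorem gg : g0 S * g0 S = 1 := mem_bot.1 (hH ▸ n_mul_n_mem_H _ one_ne_zero one_ne_zero)

omit hH in
theorem low {k : ℤ} (hk : 1 ≤ k) {a : G} (ha : a ∈ Uk S (k + 1)) : g0 S * a * (g0 S)⁻¹ ∈ Uk S k :=
  (acts_n (sroot j0) one_ne_zero).conj_mem (fun s (q : k + 1 ≤ l s) => show k ≤ l (refl _ s) by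
    have := (f3 s).2.1 (by omega); rw [l_rf, l_s, if_pos rfl]; omega) ha

omit hH in
theorem mem_core {M Y : Subgroup G} {x : G} : x ∈ (Y.subgroupOf M).normalCore.map M.subtype ↔ x ∈ M ∧ ∀ m ∈ M, m * x * m⁻¹ ∈ Y :=
  ⟨by rintro ⟨y, hy, rfl⟩; exact ⟨y.2, fun m hm => hy ⟨m, hm⟩⟩, fun h => ⟨⟨x, h.1⟩, fun m => h.2 m m.2, rfl⟩⟩

omit hH in
theorem mem_cj {g x : G} (hg : g * g = 1) {Y : Subgroup G} : x ∈ Y.map (MulAut.conj g).toMonoidHom ↔ g * x * g⁻¹ ∈ Y := by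
  have e : ∀ y, g * (g * y * g⁻¹) * g⁻¹ = y := fun y => by
    rw [show g * (g * y * g⁻¹) * g⁻¹ = g * g * y * (g * g)⁻¹ by group, hg]; simp
  exact ⟨by rintro ⟨y, hy, rfl⟩; exact (e y).symm ▸ hy, fun h => ⟨_, h, e x⟩⟩

omit hH in
theorem step {g : G} (hg : g * g = 1) {M X Z : Subgroup G} (ZM : Z ≤ M) (nZ : ∀ m ∈ M, ∀ a ∈ Z, m * a * m⁻¹ ∈ Z) (ZX : Z ≤ X)
    (Zg : ∀ a ∈ Z, g * a * g⁻¹ ∈ X)
    (u : ∀ A : Subgroup G, (∀ m ∈ M, ∀ a ∈ A, m * a * m⁻¹ ∈ A) → A ≤ X → (∀ a ∈ A, g * a * g⁻¹ ∈ X) → A ≤ Z) :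
    Z = ((X ⊓ X.map (MulAut.conj g).toMonoidHom).subgroupOf M).normalCore.map M.subtype ∧ Z.map (MulAut.conj g).toMonoidHom =
      ((X ⊓ X.map (MulAut.conj g).toMonoidHom).subgroupOf (M.map (MulAut.conj g).toMonoidHom)).normalCore.map
        (M.map (MulAut.conj g).toMonoidHom).subtype := by
  have e : Z = ((X ⊓ X.map (MulAut.conj g).toMonoidHom).subgroupOf M).normalCore.map M.subtype :=
    le_antisymm (fun a ha => mem_core.2 ⟨ZM ha, fun m hm => mem_inf.2 ⟨ZX (nZ m hm a ha), (mem_cj hg).2 (Zg _ (nZ m hm a ha))⟩⟩)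
      (u _ (fun m hm a ha => mem_core.2 ⟨mul_mem (mul_mem hm (mem_core.1 ha).1) (inv_mem hm), fun m' hm' => by
        simpa only [mul_assoc, mul_inv_rev] using (mem_core.1 ha).2 _ (mul_mem hm' hm)⟩)
        (fun a ha => by simpa only [one_mul, inv_one, mul_one] using (mem_inf.1 ((mem_core.1 ha).2 1 (one_mem _))).1)
        fun a ha => (mem_cj hg).1 (by simpa only [one_mul, inv_one, mul_one] using (mem_inf.1 ((mem_core.1 ha).2 1 (one_mem _))).2))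
  refine ⟨e, Subgroup.ext fun x => ?_⟩
  have k : ∀ y, g * y * g⁻¹ ∈ X ⊓ X.map (MulAut.conj g).toMonoidHom ↔ y ∈ X ⊓ X.map (MulAut.conj g).toMonoidHom := fun y => by
    rw [mem_inf, mem_inf, mem_cj hg, mem_cj hg, show g * (g * y * g⁻¹) * g⁻¹ = g * g * y * (g * g)⁻¹ by group, hg, and_comm]; simp
  rw [mem_cj hg, e, mem_core, mem_core, mem_cj hg]
  refine and_congr_right fun _ => ⟨fun h m hm => (k _).1 ?_, fun h m hm => ?_⟩
  · have := h _ ((mem_cj hg).1 hm)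
    rwa [show g * m * g⁻¹ * (g * x * g⁻¹) * (g * m * g⁻¹)⁻¹ = g * (m * x * m⁻¹) * g⁻¹ by group] at this
  · have := (k _).2 (h (g⁻¹ * m * g) ((mem_cj hg).2 (by rwa [show g * (g⁻¹ * m * g) * g⁻¹ = m by group])))
    rwa [show g * (g⁻¹ * m * g * x * (g⁻¹ * m * g)⁻¹) * g⁻¹ = m * (g * x * g⁻¹) * m⁻¹ by group] at this

omit hH in
theorem x_Uk {k : ℤ} (hk : 1 ≤ k) {r : Root chevE8} (h : S.x r 1 ∈ Uk S k) : k ≤ l r :=
  mem_of_x_mem_US (cl_of hk (fun _ q => q) fun _ q => q.le) (fun r (q : k ≤ l r) => pos_U r (l_pos (by omega))) one_ne_zero h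

omit hH in
theorem U7 : Uk S 7 = ⊥ := by
  rw [Uk, show {r | 7 ≤ l r} = ∅ from Set.eq_empty_of_forall_notMem fun r (q : 7 ≤ l r) => by have := (f3 r).1; omega, US_empty]

theorem main (hg : S.grp = ⊤) : ∃ (M₁ M₂ : Subgroup G) (g : G) (A B : ℕ → Subgroup G),
      IsCoatom M₁ ∧ M₂ = M₁.map (MulAut.conj g).toMonoidHom ∧ M₁ ≠ M₂ ∧ M₁.normalCore = ⊥ ∧ A 0 = M₁ ∧ B 0 = M₂ ∧
      (∀ i, A (i + 1) = ((A i ⊓ B i).subgroupOf M₁).normalCore.map M₁.subtype) ∧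
      (∀ i, B (i + 1) = ((A i ⊓ B i).subgroupOf M₂).normalCore.map M₂.subtype) ∧ A 6 = ⊥ ∧ A 5 ≠ ⊥ := by
  let A : ℕ → Subgroup G := fun i => Nat.casesOn i (P S) fun i => Uk S (i + 2)
  have st : ∀ i, A (i + 1) = ((A i ⊓ (A i).map (MulAut.conj (g0 S)).toMonoidHom).subgroupOf (P S)).normalCore.map (P S).subtype ∧
      (A (i + 1)).map (MulAut.conj (g0 S)).toMonoidHom = ((A i ⊓ (A i).map (MulAut.conj (g0 S)).toMonoidHom).subgroupOf
        ((P S).map (MulAut.conj (g0 S)).toMonoidHom)).normalCore.map ((P S).map (MulAut.conj (g0 S)).toMonoidHom).subtype := fun i => by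
    cases i with
    | zero => exact step (Z := Uk S 2) (X := P S) (gg hH) (Uk_le one_le_two) (fun m hm a ha => nrm hH one_le_two hm ha) (Uk_le one_le_two)
                (fun a ha => Uk_le le_rfl (low le_rfl ha)) fun A a b c => up0 hH hg a b c
    | succ i =>
      have e : A (i + 1 + 1) = Uk S (i + 2 + 1) := congrArg (Uk S) (by push_cast; ring)
      rw [e]
      exact step (X := Uk S (i + 2)) (gg hH) (Uk_le (by omega)) (fun m hm a ha => nrm hH (by omega) hm ha)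
        (US_mono fun r (q : _ ≤ l r) => show _ ≤ l r by omega) (fun a ha => low (by omega) ha) fun A a b c => upk a (by omega) b c
  refine ⟨P S, _, g0 S, A, fun i => (A i).map (MulAut.conj (g0 S)).toMonoidHom, ⟨fun e => ?_, fun M hM => ?_⟩, rfl, fun e => ?_, ?_, rfl, rfl,
    fun i => (st i).1, fun i => (st i).2, U7, fun e => ?_⟩
  · exact n_mem_PJ_iff.1 (e ▸ mem_top _ : g0 S ∈ P S) rfl
  · have e := eq_PJ ((B_le_PJ _).trans hM.le) (hg ▸ le_top : M ≤ S.grp)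
    by_cases q : g0 S ∈ M
    · refine eq_top_iff.2 ((hg.ge.trans PJ_univ.ge).trans ((PJ_mono fun j _ => ?_).trans e.ge))
      by_cases h : j = j0
      · rw [h]; exact q
      · exact hM.le (n_mem_PJ h)
    · exact absurd (e.le.trans (PJ_mono fun j hj (h : j = j0) => q (by rw [h] at hj; exact hj))) hM.not_ge
  · have := x_Uk one_le_two (up0 hH hg (fun m hm a ha => mul_mem (mul_mem hm ha) (inv_mem hm)) le_rfl
      (fun a ha => (mem_cj (gg hH)).1 (e ▸ ha)) (B_le_PJ _ (U_le_B (x_mem_U (isPos_sroot j0) 1))))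
    rw [l_s, if_pos rfl] at this; omega
  · have n : ∀ m, ∀ a ∈ (P S).normalCore, m * a * m⁻¹ ∈ (P S).normalCore := fun m a ha => (normalCore_normal _).conj_mem a ha m
    have : ∀ i : ℕ, (P S).normalCore ≤ Uk S (i + 2) := fun i => by
      induction i with
      | zero => exact up0 hH hg (fun m _ => n m) (normalCore_le _) fun a ha => normalCore_le _ (n _ a ha)
      | succ i ih =>
        rw [show ((i + 1 : ℕ) : ℤ) + 2 = i + 2 + 1 by push_cast; ring]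
        exact upk (fun m _ => n m) (by omega) ih fun a ha => ih (n _ a ha)
    exact eq_bot_iff.2 ((this 5).trans U7.le)
  · obtain ⟨r, hr⟩ : ∃ r : Root chevE8, l r = 6 := by
      simp only [l_eq, agreeE8.cor_eq]
      exact (by decide +kernel : ∃ r : Fin 240, fastE8.cor r 3 = 6)
    have : S.x r 1 ∈ Uk S 7 := U7.ge (e.le (x_mem_US (T := {r | 6 ≤ l r}) hr.ge 1))
    have := x_Uk (by omega) this
    omega

end H11.C8
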