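import Cfsg.Agent.H19.Dm0

/-! Part B5 of the 3-local characterization of `S₈`: `H11.Dm.b5`. -/

set_option autoImplicit false

namespace H11.Dm
open Equiv Subgroup H19.Dm

theorem cl3 : ∀ a : A5, a ^ 3 = 1 → a = 1 ∨ ∃ n : A5, a = n * c3 * n⁻¹ := by decide +kernel

/-- an involution inverting `c3` -/
def iv : A5 := ⟨swap 0 1 * swap 3 4, Perm.mem_alternatingGroup.2 (by decide +kernel)⟩

theorem iv_c3 : iv * c3⁻¹ * iv⁻¹ = c3 := by decide +kernel

variable {G : Type*} [Group G] [Finite G]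

theorem nz {g a : G} (h : g * a * g⁻¹ ∈ zpowers a) : g ∈ normalizer (zpowers a : Set G) :=
  mem_normalizer_fintype fun n hn => by
    obtain ⟨k, rfl⟩ := mem_zpowers_iff.1 hn
    rw [← conj_zpow]; exact zpow_mem h k

theorem b5 {F : P35 →* G} {s : G} {φ : A5 × A5 →* G} (h : Hy F s) (k : HB F s φ) (H2 : Subgroup G) (hi : H2.index = 4)
    (hl : φ.range ≤ H2) (ht : F t ∉ H2) (hs : s ∉ H2) (hst : s * F t ∉ H2) (h128 : ¬ 128 ∣ Nat.card G) :
    AB (φ.codRestrict H2 fun x => hl ⟨x, rfl⟩) := by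
  classical
  have e1 : φ (c3, 1) = F z' := by rw [k.val, OneMemClass.coe_one, Prod.mk_one_one, map_one, mul_one, h.s2, mul_one]; rfl
  have e2 : φ (1, c3) = F z := by rw [← k.cs, e1, h.sz']
  have e3 : φ (c3, c3) = F (z * z') := by rw [map_mul, ← e1, ← e2, ← map_mul]; simp
  have K1 : ∀ x, F x ∈ H2 → F x ∈ φ.range := fun x hx => (k.fm x).resolve_right fun q => ht ((mul_mem_cancel_left hx).1 (hl q))
  have K2 : ∀ g ∈ H2, g ∈ normalizer (D F : Set G) → g ∈ φ.range := fun g hg hD => by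
    rcases h.hD g hD with ⟨x, rfl⟩ | ⟨x, e⟩
    · exact K1 x hg
    · rcases k.fm x with q | q <;> rw [e] at q
      · exact absurd ((mul_mem_cancel_left hg).1 (hl q)) hs
      · exact absurd ((mul_mem_cancel_left hg).1 (mul_assoc g s _ ▸ hl q)) hst
  have cs : ∀ g ∈ φ.range, s * g * s ∈ φ.range := by rintro _ ⟨⟨x, y⟩, rfl⟩; exact ⟨_, (k.cs x y).symm⟩
  have K3 : ∀ d ∈ [(1, c3), (c3, 1), (c3, c3)], ∀ g ∈ H2, g * φ d * g⁻¹ ∈ zpowers (φ d) → g ∈ φ.range := by
    simp only [List.forall_mem_cons, List.not_mem_nil, false_imp_iff, implies_true, and_true, e1, e2, e3]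
    refine ⟨fun g hg q => ?_, fun g hg q => ?_, fun g hg q => ?_⟩
    · obtain ⟨x, rfl⟩ := (h.hN g).1 (nz q)
      exact K1 x hg
    · obtain ⟨n, e⟩ := mem_zpowers_iff.1 q
      obtain ⟨x, hx⟩ := (h.hN (s * g * s)).1 (nz (mem_zpowers_iff.2 ⟨n, by
        rw [← h.sz', show s * F z' * s = s * F z' * s⁻¹ by rw [h.si'], conj_zpow, e, show s * g * s = s * g * s⁻¹ by rw [h.si']]; group⟩))
      rcases k.fm x with q | q
      · simpa only [hx, h.ss] using cs _ q
      · have := cs _ q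
        rw [h.sm, hx, h.ss, h.st'] at this
        exact absurd ((mul_mem_cancel_left hg).1 (hl this)) ht
    · have y3 : F (z * z') ^ 3 = 1 := by rw [← map_pow, show (z * z') ^ 3 = 1 by decide +kernel, map_one]
      have y1 : F (z * z') ≠ 1 := fun e => absurd (h.inj (e.trans (map_one F).symm)) (by decide +kernel)
      obtain ⟨n, n3, e⟩ := Finset.mem_image.1 (mem_zpowers_iff_mem_range_orderOf.1 q)
      have := Nat.le_of_dvd (by norm_num) (orderOf_dvd_of_pow_eq_one y3)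
      rw [Finset.mem_range] at n3
      obtain rfl | rfl | rfl : n = 0 ∨ n = 1 ∨ n = 2 := by omega
      · exact absurd (conj_eq_one_iff.1 (e.symm.trans (pow_zero _))) y1
      · exact K2 g hg (h.hy g (mul_inv_eq_iff_eq_mul.1 (e.symm.trans (pow_one _))))
      · rw [← mul_mem_cancel_left (show φ (iv, iv) ∈ φ.range from ⟨_, rfl⟩)]
        refine K2 _ (mul_mem (hl ⟨_, rfl⟩) hg) (h.hy _ (mul_inv_eq_iff_eq_mul.1 ?_))
        rw [show φ (iv, iv) * g * F (z * z') * (φ (iv, iv) * g)⁻¹ = φ (iv, iv) * (g * F (z * z') * g⁻¹) * (φ (iv, iv))⁻¹ by group, ← e,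
          eq_inv_of_mul_eq_one_left (show F (z * z') ^ 2 * F (z * z') = 1 by rwa [← pow_succ]), ← e3, ← map_inv, ← map_inv, ← map_mul,
          ← map_mul, Prod.inv_mk, Prod.inv_mk, Prod.mk_mul_mk, Prod.mk_mul_mk, iv_c3]
  have rg : ∀ g : H2, g.1 ∈ φ.range → g ∈ (φ.codRestrict H2 fun x => hl ⟨x, rfl⟩).range := fun g ⟨x, e⟩ => ⟨x, Subtype.ext e⟩
  refine ⟨fun a b e => k.inj (congrArg Subtype.val e), fun q => h128 ?_, fun d d1 d3 g hg => rg g ?_, fun g hg => rg g (K2 g g.2 ?_),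
    fun q => ?_⟩
  · rw [← H2.card_mul_index, hi]; exact mul_dvd_mul_right q 4
  · obtain ⟨m, e⟩ := mem_zpowers_iff.1 ((mem_normalizer_iff.1 hg _).1 (mem_zpowers _))
    replace e : φ d ^ m = g.1 * φ d * g.1⁻¹ := congrArg Subtype.val e
    obtain ⟨n, d0, h0, rfl⟩ : ∃ n, ∃ d0 ∈ [(1, c3), (c3, 1), (c3, c3)], d = n * d0 * n⁻¹ := by
      obtain ⟨a, b⟩ := d
      rcases cl3 a (congrArg Prod.fst d3) with rfl | ⟨x, rfl⟩ <;> rcases cl3 b (congrArg Prod.snd d3) with rfl | ⟨y, rfl⟩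
      · exact absurd rfl d1
      · exact ⟨(1, y), (1, c3), by simp, by simp⟩
      · exact ⟨(x, 1), (c3, 1), by simp, by simp⟩
      · exact ⟨(x, y), (c3, c3), by simp, by simp⟩
    have m1 : φ n ∈ φ.range := ⟨n, rfl⟩
    rw [← mul_mem_cancel_left (inv_mem m1), ← mul_mem_cancel_right m1]
    refine K3 d0 h0 _ (mul_mem (mul_mem (inv_mem (hl m1)) g.2) (hl m1)) (mem_zpowers_iff.2 ⟨m, ?_⟩)
    rw [map_mul, map_mul, map_inv, conj_zpow] at e
    rw [show φ d0 ^ m = (φ n)⁻¹ * (φ n * φ d0 ^ m * (φ n)⁻¹) * φ n by group, e]; group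
  · have := le_normalizer_map H2.subtype ⟨g, hg, rfl⟩
    rwa [MonoidHom.map_closure, Set.image_pair, Set.pair_comm, show H2.subtype _ = F z from e2, show H2.subtype _ = F z' from e1] at this
  · obtain ⟨P, hP⟩ := h.syl
    have : Fact (Nat.Prime 3) := ⟨Nat.prime_three⟩
    refine P.not_dvd_index (Nat.dvd_of_mul_dvd_mul_left (by norm_num : 0 < 9) ?_)
    rw [← h.cD, ← hP, card_mul_index, hP, h.cD]
    exact q.trans H2.card_subgroup_dvd_card

end H11.Dm
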