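import Mathlib
import Cfsg.Agent.H11.EG5
import Cfsg.Agent.L.ML2

/-! Class squares in the classical Chevalley groups (namespace `H11.EG`): `sqA`, `sqB`, `sqC`, `sqD`. -/

namespace H11.EG
open Cfsg Cfsg.Lie StSys Equiv Subgroup Matrix L.RD
attribute [-simp] zsmul_eq_mul

section
variable {n l k : ℕ} {I : Type} [Fintype I] [DecidableEq I] (M : OM n l I (Fin k))

/-- the coroot lattice -/
def CL : Submodule ℤ (Fin k → ℤ) where
  carrier := {x | ∃ γ, ∀ r : Root M.dat, fv γ r = x ⬝ᵥ M.v r}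
  add_mem' := fun ⟨a, ha⟩ ⟨b, hb⟩ => ⟨a + b, fun r => by rw [add_dotProduct, ← ha, ← hb, fv, add_dotProduct]; rfl⟩
  zero_mem' := ⟨0, by simp [fv]⟩
  smul_mem' := fun c _ ⟨a, ha⟩ => ⟨c • a, fun r => by rw [smul_dotProduct, ← ha, fv, smul_dotProduct]; rfl⟩

theorem c_mem_CL (r : Root M.dat) : M.c r ∈ CL M := ⟨cor r, M.pair_cv r⟩

/-- linear maps induced by the Weyl group -/
def Fl (f : (Fin k → ℤ) → Fin k → ℤ) : Prop := ∃ w : Weyl M.dat, ∀ r, M.v (w.1 r) = f (M.v r)

variable {M}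
theorem Fl.comp {f g} (hf : Fl M f) (hg : Fl M g) : Fl M (f ∘ g) := by
  obtain ⟨a, ha⟩ := hf
  obtain ⟨b, hb⟩ := hg
  exact ⟨a * b, fun r => (ha _).trans (congrArg f (hb r))⟩

theorem fl_refl (r : Root M.dat) : Fl M fun x => x - (M.c r ⬝ᵥ x) • M.v r :=
  ⟨⟨_, sref_mem_Weyl r⟩, fun s => (M.v_refl r s).trans (by rw [M.pair_cv])⟩

theorem fl_prod {ι : Type*} (T : Finset ι) (s : ι → Fin k → ℤ) (h : ∀ i ∈ T, Fl M (s i * ·)) : Fl M ((∏ i ∈ T, s i) * ·) :=
  Finset.prod_induction _ (fun s => Fl M (s * ·)) (fun a b ha hb => by simpa [Function.comp_def, mul_assoc] using ha.comp hb)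
    ⟨1, by simp⟩ h

theorem U_single (a : Fin k) : U (Pi.single a 1) := ⟨a, .inl rfl⟩

section
variable {T : Prop} {α β : ℤ} (hM : Crd M.toMM T α β)
include hM

theorem fl_ext (hT : T) : Fl M (-1 * ·) := by
  have := fl_prod (M := M) Finset.univ (fun a => Pi.mulSingle a (-1)) fun a _ => by
    obtain ⟨r, h1, h2⟩ := hM.ext hT (U_single a)
    have h3 := M.cv r
    convert fl_refl (M := M) r using 2 with x
    ext i
    simp only [h1, h2, smul_dotProduct, dotProduct_smul, single_dotProduct, Pi.single_eq_same, smul_eq_mul, mul_one] at h3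
    simp only [h1, h2, smul_dotProduct, single_dotProduct, Pi.mul_apply, Pi.mulSingle_apply, Pi.sub_apply, Pi.smul_apply,
      Pi.single_apply, smul_eq_mul]
    split_ifs with e
    · subst e; linear_combination (x i) * h3
    · simp
  rwa [show (∏ a : Fin k, Pi.mulSingle a (-1) : Fin k → ℤ) = -1 from Finset.univ_prod_mulSingle fun _ => -1] at this

theorem fl_mid {a b : Fin k} (h : a ≠ b) : Fl M ((Pi.mulSingle a (-1) * Pi.mulSingle b (-1)) * ·) := by
  obtain ⟨r, h1, h2⟩ := hM.mid (U_single a) (U_single b) (by simp [h])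
  obtain ⟨s, h3, h4⟩ := hM.mid (U_single a) (U_single b).neg (by simp [h])
  convert (fl_refl (M := M) r).comp (fl_refl s) using 2 with x
  ext i
  simp only [h1, h2, h3, h4, Function.comp, add_dotProduct, neg_dotProduct, single_dotProduct, Pi.mul_apply, Pi.mulSingle_apply,
    Pi.sub_apply, Pi.smul_apply, Pi.add_apply, Pi.neg_apply, Pi.single_apply, smul_eq_mul, h, h.symm, if_true, if_false]
  split_ifs with e e' e'
  · exact absurd (e.symm.trans e') h
  · subst e; ring
  · subst e'; ring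
  · ring

theorem mem_CL {a b : Fin k} (h : a ≠ b) {x : Fin k → ℤ} (hx : Even (∑ i, x i)) : x ∈ CL M := by
  have h1 : ∀ {y z}, U y → U z → y ⬝ᵥ z = 0 → y + z ∈ CL M := fun p q e => by
    obtain ⟨r, -, h⟩ := hM.mid p q e; exact h ▸ c_mem_CL M r
  obtain ⟨t, ht⟩ := hx
  have : x = ∑ i, x i • (Pi.single i 1 + -Pi.single a 1) + t • ((Pi.single a 1 + Pi.single b 1) + (Pi.single a 1 + -Pi.single b 1)) := by
    simp only [smul_add, Finset.sum_add_distrib, ← Finset.sum_smul, ht, ← Pi.single_smul, smul_eq_mul, mul_one, Finset.univ_sum_single]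
    ext i; simp only [Pi.add_apply, Pi.smul_apply, Pi.neg_apply, Pi.single_apply, smul_eq_mul]; split_ifs <;> ring
  rw [this]
  refine add_mem (Submodule.sum_mem _ fun i _ => Submodule.smul_mem _ _ ?_) (Submodule.smul_mem _ _ (add_mem
    (h1 (U_single a) (U_single b) (by simp [h])) (h1 (U_single a) (U_single b).neg (by simp [h]))))
  by_cases e : i = a
  · simp [e]
  · exact h1 (U_single i) (U_single a).neg (by simp [e])

theorem crd_bound (hα : 0 ≤ α ∧ α ≤ 2) {x : Fin k → ℤ} (hx : ∀ i, 0 ≤ x i ∧ x i ≤ 3) (r : Fin n) : x ⬝ᵥ M.v r < 8 := by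
  have h : ∀ {y}, U y → x ⬝ᵥ y ≤ 3 := fun ⟨i, e⟩ => by
    have := hx i
    rcases e with rfl | rfl <;> simp <;> omega
  rcases hM.cases r with ⟨y, z, a, b, -, -, e, -⟩ | ⟨-, y, a, e, -⟩
  · have := h a; have := h b
    rw [e, dotProduct_add]; omega
  · have := h a
    rw [e, dotProduct_smul, smul_eq_mul]; nlinarith
end

variable [Cert M.dat] {K : Type*} [Field K] [Finite K] (hK : 9 ≤ Nat.card K)
include hK

theorem sq_om {x : Fin k → ℤ} (hx : x ∈ CL M) {J : Set (Fin l)} (h0 : ∀ i, 0 ≤ x ⬝ᵥ M.v (M.sim i))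
    (h1 : ∀ i, x ⬝ᵥ M.v (M.sim i) = 0 ↔ i ∈ J) (h2 : ∀ r, x ⬝ᵥ M.v r < 8) {f} (hf : Fl M f) (hw : ∀ y, x ⬝ᵥ f y = - x ⬝ᵥ y)
    (hL : ∀ w : Weyl M.dat, (∀ r, M.v (w.1 r) = f (M.v r)) → LP (grpSys M.dat K) J w.1) : Sq (M.dat.group K) := by
  obtain ⟨γ, hγ⟩ := hx
  obtain ⟨w, h⟩ := hf
  exact sq_gen hK (γ := γ) (by simpa [hγ, M.sroot_eq] using h0) (by simpa [hγ, M.sroot_eq] using h1) (by simpa [hγ] using h2)
    (fun r => by rw [hγ, hγ, h, hw, neg_dotProduct]) (hL w h)

theorem lp_om {m : ℕ} (j : Fin (m + 2) → Fin l) {e : Fin (m + 3) → Fin k} (he : Function.Injective e)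
    (hv : ∀ i, M.v (M.sim (j i)) = Pi.single (e i.castSucc) 1 - Pi.single (e i.succ) 1 ∧
      M.c (M.sim (j i)) = Pi.single (e i.castSucc) 1 - Pi.single (e i.succ) 1)
    {p : Fin k → ℤ} (hp : p ∈ CL M) (hp' : ∀ i : Fin (m + 2), p (e i.castSucc) - p (e i.succ) = dl i 0) {w : Weyl M.dat}
    (hw : (∀ i, M.v (w.1 (M.sim (j i))) = M.v (M.sim (j i))) ∨ ∀ i, M.v (w.1 (M.sim (j i))) = - M.v (M.sim (j i))) :
    LP (grpSys M.dat K) (Set.range j) w.1 := by
  obtain ⟨γ, hγ⟩ := hp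
  refine lp_A (D := M.dat) (j := j) (ε := fun a i => M.c (M.sim i) (e a)) (p := γ) (four hK)
    ⟨fun _ => Iff.rfl, fun i => funext fun a => ?_, fun a b i => ?_⟩ (fun i => ?_) (Weyl.aut w) (hw.imp (fun h i => M.v_inj ?_) fun h i => M.v_inj ?_)
  · simp [M.wt_eq, M.sroot_eq, MM.wt, MM.pr, hv]
  · simp only [hv, Pi.sub_apply, Pi.single_apply, he.eq_iff, dl, eq_comm (a := a), eq_comm (a := b)]; ring
  · simp [hγ, M.sroot_eq, hv, hp']
  · rw [M.sroot_eq, h]
  · rw [M.v_rev, M.sroot_eq, h]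
end

/-- the shape of the simple roots -/
def Sh {Φ I : Type} {k : ℕ} [Fintype I] [DecidableEq I] (M : MM Φ k I (Fin k)) : Prop := ∀ (i : Fin k) (h : i.val + 1 < k),
  M.v (M.sim i) = Pi.single i 1 - Pi.single ⟨i + 1, h⟩ 1 ∧ M.c (M.sim i) = Pi.single i 1 - Pi.single ⟨i + 1, h⟩ 1

theorem ord_v {Φ I m : Type} [Fintype Φ] {l : ℕ} [Fintype I] [DecidableEq I] [Fintype m] (M : MM Φ l I m) (i : Fin l) :
    M.ord.v (M.ord.sim i) = M.v (M.sim i) := congrArg M.v (M.ord_sim i)
theorem ord_c {Φ I m : Type} [Fintype Φ] {l : ℕ} [Fintype I] [DecidableEq I] [Fintype m] (M : MM Φ l I m) (i : Fin l) :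
    M.ord.c (M.ord.sim i) = M.c (M.sim i) := congrArg M.c (M.ord_sim i)

theorem shB (n : ℕ) : Sh (mmB n) := fun i h => by
  simp [mmB, CM.mmO, simB, show i.val < n by omega, cmB, εJ, sub_eq_add_neg]
theorem shC (n : ℕ) : Sh (mmC n) := fun i h => by
  simp [mmC, CM.mmS, simC, show i.val < n by omega, cmC, cmJ, εJ, sub_eq_add_neg]
theorem shD (n : ℕ) : Sh (mmD n) := fun i h => by
  simp [mmD, CM.mmO, simD, show i.val ≤ n by omega, cmD, cmJ, εJ, sub_eq_add_neg]

variable {K : Type*} [Field K] [Finite K] (hK : 9 ≤ Nat.card K)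
include hK

section
variable {Φ I : Type} [Fintype Φ] [Fintype I] [DecidableEq I] {T : Prop} {α β : ℤ}

theorem sq_big {m : ℕ} {M : MM Φ (m + 4) I (Fin (m + 4))} [Cert M.ord.dat] (hM : Crd M T α β) (hα : 0 ≤ α ∧ α ≤ 2) (hs : Sh M)
    {a b : ℤ} (hab : 0 ≤ b ∧ b < a ∧ a ≤ 3) (he : Even ((m + 3) * a + b))
    (hl : 0 < (fun i => if i = Fin.last _ then b else a) ⬝ᵥ M.v (M.sim (Fin.last _))) {s : Fin (m + 4) → ℤ} (hf : Fl M.ord (s * ·))
    (h1 : ∀ i, i ≠ Fin.last _ → s i = -1) (h2 : b * s (Fin.last _) = -b) : Sq (M.ord.dat.group K) := by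
  have e : ∀ i : Fin (m + 4), (fun i => if i = Fin.last _ then b else a) ⬝ᵥ M.ord.v (M.ord.sim i) =
      if i.val < m + 2 then 0 else if i.val = m + 2 then a - b else (fun i => if i = Fin.last _ then b else a) ⬝ᵥ M.v (M.sim (Fin.last _)) :=
    fun i => by
      rw [ord_v]
      by_cases h : i.val + 1 < m + 4
      · simp only [(hs i h).1, dotProduct_sub, dotProduct_single, Fin.ext_iff, Fin.val_last]; split_ifs <;> omega
      · obtain rfl : i = Fin.last _ := Fin.ext (by have := i.2; simp; omega)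
        simp
  refine sq_om hK (mem_CL hM.ord (a := 0) (b := Fin.last _) (Fin.ne_of_val_ne (by simp)) ?_)
    (J := Set.range fun i : Fin (m + 2) => i.castSucc.castSucc) (fun i => by rw [e]; split_ifs <;> omega) (fun i => ?_)
    (crd_bound hM.ord hα fun i => by split_ifs <;> omega) hf (fun y => Finset.sum_congr rfl fun i _ => ?_) fun w hw =>
      lp_om hK _ (Fin.castSucc_injective _) (fun i => by rw [ord_v, ord_c]; exact hs _ (by simp; omega))
        (p := Pi.single 0 1 + Pi.single (Fin.last _) 1) (mem_CL hM.ord (a := 0) (b := Fin.last _) (Fin.ne_of_val_ne (by simp)) (by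
          simp [Finset.sum_add_distrib])) (fun i => ?_) (.inr fun i => ?_)
  · simpa [Fin.sum_univ_castSucc (n := m + 3), Fin.castSucc_ne_last] using he
  · rw [e]
    refine ⟨fun h => ⟨⟨i, by split_ifs at h <;> omega⟩, rfl⟩, ?_⟩
    rintro ⟨a, rfl⟩; simp
  · by_cases h : i = Fin.last _
    · subst h; simp [← mul_assoc, h2]
    · simp [h, h1 i h]
  · simp [dl, Pi.single_apply, Fin.castSucc_ne_last]
  · rw [hw, ord_v, (hs _ (by simp; omega)).1]
    ext k
    by_cases h : k = Fin.last _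
    · subst h; simp [Pi.single_apply, Fin.ext_iff]; split_ifs <;> omega
    · simp [h1 k h]

theorem sq_small {k : ℕ} {M : MM Φ (k + 2) I (Fin (k + 2))} [Cert M.ord.dat] (hM : Crd M True α β) (hα : 0 ≤ α ∧ α ≤ 2)
    (x : Fin (k + 2) → ℤ) (he : Even (∑ i, x i)) (hx : ∀ i, 0 ≤ x i ∧ x i ≤ 3) (h : ∀ i, 0 < x ⬝ᵥ M.v (M.sim i)) :
    Sq (M.ord.dat.group K) :=
  sq_om hK (mem_CL hM.ord (a := 0) (b := 1) (by simp) he) (J := ∅) (fun i => by rw [ord_v]; exact (h i).le)
    (fun i => by simp [ord_v, (h i).ne']) (crd_bound hM.ord hα hx) (fl_ext hM.ord trivial) (by simp) fun _ _ => lp_empty _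
end

omit hK in
theorem exists_par (m : ℕ) : ∃ b : ℤ, (0 < b ∧ b < 3) ∧ Even ((m + 3) * 3 + b) := by
  rcases Int.emod_two_eq_zero_or_one m with h | h
  · exact ⟨1, by omega, Int.even_iff.2 (by omega)⟩
  · exact ⟨2, by omega, Int.even_iff.2 (by omega)⟩

theorem sqB (n : ℕ) : Sq ((dB (n + 1)).group K) := by
  cases n with
  | zero => exact sq_small hK (crdB 2) (by simp) ![3, 2, 1] (by decide) (by decide) (by decide +kernel)
  | succ m =>
    obtain ⟨b, h, e⟩ := exists_par m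
    exact sq_big hK (crdB (m + 3)) (by simp) (shB _) (by omega) e (by simpa [mmB, CM.mmO, simB, cmB, εJ, Fin.last] using h.1)
      (fl_ext (crdB _).ord trivial) (by simp) (by simp)

theorem sqC (n : ℕ) : Sq ((dC n).group K) := by
  rcases n with _ | _ | m
  · exact sq_small hK (crdC 1) (by simp) ![3, 1] (by decide) (by decide) (by decide +kernel)
  · exact sq_small hK (crdC 2) (by simp) ![3, 2, 1] (by decide) (by decide) (by decide +kernel)
  · obtain ⟨b, h, e⟩ := exists_par m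
    exact sq_big hK (crdC (m + 3)) (by simp) (shC _) (by omega) e (by simpa [mmC, CM.mmS, simC, cmC, cmJ, εJ, Fin.last] using h.1)
      (fl_ext (crdC _).ord trivial) (by simp) (by simp)

theorem sqD (m : ℕ) : Sq ((dD (m + 1)).group K) :=
  sq_big hK (crdD (m + 2)) (by simp) (shD _) (a := 2) (b := 0) (by simp) (by simp) (by simp [mmD, CM.mmO, simD, cmD, cmJ, εJ, Fin.last])
    (fl_prod (Finset.univ.erase (Fin.last _)) _ fun i h => fl_mid (crdD _).ord (Finset.ne_of_mem_erase h)) (fun i h => by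
      simp [Finset.prod_apply, Pi.mulSingle_apply, h, Finset.prod_ite_eq]) (by simp)

theorem sqA (n : ℕ) : Sq ((dA n).group K) := by
  have hr : ∀ {a b : Fin (n + 3)}, a ≠ b → ∃ r, (mmA (n + 2)).ord.v r = Pi.single a 1 - Pi.single b 1 ∧
      (mmA (n + 2)).ord.c r = Pi.single a 1 - Pi.single b 1 := fun h =>
    ⟨(mmA (n + 2)).σ.symm ⟨(_, _), h⟩, congrArg (mmA (n + 2)).v (apply_symm_apply _ _), congrArg (mmA (n + 2)).c (apply_symm_apply _ _)⟩
  have hf : ∀ σ : Perm (Fin (n + 3)), Fl (mmA (n + 2)).ord (· ∘ σ) := fun σ => by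
    induction σ using Perm.swap_induction_on with
    | one => exact ⟨1, by simp⟩
    | swap_mul σ a b h ih =>
      obtain ⟨r, h1, h2⟩ := hr h
      convert ih.comp (fl_refl r) using 2 with x
      ext i
      simp only [h1, h2, Function.comp, Perm.mul_apply, sub_dotProduct, single_dotProduct, Pi.sub_apply, Pi.smul_apply, Pi.single_apply,
        smul_eq_mul, swap_apply_def]
      split_ifs with e e' e'
      · exact absurd (e.symm.trans e') h
      · rw [e]; ring
      · rw [e']; ring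
      · ring
  have hc : ∀ x : Fin (n + 3) → ℤ, ∑ i, x i = 0 → x ∈ CL (mmA (n + 2)).ord := fun x hx => by
    have : x = ∑ i, x i • (Pi.single i 1 - Pi.single 0 1) := by
      simp only [smul_sub, Finset.sum_sub_distrib, ← Finset.sum_smul, hx, zero_smul, sub_zero]
      simp only [← Pi.single_smul, smul_eq_mul, mul_one, Finset.univ_sum_single]
    rw [this]
    refine Submodule.sum_mem _ fun i _ => Submodule.smul_mem _ _ ?_
    by_cases e : i = 0
    · simp [e]
    · obtain ⟨r, -, h⟩ := hr e; exact h ▸ c_mem_CL _ r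
  have hv : ∀ (x : Fin (n + 3) → ℤ) i, x ⬝ᵥ (mmA (n + 2)).ord.v ((mmA (n + 2)).ord.sim i) = x i.castSucc - x i.succ := fun x i => by
    simp [ord_v, mmA]
  have hb : ∀ x : Fin (n + 3) → ℤ, (∀ i, -3 ≤ x i ∧ x i ≤ 3) → ∀ r, x ⬝ᵥ (mmA (n + 2)).ord.v r < 8 := fun x hx r => by
    change x ⬝ᵥ (Pi.single _ 1 - Pi.single _ 1) < 8
    rw [dotProduct_sub, dotProduct_single, dotProduct_single]
    exact lt_of_le_of_lt (sub_le_sub (mul_one (x _) ▸ (hx _).2) (mul_one (x _) ▸ (hx _).1)) (by decide)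
  have hw : ∀ (x : Fin (n + 3) → ℤ) (σ : Perm (Fin (n + 3))), x ∘ σ.symm = -x → ∀ y, x ⬝ᵥ y ∘ σ = -x ⬝ᵥ y := fun x σ h y => by
    rw [← comp_equiv_symm_dotProduct, h]
  rcases n with _ | _ | m
  · exact sq_om hK (hc ![1, 0, -1] (by decide)) (J := ∅) (by simp only [hv]; decide) (by simp only [hv, Set.mem_empty_iff_false]; decide)
      (hb _ (by decide)) (hf Fin.revPerm) (hw _ _ (by decide)) fun _ _ => lp_empty _
  · exact sq_om hK (hc ![3, 1, -1, -3] (by decide)) (J := ∅) (by simp only [hv]; decide) (by simp only [hv, Set.mem_empty_iff_false]; decide)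
      (hb _ (by decide)) (hf Fin.revPerm) (hw _ _ (by decide)) fun _ _ => lp_empty _
  · refine sq_om hK (hc (Pi.single 0 1 - Pi.single (Fin.last _) 1) (by simp)) (J := Set.range fun i : Fin (m + 2) => i.castSucc.succ)
      (fun i => ?_) (fun i => ?_) (hb _ fun i => ?_) (hf (swap 0 (Fin.last _))) (hw _ _ (funext fun i => ?_)) fun w hw =>
        lp_om hK _ (e := fun a => a.castSucc.succ) ((Fin.succ_injective _).comp (Fin.castSucc_injective _))
          (fun i => by rw [ord_v, ord_c]; exact ⟨rfl, rfl⟩) (hc (Pi.single 1 1 - Pi.single 0 1) (by simp)) (fun i => ?_) (.inl fun i => ?_)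
    · simp only [hv, Pi.sub_apply, Pi.single_apply, Fin.ext_iff]; simp; split_ifs <;> omega
    · have := i.2
      simp only [hv, Pi.sub_apply, Pi.single_apply, Fin.ext_iff, Set.mem_range, Fin.val_succ, Fin.val_castSucc, Fin.val_last, Fin.val_zero]
      refine ⟨fun h => ⟨⟨i - 1, by split_ifs at h <;> first | omega | contradiction⟩, by
        change i.val - 1 + 1 = i
        split_ifs at h <;> first | omega | contradiction⟩, fun ⟨a, h⟩ => ?_⟩
      have := a.2
      split_ifs <;> first | omega | contradiction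
    · simp only [Pi.sub_apply, Pi.single_apply]; split_ifs <;> omega
    · rw [Function.comp, symm_swap, Pi.neg_apply, Pi.sub_apply, Pi.sub_apply, neg_sub, swap_apply_def]
      split_ifs with a b
      · simp [a]
      · simp [b]
      · simp [a, b]
    · simp only [Pi.sub_apply, Pi.single_apply, Fin.ext_iff, dl, Fin.val_succ, Fin.val_castSucc, Fin.val_zero, Fin.val_one]
      split_ifs <;> omega
    · rw [hw, ord_v]
      ext k
      simp only [mmA, Function.comp, Pi.sub_apply, Pi.single_apply, swap_apply_eq_iff]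
      rw [swap_apply_of_ne_of_ne, swap_apply_of_ne_of_ne] <;> exact Fin.ne_of_val_ne (by simp <;> omega)

end H11.EG
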