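import Mathlib
import Cfsg.Agent.H11.EG5
import Cfsg.Agent.H11.Collect
import Cfsg.Agent.L.M2

/-! Class squares in `G₂(q)`, part 1 (namespace `H11.EG`): `eg'` (all fields), `sq_reg`, the Levi map `GL₂ → G₂`, `sq_levi`. -/

namespace H11.EG
open Cfsg Cfsg.Lie StSys Equiv Subgroup Matrix Matrix.SpecialLinearGroup

section
variable {D : ChevalleyDatum} [Good D] [Cert D] {K G : Type*} [Field K] [Group G] {S : StSys D K G} {hS : S.HMul}

theorem Tk.ta' {g : G} {c : Node D → Kˣ} {i : Node D} (h : Tk hS g c i) (μ : Kˣ) : Ta hS g (c * Pi.mulSingle i μ) i := by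
  obtain ⟨a, b, h, h'⟩ := h
  by_cases ha : a = 0
  · subst ha
    by_cases hb : b = 0
    · subst hb
      have := h.conj (xi_mem i 1)
      rw [cj_x hS c i 0 0 1 1 (by simp), inv_one, Pi.mulSingle_one, mul_one] at this
      exact Ta.mul ⟨_, fun e => h' ⟨rfl, rfl, Units.ext (by simp at e; rw [Units.val_one]; linear_combination -e)⟩, _, this⟩ μ
    · have := h.conj (n_mem_of (xi_mem i) (yi_mem i) 1)
      rw [x_zero, one_mul, ← conj_mul, cj_n, th, n_conj _ _ one_ne_zero, refl_self_rev, eta_self_rev, tx,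
        ← mul_one (_ * torS hS _), ← x_zero (S := S) (sroot i).rev] at this
      have h5 : Ta hS g (c * Pi.mulSingle i (chiOf c (sroot i))⁻¹) i := ⟨_, by simpa using hb, _, this⟩
      simpa [mul_assoc, ← Pi.mulSingle_mul] using h5.mul (chiOf c (sroot i) * μ)
  · exact Ta.mul ⟨a, ha, b, h⟩ μ

theorem eg' (hg : S.grp = ⊤) (hθ : Function.Injective S.θ) {g : G} (h1 : g ≠ 1) (c : Node D → Kˣ) : Big hS g c := by
  classical
  obtain ⟨c0, i0, h0⟩ := exists_tk (hS := hS) hg hθ h1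
  have all : ∀ c, (∃ i, Tk hS g c i) → ∀ i, Tk hS g c i := fun c h => by
    by_contra hn
    push Not at hn
    obtain ⟨i, hi, j, hj, e⟩ := Cert.conn (D := D) {i | ¬ Tk hS g c i} hn (h.imp fun _ h => by simpa using h)
    have hj' : Tk hS g c j := by simpa using hj
    have := hj'.ta' 1
    rw [Pi.mulSingle_one, mul_one] at this
    exact hi (this.move (fun e' => hi (e' ▸ hj')) e)
  have key : ∀ s : Finset (Node D), ∃ i, Tk hS g (c0 * ∏ j ∈ s, Pi.mulSingle j ((c0⁻¹ * c) j)) i := fun s => by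
    induction s using Finset.induction_on with
    | empty => exact ⟨i0, by simpa using h0⟩
    | insert j s hj ih =>
      obtain ⟨a, ha, b, h⟩ := (all _ ih j).ta' ((c0⁻¹ * c) j)
      refine ⟨j, a, b, ?_, fun e => ha e.1⟩
      rwa [Finset.prod_insert hj, mul_comm (Pi.mulSingle j _), ← mul_assoc]
  obtain ⟨i, a, b, ⟨u, hu, v, hv, h⟩, -⟩ := key Finset.univ
  rw [Finset.univ_prod_mulSingle, mul_inv_cancel_left] at h
  exact ⟨_, mul_mem (UJ_le_U _ hu) (x_mem_U (isPos_sroot i) a), _,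
    mul_mem (x_mem_V (not_isPos_rev (isPos_sroot i)) b) (VJ_le_V _ hv), by simpa only [mul_assoc] using h⟩

theorem cent_US (hS : S.HMul) {ψ : Node D → ℤ} (hψ : Reg ψ) {T : Set (Root D)} (hT : Closed T)
    (hp : ∀ r ∈ T, 0 < fv ψ r) {c : Node D → Kˣ} {u : G} (hu : u ∈ S.US T)
    (h : Commute u (torS hS c)) : u ∈ S.US {r | r ∈ T ∧ chiOf c r = 1} := by
  obtain ⟨L, hL, hL', -⟩ := exists_list T
  obtain ⟨t, rfl⟩ := exists_prodL hT hp hψ hL hL' hu
  have e : ∀ L : List (Root D), torS hS c * S.prodL L t * (torS hS c)⁻¹ = S.prodL L fun r => chiOf c r * t r := fun L => by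
    induction L with
    | nil => simp
    | cons a L ih => rw [prodL_cons, ← conj_mul, ih, torS_conj, prodL_cons]
  have h1 := prodL_inj' hT hp hψ (fun r => (hL r).1) hL' ((e L).symm.trans (by rw [← h.eq, mul_inv_cancel_right]))
  refine Subgroup.list_prod_mem _ fun x hx => ?_
  obtain ⟨r, hr, rfl⟩ := List.mem_map.1 hx
  by_cases h0 : t r = 0
  · simp [h0]
  · exact x_mem_US (And.intro ((hL r).1 hr) (Units.ext (mul_right_cancel₀ h0 (by simpa using h1 r hr)))) _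

/-- `g` is a product of two conjugates of `x` -/
def Pr2 (x g : G) : Prop := ∃ u v : G, g = (u * x * u⁻¹) * (v * x * v⁻¹)

omit [Good D] [Cert D] in
theorem pr2_of {x g a b : G} (h : IsConj g (a * b)) (ha : IsConj x a) (hb : IsConj x b) : Pr2 x g := by
  obtain ⟨z, rfl⟩ := isConj_iff.1 h.symm
  obtain ⟨p, rfl⟩ := isConj_iff.1 ha
  obtain ⟨q, rfl⟩ := isConj_iff.1 hb
  exact ⟨z * p, z * q, by group⟩

theorem pr2_levi [Finite G] {J : Set (Node D)} {x g a b : G} (h : Cj S g J (a * b)) (ha : a ∈ S.LJ J) (hb : b ∈ S.LJ J)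
    (ha' : IsConj x a) (hb' : IsConj x b) (h1 : ∀ u ∈ S.UJ J, Commute u a → u = 1) (h2 : ∀ u ∈ VJ S J, Commute u b → u = 1) :
    Pr2 x g := by
  obtain ⟨u, hu, v, hv, h⟩ := h
  exact pr2_of (a := u * a) (b := b * v) (by simpa only [mul_assoc] using h)
    (ha'.trans (fpf_conj (fun _ => cjU (LJ_le_PJ J ha)) h1 hu))
    (hb'.trans ((fpf_conj (fun _ => cjV hb) h2 hv).trans (isConj_iff.2 ⟨v⁻¹, by group⟩)))

theorem sq_reg [Finite K] (hg : S.grp = ⊤) (hθ : Function.Injective S.θ) {c : Node D → Kˣ} (hc : ∀ r, chiOf c r ≠ 1) {g : G}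
    (h1 : g ≠ 1) : Pr2 (torS hS c) g := by
  have := finite_of_gen hg
  obtain ⟨u, hu, v, hv, e⟩ := eg' (hS := hS) hg hθ h1 (c * c)
  have h0 : ∀ r : Root D, ¬ InJ ∅ r := fun r h => cor_ne_zero r (funext fun i => h i (Set.notMem_empty i))
  have hL : torS hS c ∈ S.LJ ∅ := mem_sup_left (torS_mem hS c)
  refine pr2_levi (J := ∅) ⟨u, US_mono (fun r h => And.intro h (h0 r)) hu, v, US_mono (fun r h => fv_neg_psi.2 ⟨h, h0 r⟩) hv,
    by rwa [← map_mul]⟩ hL hL (.refl _) (.refl _) (fun u hu => ?_) fun u hu => ?_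
  · exact eq_one_of_comm hS reg_phiV closed_isPos pos_U (fun r _ => hc r) (UJ_le_U _ hu)
  · exact eq_one_of_comm hS reg_phiV.neg closed_not_isPos pos_V (fun r _ => hc r) (VJ_le_V _ hu)
end

variable {K G : Type*} [Field K] [Group G]

theorem prod_of {M : GL (Fin 2) K} (hM : ¬ L.IsScal M.val) {τ τ' d d' : K} (p r : K) (hd : M.val.det = d * d')
    (h : p * (τ - p) - r * (r * (d * d') + p * M.val.trace - d * τ') = d) : ∃ X Y : GL (Fin 2) K, M = X * Y ∧
      (X.val.trace = τ ∧ X.val.det = d) ∧ Y.val.trace = τ' ∧ Y.val.det = d' := by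
  obtain ⟨P, hP, e⟩ := L.exists_conj_comp hM
  have h0 : d ≠ 0 := left_ne_zero_of_mul (hd ▸ M.det_ne_zero)
  have h1 : (!![p, r * (d * d') + p * M.val.trace - d * τ'; r, τ - p] : L.M2 K).det = d := by
    rw [det_fin_two_of]; linear_combination h
  let Q := GeneralLinearGroup.mkOfDetNeZero P hP
  let X := GeneralLinearGroup.mkOfDetNeZero _ (h1 ▸ h0)
  have e1 : M.val = Q.val * L.comp M.val.trace M.val.det * (Q⁻¹).val := by
    rw [Units.eq_mul_inv_iff_mul_eq]; exact e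
  have e2 : (X⁻¹).val = d⁻¹ • !![τ - p, -(r * (d * d') + p * M.val.trace - d * τ'); -r, p] := by
    rw [Units.inv_eq_of_mul_eq_one_right]
    ext i j
    fin_cases i <;> fin_cases j <;> simp [X, mul_apply, Fin.sum_univ_two] <;> field_simp
    · linear_combination h
    · ring
    · ring
    · linear_combination h
  refine ⟨Q * X * Q⁻¹, (Q * X * Q⁻¹)⁻¹ * M, by group, ⟨?_, ?_⟩, ?_, ?_⟩
  · rw [Units.val_mul, Units.val_mul, trace_units_conj]; simp [X]
  · rw [Units.val_mul, Units.val_mul, det_units_conj]; exact h1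
  · rw [show (Q * X * Q⁻¹)⁻¹ * M = Q * (X⁻¹ * (Q⁻¹ * M * Q)) * Q⁻¹ by group, Units.val_mul, Units.val_mul, trace_units_conj,
      Units.val_mul, Units.val_mul, Units.val_mul, e2]
    nth_rw 2 [e1]
    simp only [mul_assoc, Units.inv_mul_cancel_left, Units.inv_mul, mul_one, hd]
    simp [L.comp, trace_fin_two]
    field_simp; ring
  · refine mul_left_cancel₀ h0 ?_
    rw [← hd]; nth_rw 1 [← h1]
    rw [← det_units_conj Q, ← det_mul]
    exact congrArg (fun X : GL (Fin 2) K => X.val.det) (mul_inv_cancel_left (Q * X * Q⁻¹) M)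

theorem isConj_GL {X Y : GL (Fin 2) K} (hX : ¬ L.IsScal X.val) (hY : ¬ L.IsScal Y.val) (h1 : X.val.trace = Y.val.trace)
    (h2 : X.val.det = Y.val.det) : IsConj X Y := by
  obtain ⟨P, hP, e⟩ := L.exists_conj_of_trace_det hY hX h1.symm h2.symm
  exact isConj_iff.2 ⟨GeneralLinearGroup.mkOfDetNeZero P hP, mul_inv_eq_iff_eq_mul.2 (Units.ext e.symm)⟩

theorem SL2_ext {f f' : SpecialLinearGroup (Fin 2) K →* G} (h1 : ∀ t, f (transvection zero_ne_one t) = f' (transvection zero_ne_one t))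
    (h2 : ∀ t, f (transvection one_ne_zero t) = f' (transvection one_ne_zero t)) : f = f' :=
  SL_ext (Fin.forall_fin_two.2 ⟨Fin.forall_fin_two.2 ⟨fun h => absurd rfl h, fun _ => h1⟩,
    Fin.forall_fin_two.2 ⟨fun _ => h2, fun h => absurd rfl h⟩⟩)

variable {S : StSys chevG2 K G} (hS : S.HMul)

theorem sr0 : sroot (nd chevG2 0) = rt _ 7 := rfl
theorem sr1 : sroot (nd chevG2 1) = rt _ 6 := rfl

theorem exists_psi : ∃ Ψ : GL (Fin 2) K →* G, ∃ φ : SpecialLinearGroup (Fin 2) K →* G, (∀ s, Ψ (toGL s) = φ s) ∧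
    (∀ t, φ (transvection zero_ne_one t) = S.x (rt _ 7) t) ∧ (∀ t, φ (transvection one_ne_zero t) = S.x (rt _ 4) t) ∧
    (∀ c, Ψ (dg ![c (nd _ 0), (c (nd _ 0))⁻¹ * c (nd _ 1)]) = torS hS c) := by
  obtain ⟨φ, h1, h2⟩ := (S.sl2Rel (rt _ 7)).exists_hom (hS _)
  have h4 (t) : φ (H12.hEl H12.upSL H12.loSL t) = S.h (rt _ 7) t := by simp [H12.hEl, H12.wEl, h1, h2, n, h]
  have h1' : ∀ t, φ (transvection zero_ne_one t) = S.x (rt _ 7) t := fun t => by
    rw [← h1]; congr 1; ext i j; fin_cases i <;> fin_cases j <;> simp [transvection_coe]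
  have h2' : ∀ t, φ (transvection one_ne_zero t) = S.x (rt _ 4) t := fun t => by
    refine Eq.trans ?_ (h2 t); congr 1; ext i j; fin_cases i <;> fin_cases j <;> simp [transvection_coe]
  let E : Kˣ →* GL (Fin 2) K := MonoidHom.mk' (fun μ => dg ![1, μ]) fun a b => Units.ext (by
    ext i j; fin_cases i <;> fin_cases j <;> simp [dg])
  let T : Kˣ →* G := (torS hS).comp (MonoidHom.mulSingle (fun _ => Kˣ) (nd chevG2 1))
  have hE : ∀ μ, GeneralLinearGroup.det (E μ) = μ := fun μ => Units.ext (by simp [E, dg, det_diagonal])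
  have hT : ∀ μ s, φ (cj (E μ) s) = T μ * φ s * (T μ)⁻¹ := fun μ => DFunLike.congr_fun
    (SL2_ext (f := φ.comp (cj (dg ![1, μ]))) (f' := (MulAut.conj (T μ)).toMonoidHom.comp φ)
      (fun t => by simp [cj_tv, h1', T, torS_conj, chiOf_single, show wt (rt chevG2 7) (nd _ 1) = -1 from rfl])
      fun t => by simp [cj_tv, h2', T, torS_conj, chiOf_single, show wt (rt chevG2 4) (nd _ 1) = 1 from rfl])
  let s : GL (Fin 2) K → SpecialLinearGroup (Fin 2) K := fun X => ⟨(X * (E (GeneralLinearGroup.det X))⁻¹).val, by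
    rw [← GeneralLinearGroup.val_det_apply, map_mul, map_inv, hE, mul_inv_cancel, Units.val_one]⟩
  have hs : ∀ X Y, s (X * Y) = s X * cj (E (GeneralLinearGroup.det X)) (s Y) := fun X Y => Subtype.ext (by
    change (X * Y * _).val = (X * _).val * ((E _).val * (Y * _).val * (_⁻¹ : GL _ _).val)
    rw [← Units.val_mul, ← Units.val_mul, ← Units.val_mul, map_mul, map_mul]; congr 1; group)
  refine ⟨MonoidHom.mk' (fun X => φ (s X) * T (GeneralLinearGroup.det X)) fun X Y => by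
    rw [hs, map_mul, map_mul, map_mul, hT]; group, φ, fun z => ?_, h1', h2', fun c => ?_⟩
  · have : GeneralLinearGroup.det (toGL z) = 1 := Units.ext z.2
    simp only [MonoidHom.mk'_apply, this, map_one, mul_one, s, inv_one]; rfl
  · have : GeneralLinearGroup.det (dg ![c (nd _ 0), (c (nd _ 0))⁻¹ * c (nd _ 1)]) = c (nd _ 1) := Units.ext (by simp [dg, det_diagonal])
    have e : c = Pi.mulSingle (nd _ 0) (c (nd _ 0)) * Pi.mulSingle (nd _ 1) (c (nd _ 1)) := by
      ext i; fin_cases i <;> simp [Fin.ext_iff]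
    nth_rw 4 [e]
    rw [map_mul, torS_single, sr0, ← h4, MonoidHom.mk'_apply]
    simp only [s, this]
    refine congrArg₂ (· * ·) (congrArg φ (Subtype.ext ?_)) rfl
    rw [H12.coe_hEl _ (Units.ne_zero _)]
    ext i j; fin_cases i <;> fin_cases j <;> simp [E, dg, mul_apply, Fin.sum_univ_two]

theorem ns_inv {X : GL (Fin 2) K} (h : ¬ L.IsScal X.val) : ¬ L.IsScal (X⁻¹).val := fun e => h (by
  obtain ⟨a, e⟩ := L.isScal_iff.1 e
  have h1 := X.mul_inv
  rw [e, mul_smul_comm, mul_one] at h1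
  have h2 : a ≠ 0 := by rintro rfl; simp at h1
  exact L.isScal_iff.2 ⟨a⁻¹, by rw [← h1, inv_smul_smul₀ h2]⟩)

theorem cj_tau (d : Fin 2 → Kˣ) (s : SpecialLinearGroup (Fin 2) K) (δ : Kˣ) : (toGL (cj (dg d) (tau s)) * (dg ![1, δ])⁻¹).val =
    (dg d).val * Matrix.transpose ((toGL s * dg ![1, δ])⁻¹).val * ((dg d)⁻¹).val := by
  rw [_root_.mul_inv_rev, ← map_inv, Units.val_mul, Units.val_mul,
    show (toGL (cj (dg d) (tau s))).val = (dg d).val * Matrix.transpose (s⁻¹).1 * ((dg d)⁻¹).val from rfl,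
    show (toGL s⁻¹).val = (s⁻¹).1 from rfl]
  generalize (s⁻¹).1 = M
  ext i j; fin_cases i <;> fin_cases j <;> simp [dg, mul_apply, Fin.sum_univ_two] <;> ring

/-- `M` is a product of two conjugates of `X` or `X⁻¹` -/
def P2 (X M : GL (Fin 2) K) : Prop := ∃ A B, M = A * B ∧ (IsConj X A ∨ IsConj X⁻¹ A) ∧ (IsConj X B ∨ IsConj X⁻¹ B)

theorem sq_levi [Finite K] (hg : S.grp = ⊤) (hθ : Function.Injective S.θ) {X : GL (Fin 2) K} (hX : ¬ L.IsScal X.val) {k : ℕ} {l : Kˣ}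
    (hk : X ^ k = dg ![l, l]) (hl : l ≠ 1) (hd : GeneralLinearGroup.det X ≠ 1) : ∃ x : G, (∀ n, X ^ n = 1 → x ^ n = 1) ∧
      ∀ g c a b, Cj S g {nd _ 0} (S.x (rt _ 7) a * torS hS c * S.x (rt _ 4) b) → P2 X (toGL (transvection zero_ne_one a) *
        dg ![c (nd _ 0), (c (nd _ 0))⁻¹ * c (nd _ 1)] * toGL (transvection one_ne_zero b)) → Pr2 x g := by
  have := finite_of_gen hg
  obtain ⟨Ψ, φ, h0, h1, h2, h3⟩ := exists_psi hS
  have h4 : ∀ μ, Ψ (dg ![1, μ]) = torS hS (Pi.mulSingle (nd _ 1) μ) := fun μ => by rw [← h3]; simp [Fin.ext_iff]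
  have dec : ∀ Y : GL (Fin 2) K, ∃ s, Y = toGL s * dg ![1, GeneralLinearGroup.det Y] := fun Y =>
    ⟨⟨(Y * (dg ![1, GeneralLinearGroup.det Y])⁻¹).val, by
      rw [← GeneralLinearGroup.val_det_apply, map_mul, map_inv, show GeneralLinearGroup.det (dg ![1, GeneralLinearGroup.det Y]) =
        GeneralLinearGroup.det Y from Units.ext (by simp [dg, det_diagonal]), mul_inv_cancel, Units.val_one]⟩,
      mul_inv_eq_iff_eq_mul.1 (Units.ext rfl)⟩
  have ind : ∀ M : Subgroup G, (∀ t, S.x (rt _ 7) t ∈ M) → (∀ t, S.x (rt _ 4) t ∈ M) → ∀ s, φ s ∈ M := fun M a b =>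
    SL2.transvection_induction _ (Fin.forall_fin_two.2 ⟨Fin.forall_fin_two.2 ⟨fun h => absurd rfl h, fun _ t => (h1 t).symm ▸ a t⟩,
      Fin.forall_fin_two.2 ⟨fun _ t => (h2 t).symm ▸ b t, fun h => absurd rfl h⟩⟩) fun a b ha hb => by rw [map_mul]; exact mul_mem ha hb
  have hL : ∀ Y, Ψ Y ∈ S.LJ {nd _ 0} := fun Y => by
    obtain ⟨s, e⟩ := dec Y
    rw [e, map_mul, h0, h4]
    exact mul_mem (ind _ (xi_mem _) (yi_mem _) s) (mem_sup_left (torS_mem hS _))
  have fp : ∀ Y, IsConj X Y ∨ IsConj X⁻¹ Y → ∀ (ψ : Node chevG2 → ℤ) (T : Set (Root chevG2)) (r0 : Root chevG2) (e : ℤ), Reg ψ → Closed T →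
      (∀ r ∈ T, 0 < fv ψ r) → (e = 1 ∨ e = -1) → (∀ r ∈ T, r = r0 ∨ fv ([1, 2].getD · 0) r = e) → wt r0 (nd _ 1) = e →
      (∀ r ∈ [rt chevG2 7, rt _ 4], r0 ≠ r.rev ∧ Nc r r0 = 0) → ∀ u ∈ S.US T, Commute u (Ψ Y) → u = 1 := by
    intro Y hY ψ T r0 e a1 a2 a3 a4 a5 a6 a7 u hu hc
    have cen : ∀ (l : Kˣ) (P : GL (Fin 2) K), P * dg ![l, l] * P⁻¹ = dg ![l, l] := fun l P =>
      mul_inv_eq_iff_eq_mul.2 (Units.ext (L.IsScal.commute (by simp [L.IsScal, dg]) _).symm)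
    obtain ⟨l, hl, hk, hd⟩ : ∃ l ≠ 1, Y ^ k = dg ![l, l] ∧ GeneralLinearGroup.det Y ≠ 1 := by
      rcases hY with h | h <;> obtain ⟨P, rfl⟩ := isConj_iff.1 h
      · exact ⟨l, hl, by rw [conj_pow, hk, cen], by simpa using hd⟩
      · refine ⟨l⁻¹, inv_ne_one.2 hl, ?_, by simpa using hd⟩
        rw [conj_pow, inv_pow, hk, show (dg ![l, l])⁻¹ = dg ![l⁻¹, l⁻¹] from Units.ext (by
          ext i j; fin_cases i <;> fin_cases j <;> simp [dg]), cen]
    have ne : ∀ l : Kˣ, l ≠ 1 → l ^ e ≠ 1 := fun l hl => by rcases a4 with rfl | rfl <;> simpa using hl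
    have k1 := hc.pow_right k
    rw [← map_pow, hk, show Ψ (dg ![l, l]) = torS hS fun i => l ^ ([1, 2].getD i (0 : ℤ)) by
      rw [← h3]; simp [sq]] at k1
    obtain ⟨t, rfl⟩ := mem_US_singleton.1 (US_mono (T' := {r0}) (fun r h => (a5 r h.1).resolve_right fun e' =>
      ne l hl (by rw [← e', ← chiOf_zpow]; exact h.2)) (cent_US hS a1 a2 a3 hu k1))
    obtain ⟨s, e1⟩ := dec Y
    have k2 : Commute (S.x r0 t) (φ s) := (mem_centralizer_singleton_iff.1 (ind (centralizer {S.x r0 t})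
      (fun u => mem_centralizer_singleton_iff.2 (S.commute_of_Nc (a7 _ (by simp)).1 (a7 _ (by simp)).2 _ _))
      (fun u => mem_centralizer_singleton_iff.2 (S.commute_of_Nc (a7 _ (by simp)).1 (a7 _ (by simp)).2 _ _)) s)).symm
    rw [e1, map_mul, h0, h4] at hc
    have k3 := (k2.inv_right.mul_right hc).eq
    rw [inv_mul_cancel_left, tx, chiOf_single, a6, mul_left_inj] at k3
    by_contra h0
    exact ne _ hd (Units.ext (mul_right_cancel₀ (b := t) (by rintro rfl; simp at h0) (by simpa using (x_inj (congrArg S.θ k3)).symm)))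
  have cj0 : IsConj (Ψ X) (Ψ X⁻¹) := by
    obtain ⟨w, hw⟩ := exists_orth (D := chevG2) ![rt _ 11, rt _ 7] (by decide +kernel)
    replace hw : ∀ s, w.1 s = s.rev := fun s => wt_injective ((hw s).trans (by revert s; decide +kernel))
    obtain ⟨m, -, hm⟩ := exists_acts_weyl (S := S) w
    have hm1 : ∀ c, m * torS hS c * m⁻¹ = (torS hS c)⁻¹ := fun c => by
      rw [conj_torS hS (Weyl.aut w) hm, eq_inv_iff_mul_eq_one, ← map_mul]
      refine eq_one_of_commute hθ (by rw [hg]; trivial) fun r t => ?_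
      obtain ⟨r, rfl⟩ := w.1.surjective r
      rw [tx, chiOf_mul, chiOf_mact (Weyl.aut w), hw, chiOf_rev]; simp
    obtain ⟨χ, hχ, hm⟩ := hm
    have hf := DFunLike.congr_fun (SL2_ext (f := ((MulAut.conj m).toMonoidHom.comp φ).comp tau)
      (f' := φ.comp (cj (dg ![-χ (rt _ 4), 1])))
      (fun t => by
        simp only [MonoidHom.comp_apply, tau_tv, cj_tv, h1, h2, MulEquiv.coe_toMonoidHom, MulAut.conj_apply, hm, hw]
        simp; rfl)
      fun t => by
        simp only [MonoidHom.comp_apply, tau_tv, cj_tv, h1, h2, MulEquiv.coe_toMonoidHom, MulAut.conj_apply, hm, hw]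
        rw [show χ (rt _ 7) = _ from hχ (rt _ 4)]
        simp; rfl)
    obtain ⟨s, e⟩ := dec X
    generalize GeneralLinearGroup.det X = δ at e
    have e1 : tau (tau s) = s := DFunLike.congr_fun (SL_ext (f := tau.comp tau) (f' := MonoidHom.id _) fun a b e t => by
      simp [tau_tv]) s
    have e2 := cj_tau ![-χ (rt _ 4), 1] s δ
    rw [← e] at e2
    refine (isConj_iff.2 ⟨m, ?_⟩).trans (Ψ.map_isConj (isConj_GL (Y := X⁻¹) ?_ (ns_inv hX) (by
      rw [e2, trace_units_conj, trace_transpose]) (by rw [e2, det_units_conj, det_transpose])))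
    · have := hf (tau s)
      simp only [MonoidHom.comp_apply, MulEquiv.coe_toMonoidHom, MulAut.conj_apply, e1] at this
      rw [e, map_mul, map_mul, map_inv, h0, h0, h4, ← conj_mul, hm1, this]
    · have := ns_inv hX
      rw [e2]
      simpa [L.IsScal, dg, mul_apply, Fin.sum_univ_two, and_left_comm, mul_right_comm _ _ (_⁻¹ : K)] using this
  have cj1 : ∀ Y, IsConj X Y ∨ IsConj X⁻¹ Y → IsConj (Ψ X) (Ψ Y) := fun Y h =>
    h.elim (Ψ.map_isConj) fun h => cj0.trans (Ψ.map_isConj h)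
  refine ⟨Ψ X, fun n e => by rw [← map_pow, e, map_one], fun g c a b h ⟨A, B, e, hA, hB⟩ => ?_⟩
  rw [← h1, ← h2, ← h0, ← h0, ← h3, ← map_mul, ← map_mul, e, map_mul] at h
  refine pr2_levi h (hL _) (hL _) (cj1 _ hA) (cj1 _ hB) ?_ ?_
  · rw [UJ_eq]
    exact fp _ hA _ _ (rt _ 11) 1 reg_phiV (closed_pos _) (fun r hr => pos_U r (fv_psiJ_pos_iff.1 hr).1) (.inl rfl)
      (by simp only [Set.mem_ofPred_eq, fv_psi_single]; decide +kernel) rfl (by decide +kernel)
  · exact fp _ hB _ _ (rt _ 0) (-1) reg_phiV.neg (closed_pos _) (fun r hr => pos_V r (fv_neg_psi.1 hr).1) (.inr rfl)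
      (by simp only [Set.mem_ofPred_eq, fv_neg_psi, inJ_singleton]; decide +kernel) rfl (by decide +kernel)

end H11.EG
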