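import Mathlib
import Cfsg.Agent.H11.Gc1

/-! Class squares in `G₂(q)`, part 2 (namespace `H11.EG`): `good4` (a Levi decomposition with non-zero trace for `q = 4`), `sqG2'`. -/

namespace H11.EG
open Cfsg Cfsg.Lie StSys Equiv Subgroup Matrix Matrix.SpecialLinearGroup Pol

variable {K G : Type*} [Field K] [Group G] {S : StSys chevG2 K G}

section
variable (hp : ((2 : ℕ) : K) = 0)
include hp

theorem id1 (s b t e d f : K) : ∃ P, S.x (rt _ 7) s * (S.x (rt _ 5) b * (S.x (rt _ 0) t * (S.x (rt _ 1) e * (S.x (rt _ 2) d *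
    S.x (rt _ 3) f)))) * (S.x (rt _ 7) s)⁻¹ = S.x (rt _ 5) (b + s * (f + s * (d + s * e))) * (S.x (rt _ 0) P * (S.x (rt _ 1) e *
      (S.x (rt _ 2) (d + s * e) * S.x (rt _ 3) (f + s * (s * e))))) := by
  have := wordG_eq_of_col agreeG2 S.rel hp (v6 s b t e d f) (f := 50) (k := 3)
    (w := [(7, X 2), (5, X 3), (0, X 5), (1, X 7), (2, X 11), (3, X 13), (7, neg 2 (X 2))])
    (w' := [(5, add 2 (X 3) (mul 2 (X 2) (add 2 (X 13) (mul 2 (X 2) (add 2 (X 11) (mul 2 (X 2) (X 7))))))),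
      (0, [(5, 1), (182, 1), (242, 1)]), (1, X 7), (2, add 2 (X 11) (mul 2 (X 2) (X 7))),
      (3, add 2 (X 13) (mul 2 (X 2) (mul 2 (X 2) (X 7))))]) (by decide +kernel)
  simp [ev_add _ hp, ev_mul _ hp, ev_neg _ hp, ev_X2, ev_X3, ev_X5, ev_X7, ev_X11, ev_X13, v6] at this
  exact ⟨_, by rw [x_inv]; simp only [mul_assoc]; exact this⟩

theorem id2 (s t e d f : K) : ∃ P Q, S.x (rt _ 6) s * (S.x (rt _ 0) t * (S.x (rt _ 1) e * (S.x (rt _ 2) d *
    S.x (rt _ 3) f))) * (S.x (rt _ 6) s)⁻¹ = S.x (rt _ 0) t * (S.x (rt _ 1) P * (S.x (rt _ 2) Q * S.x (rt _ 3) f)) *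
      S.x (rt _ 4) (s * f) := by
  have := wordG_eq_of_col agreeG2 S.rel hp (v6 s 0 t e d f) (f := 50) (k := 3)
    (w := [(6, X 2), (0, X 5), (1, X 7), (2, X 11), (3, X 13), (6, neg 2 (X 2))])
    (w' := [(0, X 5), (1, [(7, 1), (10, 1), (8788, 1)]), (2, [(11, 1), (338, 1)]), (3, X 13), (4, mul 2 (X 2) (X 13))]) (by decide +kernel)
  simp [ev_mul _ hp, ev_neg _ hp, ev_X2, ev_X5, ev_X7, ev_X11, ev_X13, v6] at this
  exact ⟨_, _, by rw [x_inv]; simp only [mul_assoc]; exact this⟩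

theorem id3 (s a w c d e : K) : ∃ P Q, S.x (rt _ 5) s * (S.x (rt _ 7) a * (S.x (rt _ 8) w * (S.x (rt _ 9) c * (S.x (rt _ 10) d *
    S.x (rt _ 11) e)))) * (S.x (rt _ 5) s)⁻¹ = S.x (rt _ 7) (a + s * w) * (S.x (rt _ 8) w * (S.x (rt _ 9) P * (S.x (rt _ 10) Q *
      S.x (rt _ 11) e))) := by
  have := wordG_eq_of_col agreeG2 S.rel hp (v6 s a w c d e) (f := 50) (k := 3)
    (w := [(5, X 2), (7, X 3), (8, X 5), (9, X 7), (10, X 11), (11, X 13), (5, neg 2 (X 2))])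
    (w' := [(7, add 2 (X 3) (mul 2 (X 2) (X 5))), (8, X 5), (9, [(7, 1), (50, 1)]), (10, [(11, 1), (26, 1), (500, 1)]), (11, X 13)])
    (by decide +kernel)
  simp [ev_add _ hp, ev_mul _ hp, ev_neg _ hp, ev_X2, ev_X3, ev_X5, ev_X7, ev_X11, ev_X13, v6] at this
  exact ⟨_, _, by rw [x_inv]; simp only [mul_assoc]; exact this⟩

theorem good4 (hS : S.HMul) {ω : K} (hω : ω ^ 2 + ω + 1 = 0) (hg : S.grp = ⊤) (hθ : Function.Injective S.θ) {g : G} (h1 : g ≠ 1) :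
    ∃ c a b, Cj S g {nd _ 0} (S.x (rt _ 7) a * torS hS c * S.x (rt _ 4) b) ∧ (a * b ≠ 1 + chiOf c (rt _ 7) ∨ a = 0 ∧ b = 0) := by
  by_contra H
  push Not at H
  have h2 : (2 : K) = 0 := by exact_mod_cast hp
  have w0 : ω ≠ 0 := by rintro rfl; simp at hω
  have w1 : 1 + ω ≠ 0 := fun e => by grind
  have mU : ∀ r : Root chevG2, r.1 ∈ [6, 8, 9, 10, 11] → ∀ t, S.x r t ∈ S.UJ {nd _ 0} := fun r hr t => by
    rw [UJ_single]; exact x_mem_US (by revert r; simp only [Set.mem_ofPred_eq]; decide +kernel) t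
  have hV : ∀ r : Root chevG2, r ∈ [rt _ 5, rt _ 0, rt _ 1, rt _ 2, rt _ 3] ↔ r ∈ {r | 0 < fv (-psiJ {nd chevG2 0}) r} := by
    simp only [Set.mem_ofPred_eq, fv_neg_psi, inJ_singleton]; decide +kernel
  have mV : ∀ r : Root chevG2, r ∈ [rt _ 5, rt _ 0, rt _ 1, rt _ 2, rt _ 3] → ∀ t, S.x r t ∈ VJ S {nd _ 0} := fun r hr t =>
    x_mem_US ((hV r).1 hr) t
  have c7 : ∀ μ : Kˣ, chiOf (1 * Pi.mulSingle (nd chevG2 1) μ⁻¹) (rt _ 7) = μ := fun μ => by
    rw [one_mul, chiOf_single, show wt (rt chevG2 7) (nd _ 1) = -1 from rfl]; simp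
  have c1 : ∀ r : Root chevG2, chiOf (K := K) 1 r = 1 := fun r => by simp [chiOf]
  have H0 : ∀ u ∈ S.UJ {nd _ 0}, ∀ v ∈ VJ S {nd _ 0}, ¬ IsConj g (u * v) := fun u hu v hv h =>
    (H 1 0 0 ⟨u, hu, v, hv, by simpa using h⟩).2 rfl rfl
  obtain ⟨a, u, hu, v, hv, h⟩ : ∃ a, Cj S g {nd _ 0} (S.x (rt _ 7) a) := by
    obtain ⟨u0, hu0, v0, hv0, h⟩ := eg' (hS := hS) hg hθ h1 1
    obtain ⟨u, hu, a, rfl⟩ := exists_mul_x_of_mem_U (nd _ 0) hu0
    obtain ⟨b, v, hv, rfl⟩ := dec_V1 (nd _ 0) hv0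
    have k : Cj S g {nd _ 0} (S.x (rt _ 7) a * torS hS 1 * S.x (rt _ 4) b) := ⟨u, hu, v, hv, by
      simp only [mul_assoc] at h ⊢; exact h⟩
    have k1 := (H _ _ _ k).1
    rw [c1, Units.val_one, one_add_one_eq_two, h2, mul_eq_zero] at k1
    rcases k1 with rfl | rfl
    · have := k.conj (n_mem_of (xi_mem _) (yi_mem _) 1)
      rw [x_zero, map_one, one_mul, one_mul, n_conj _ _ one_ne_zero, show refl (sroot (nd chevG2 0)) (rt _ 4) = rt _ 7 from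
        refl_self_rev _] at this
      exact ⟨_, this⟩
    · exact ⟨a, by simpa using k⟩
  have H2 : ∀ u ∈ S.UJ {nd _ 0}, ∀ b t e d f, IsConj g (u * S.x (rt _ 7) a * (S.x (rt _ 5) b * (S.x (rt _ 0) t * (S.x (rt _ 1) e *
      (S.x (rt _ 2) d * S.x (rt _ 3) f))))) → a * f = b := fun u hu b t e d f h => by
    obtain ⟨s, s0, s1⟩ : ∃ s ≠ 0, 1 + b * -s ≠ 0 := by
      by_cases e : b = 1
      exacts [⟨ω, w0, fun e => by grind⟩, ⟨1, one_ne_zero, fun e => by grind⟩]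
    obtain ⟨P, Q, e1⟩ := id2 (S := S) hp s t e d f
    have e2 := cj_x hS 1 (nd _ 1) 0 b s (Units.mk0 _ s1) rfl
    rw [x_zero, map_one, one_mul, one_mul] at e2
    generalize s + 0 + _ = a', b / _ = b' at e2
    change S.x (rt _ 6) s * S.x (rt _ 5) b * (S.x (rt _ 6) s)⁻¹ = S.x (rt _ 6) a' * _ * S.x (rt _ 5) b' at e2
    have := (H (1 * Pi.mulSingle (nd _ 1) (Units.mk0 _ s1)⁻¹) a (s * f) ⟨S.x (rt _ 6) s * u * (S.x (rt _ 7) a *
      ((S.x (rt _ 6) s)⁻¹ * S.x (rt _ 6) a') * (S.x (rt _ 7) a)⁻¹), mul_mem (mul_mem (mU _ (by decide) _) hu)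
        (cjU (LJ_le_PJ _ (xi_mem _ _)) (mul_mem (inv_mem (mU _ (by decide) _)) (mU _ (by decide) _))),
      (S.x (rt _ 4) (s * f))⁻¹ * _ * (S.x (rt _ 4) (s * f))⁻¹⁻¹,
      cjV (inv_mem (yi_mem _ (s * f))) (mul_mem (mV (rt _ 5) (by decide) b') (mul_mem (mV (rt _ 0) (by decide) t)
        (mul_mem (mV (rt _ 1) (by decide) P) (mul_mem (mV (rt _ 2) (by decide) Q) (mV (rt _ 3) (by decide) f))))),
      h.trans (isConj_iff.2 ⟨S.x (rt _ 6) s, ?_⟩)⟩).1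
    · rw [c7, Units.val_mk0] at this
      exact mul_left_cancel₀ s0 (by linear_combination this + (1 - b * s) * h2)
    · rw [← conj_mul, ← conj_mul (a := S.x (rt _ 5) b), e1, e2]; group
  obtain ⟨t, rfl⟩ := exists_prodL (closed_pos _) (fun r hr => pos_V r (fv_neg_psi.1 hr).1) reg_phiV.neg hV (by decide) hv
  simp only [prodL_cons, prodL_nil, mul_one] at h
  generalize t (rt _ 5) = b, t (rt _ 0) = t0, t (rt _ 1) = e, t (rt _ 2) = d, t (rt _ 3) = f at h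
  have H3 : ∀ s, a * (f + s * (s * e)) = b + s * (f + s * (d + s * e)) := fun s => by
    obtain ⟨P, e1⟩ := id1 (S := S) hp s b t0 e d f
    refine H2 _ (cjU (LJ_le_PJ _ (xi_mem _ s)) hu) _ P e (d + s * e) _ (h.trans (isConj_iff.2 ⟨S.x (rt _ 7) s, ?_⟩))
    rw [← e1, ← conj_mul, ← conj_mul, S.add, add_comm s a, ← S.add, mul_inv_cancel_right]; rfl
  obtain ⟨rfl, rfl⟩ : b = 0 ∧ f = 0 := by
    have := H3 0; have := H3 1; have := H3 ω; have := H3 (1 + ω); grind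
  rw [x_zero, x_zero, one_mul, mul_one] at h
  have hv : S.x (rt _ 0) t0 * (S.x (rt _ 1) e * S.x (rt _ 2) d) ∈ VJ S {nd _ 0} :=
    mul_mem (mV _ (by decide) _) (mul_mem (mV _ (by decide) _) (mV _ (by decide) _))
  have hy : ∀ s, S.x (rt _ 5) s ∈ VJ S {nd _ 0} := mV _ (by decide)
  obtain ⟨u1, hu1, a1, e1⟩ := exists_mul_x_of_mem_U (nd _ 1) (mul_mem (UJ_le_U _ hu) (x_mem_U (isPos_sroot (nd _ 0)) a))
  rw [sr0] at e1
  rw [e1] at h
  obtain rfl : a1 = 0 := by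
    by_contra h0
    obtain ⟨u2, hu2, a2, e2⟩ := exists_mul_x_of_mem_U (nd _ 0) (mul_mem (UJ_le_U _ (cjU (LJ_le_PJ _ (yi_mem _ (ω / a1))) hu1))
      (x_mem_U (isPos_sroot (nd _ 1)) (a1 / Units.mk0 _ w1)))
    have e3 := yx_eq hS (sroot (nd _ 1)) (ω / a1) a1 (Units.mk0 _ w1) (by simp [h0])
    have := (H (1 * Pi.mulSingle (nd _ 1) (Units.mk0 _ w1)⁻¹) a2 0 ⟨u2, hu2, _,
      mul_mem (mul_mem (hy (ω / a1 / Units.mk0 _ w1)) hv) (inv_mem (hy (ω / a1))), h.trans (isConj_iff.2 ⟨S.x (rt _ 5) (ω / a1), ?_⟩)⟩).1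
    · rw [c7, Units.val_mk0] at this
      exact w0 (by linear_combination h2 * (-1) - this)
    · rw [x_zero, mul_one, one_mul, torS_single, ← mul_assoc u2, ← sr0, ← e2]
      change S.x (sroot (nd _ 1)).rev _ * _ * (S.x (sroot (nd _ 1)).rev _)⁻¹ = _ * (S.x (sroot (nd _ 1)).rev _ * _ * (S.x (sroot (nd _ 1)).rev _)⁻¹)
      rw [mul_assoc _ _ (S.h _ _), ← mul_inv_eq_iff_eq_mul.2 e3]; group
  rw [x_zero, mul_one] at h
  obtain ⟨t, rfl⟩ := exists_prodL (L := [rt _ 7, rt _ 8, rt _ 9, rt _ 10, rt _ 11]) (closed_pos _)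
    (fun r hr => pos_U r (fv_psiJ_pos_iff.1 hr).1) reg_phiV (by simp only [Set.mem_ofPred_eq, fv_psi_single]; decide +kernel) (by decide)
    (UJ_eq (S := S) _ ▸ hu1)
  simp only [prodL_cons, prodL_nil, mul_one] at h
  by_cases hw : t (rt _ 8) = 0
  · rw [hw, x_zero, one_mul] at h
    have k1 : ∀ r : Root chevG2, (∃ s : Root chevG2, s.1 ∈ [6, 8, 9, 10, 11] ∧ wt s = wt r - pair (rt _ 6) r • wt (rt _ 6)) → ∀ t,
        S.n (rt _ 6) 1 * S.x r t * (S.n (rt _ 6) 1)⁻¹ ∈ S.UJ {nd _ 0} := fun r ⟨s, hs, e⟩ t => by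
      rw [n_conj _ _ one_ne_zero, refl_eq e]; exact mU _ hs _
    have k2 : ∀ r : Root chevG2, (∃ s ∈ [rt _ 5, rt _ 0, rt _ 1, rt _ 2, rt _ 3], wt s = wt r - pair (rt _ 6) r • wt (rt _ 6)) → ∀ t,
        S.n (rt _ 6) 1 * S.x r t * (S.n (rt _ 6) 1)⁻¹ ∈ VJ S {nd _ 0} := fun r ⟨s, hs, e⟩ t => by
      rw [n_conj _ _ one_ne_zero, refl_eq e]; exact mV _ hs _
    have := h.trans (isConj_iff.2 ⟨S.n (rt _ 6) 1, rfl⟩)
    simp only [← conj_mul (b := S.n _ _)] at this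
    exact H0 _ (mul_mem (k1 _ (by decide +kernel) _) (mul_mem (k1 _ (by decide +kernel) _) (mul_mem (k1 _ (by decide +kernel) _)
      (k1 _ (by decide +kernel) _)))) _ (mul_mem (k2 _ (by decide +kernel) _) (mul_mem (k2 _ (by decide +kernel) _)
        (k2 _ (by decide +kernel) _))) this
  · obtain ⟨P, Q, e1⟩ := id3 (S := S) hp (-t (rt _ 7) / t (rt _ 8)) (t (rt _ 7)) (t (rt _ 8)) (t (rt _ 9)) (t (rt _ 10)) (t (rt _ 11))
    rw [div_mul_cancel₀ _ hw, add_neg_cancel, x_zero, one_mul] at e1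
    have := h.trans (isConj_iff.2 ⟨S.x (rt _ 5) (-t (rt _ 7) / t (rt _ 8)), rfl⟩)
    rw [← conj_mul, e1] at this
    exact H0 _ (mul_mem (mU _ (by decide) _) (mul_mem (mU _ (by decide) _) (mul_mem (mU _ (by decide) _) (mU _ (by decide) _)))) _
      (mul_mem (mul_mem (hy _) hv) (inv_mem (hy _))) this
end

/-- `(t, d)` is the pair (trace, determinant) of `X` or of `X⁻¹` -/
def TD (X : GL (Fin 2) K) (t d : K) : Prop := t = X.val.trace ∧ d = X.val.det ∨ t * X.val.det = X.val.trace ∧ d * X.val.det = 1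

theorem td_inv (X : GL (Fin 2) K) : (X⁻¹).val.trace * X.val.det = X.val.trace ∧ (X⁻¹).val.det * X.val.det = 1 := by
  refine ⟨?_, by rw [← det_mul, Units.inv_mul, det_one]⟩
  rw [GeneralLinearGroup.coe_inv, Matrix.inv_def, trace_smul, Ring.inverse_eq_inv', smul_eq_mul, mul_right_comm,
    inv_mul_cancel₀ X.det_ne_zero, adjugate_fin_two]
  simp [trace_fin_two, add_comm]

theorem cls {X A : GL (Fin 2) K} (hX : X.val.trace ^ 2 ≠ 4 * X.val.det) (h : TD X A.val.trace A.val.det) :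
    IsConj X A ∨ IsConj X⁻¹ A := by
  have k : ∀ Y : GL (Fin 2) K, TD X Y.val.trace Y.val.det → ¬ L.IsScal Y.val := fun Y h ⟨a, b, c⟩ => hX (by
    rw [TD, trace_fin_two Y.val, det_fin_two Y.val, a, c] at h
    rcases h with ⟨h, h'⟩ | ⟨h, h'⟩
    · rw [← h, ← h']; ring
    · rw [← h]; linear_combination 4 * X.val.det * h')
  obtain ⟨a, b⟩ := td_inv X
  exact h.imp (fun e => isConj_GL (k _ (.inl ⟨rfl, rfl⟩)) (k _ h) e.1.symm e.2.symm) fun e => isConj_GL (k _ (.inr ⟨a, b⟩)) (k _ h)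
    (mul_right_cancel₀ X.det_ne_zero (a.trans e.1.symm)) (mul_right_cancel₀ X.det_ne_zero (b.trans e.2.symm))

theorem p2_of {X M : GL (Fin 2) K} (hX : X.val.trace ^ 2 ≠ 4 * X.val.det) (hM : ¬ L.IsScal M.val) {τ τ' d d' : K} (p r : K)
    (h1 : TD X τ d) (h2 : TD X τ' d') (hd : M.val.det = d * d') (h : p * (τ - p) - r * (r * (d * d') + p * M.val.trace - d * τ') = d) :
    P2 X M := by
  obtain ⟨A, B, e, ⟨rfl, rfl⟩, rfl, rfl⟩ := prod_of hM p r hd h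
  exact ⟨A, B, e, cls hX h1, cls hX h2⟩

theorem fin_of [Finite K] (hS : S.HMul) (hg : S.grp = ⊤) (hθ : Function.Injective S.θ) {X : GL (Fin 2) K}
    (hX : ¬ L.IsScal X.val) {k m p : ℕ} {l : Kˣ} (hk : X.val ^ k = !![l.val, 0; 0, l.val]) (hl : l.val ≠ 1) (hd : X.val.det ≠ 1)
    (hm : l.val ^ m = 1) (hp : ¬ p ∣ k * m) (H : ∀ g ≠ 1, ∃ c a b, Cj S g {nd _ 0} (S.x (rt _ 7) a * torS hS c * S.x (rt _ 4) b) ∧
      ∀ (M : GL (Fin 2) K) (u v : K), u = c (nd _ 0) → u * v = c (nd _ 1) → M.val = !![u + a * b * v, a * v; b * v, v] → P2 X M) :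
    ∃ x : G, ¬ p ∣ orderOf x ∧ ∀ g ≠ 1, Pr2 x g := by
  have hk' : X ^ k = dg ![l, l] := Units.ext (by
    rw [Units.val_pow_eq_pow_val, hk]; ext i j; fin_cases i <;> fin_cases j <;> simp [dg])
  obtain ⟨x, h1, h2⟩ := sq_levi hS hg hθ hX hk' (fun e => hl (congrArg Units.val e)) fun e => hd (congrArg Units.val e)
  refine ⟨x, fun e => hp (e.trans (orderOf_dvd_of_pow_eq_one (h1 _ (Units.ext ?_)))), fun g hg => ?_⟩
  · rw [pow_mul, hk', Units.val_pow_eq_pow_val]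
    simp only [dg, diagonal_pow]
    ext i j; fin_cases i <;> fin_cases j <;> simp [hm]
  · obtain ⟨c, a, b, h, h'⟩ := H g hg
    refine h2 g c a b h (h' _ _ ((c (nd _ 0))⁻¹ * c (nd _ 1) : Kˣ) rfl (by simp) ?_)
    ext i j; fin_cases i <;> fin_cases j <;> simp [dg, transvection_coe, mul_apply, Fin.sum_univ_two] <;> ring

theorem sq_odd [Finite K] (hS : S.HMul) (hg : S.grp = ⊤) (hθ : Function.Injective S.θ) {τ : K} {k p : ℕ} (h2 : (-1 : K) ≠ 1)
    (hτ : τ ^ 2 ≠ 4 * -1) (hk : !![0, 1; 1, τ] ^ k = !![-1, 0; 0, -1]) (hp : ¬ p ∣ k * 2)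
    (H : ∀ t, ∃ p r, p * (τ - p) - r * (r + p * t + τ) = -1 ∨ p * (τ - p) - r * (r + p * t - τ) = -1) :
    ∃ x : G, ¬ p ∣ orderOf x ∧ ∀ g ≠ 1, Pr2 x g := by
  let X := GeneralLinearGroup.mkOfDetNeZero !![0, 1; 1, τ] (by simp)
  have e1 : X.val.trace = τ := by simp [X]
  have e2 : X.val.det = -1 := by simp [X]
  refine fin_of hS hg hθ (X := X) (l := -1) (m := 2) (by simp [X, L.IsScal]) hk h2 (e2 ▸ h2) (by simp) hp fun g h1 => ?_
  obtain ⟨u0, hu0, v0, hv0, h⟩ := eg' (hS := hS) hg hθ h1 1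
  obtain ⟨u, hu, a, rfl⟩ := exists_mul_x_of_mem_U (nd _ 0) hu0
  obtain ⟨b, v, hv, rfl⟩ := dec_V1 (nd _ 0) hv0
  refine ⟨1, a, b, ⟨u, hu, v, hv, by simp only [mul_assoc] at h ⊢; exact h⟩, fun M x y hx hy e => ?_⟩
  simp only [Pi.one_apply, Units.val_one] at hx hy
  subst hx
  rw [one_mul] at hy
  subst hy
  by_cases hM : L.IsScal M.val
  · refine ⟨X, X⁻¹, Units.ext ?_, .inl (.refl _), .inr (.refl _)⟩
    rw [mul_inv_cancel, hM.eq_smul, hM.2.2, e]; simp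
  · obtain ⟨p, r, h | h⟩ := H M.val.trace
    · exact p2_of (by rwa [e1, e2]) hM p r (.inl ⟨e1.symm, e2.symm⟩) (.inl ⟨e1.symm, e2.symm⟩) (by simp [e]) (by linear_combination h)
    · exact p2_of (τ' := -τ) (d' := -1) (by rwa [e1, e2]) hM p r (.inl ⟨e1.symm, e2.symm⟩) (.inr (by simp [e1, e2])) (by simp [e])
        (by linear_combination h)

theorem sq_four [Finite K] (hS : S.HMul) (hg : S.grp = ⊤) (hθ : Function.Injective S.θ) (h2 : (2 : K) = 0) {ω : K}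
    (hω : ω ^ 2 + ω + 1 = 0) (h3 : ∀ t : K, t ≠ 0 → t = 1 ∨ t = ω ∨ t = ω + 1) : ∃ x : G, ¬ 2 ∣ orderOf x ∧ ∀ g ≠ 1, Pr2 x g := by
  have w0 : ω ≠ 0 := by rintro rfl; simp at hω
  have w1 : ω ≠ 1 := fun e => by grind
  let X := GeneralLinearGroup.mkOfDetNeZero !![0, -ω; 1, 1] (by simpa using w0)
  have e1 : X.val.trace = 1 := by simp [X]
  have e2 : X.val.det = ω := by simp [X]
  have hX : X.val.trace ^ 2 ≠ 4 * X.val.det := by rw [e1, e2]; grind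
  have t1 : TD X 1 ω := .inl ⟨e1.symm, e2.symm⟩
  have t2 : TD X (ω + 1) (ω + 1) := .inr (by rw [e1, e2]; grind)
  refine fin_of hS hg hθ (X := X) (l := Units.mk0 ω w0) (k := 5) (m := 3) (by simp [X, L.IsScal]) ?_ w1 (e2 ▸ w1)
    (by rw [Units.val_mk0]; grind) (by decide) fun g h1 => ?_
  · ext i j; fin_cases i <;> fin_cases j <;> simp [X, pow_succ] <;> grind
  obtain ⟨c, a, b, h, h'⟩ := good4 (by exact_mod_cast h2) hS hω hg hθ h1
  refine ⟨c, a, b, h, fun M u v hu hv e => ?_⟩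
  have hc : (chiOf c (rt _ 7) : K) * v = u := by
    refine mul_left_cancel₀ (hu ▸ (c _).ne_zero : u ≠ 0) ?_
    rw [mul_left_comm, hv, hu]
    rw [show chiOf c (rt _ 7) = c (nd _ 0) ^ (2 : ℤ) * c (nd _ 1) ^ (-1 : ℤ) from Fin.prod_univ_two _]
    simp [sq]
  have v0 : v ≠ 0 := right_ne_zero_of_mul (hv ▸ (c _).ne_zero)
  by_cases hM : L.IsScal M.val
  · obtain ⟨k1, k2⟩ := td_inv X
    rw [e1, e2] at k1
    rw [e2] at k2
    have e3 : M.val = v • 1 := by rw [hM.eq_smul, hM.2.2, e]; simp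
    rcases h3 v v0 with rfl | rfl | rfl
    · exact ⟨X, X⁻¹, Units.ext (by simp [e3]), .inl (.refl _), .inr (.refl _)⟩
    · refine ⟨X, X⁻¹ * M, by group, .inl (.refl _), cls hX (.inl ?_)⟩
      rw [Units.val_mul, e3, mul_smul_comm, mul_one, trace_smul, det_smul, e1, e2, smul_eq_mul, Fintype.card_fin]; grind
    · refine ⟨X⁻¹, X * M, by group, .inr (.refl _), cls hX (.inr ?_)⟩
      rw [Units.val_mul, e3, mul_smul_comm, mul_one, trace_smul, det_smul, e1, e2, smul_eq_mul, Fintype.card_fin]; grind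
  have ht : M.val.trace ≠ 0 := fun e' => by
    rw [e, trace_fin_two_of] at e'
    rcases h' with h' | ⟨rfl, rfl⟩
    · exact h' (mul_right_cancel₀ v0 (by grind))
    · exact hM (by rw [e]; simp [L.IsScal]; grind)
  rcases h3 _ M.det_ne_zero with hd | hd | hd <;> rcases h3 _ ht with ht | ht | ht
  · exact p2_of hX hM 1 (ω + 1) t1 t2 (by grind) (by grind)
  · exact p2_of hX hM 1 1 t1 t2 (by grind) (by grind)
  · exact p2_of hX hM ω ω t1 t2 (by grind) (by grind)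
  · exact p2_of hX hM 1 1 t2 t2 (by grind) (by grind)
  · exact p2_of hX hM 1 ω t2 t2 (by grind) (by grind)
  · exact p2_of hX hM ω 1 t2 t2 (by grind) (by grind)
  · exact p2_of hX hM ω 1 t1 t1 (by grind) (by grind)
  · exact p2_of hX hM 1 ω t1 t1 (by grind) (by grind)
  · exact p2_of hX hM 1 1 t1 t1 (by grind) (by grind)

theorem sqG2' [Fintype K] (p : ℕ) [hp : Fact p.Prime] [CharP K p] (h3 : 3 ≤ Fintype.card K) (hg : S.grp = ⊤)
    (hθ : Function.Injective S.θ) : ∃ x : G, ¬ p ∣ orderOf x ∧ ∀ g ≠ 1, Pr2 x g := by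
  have hS := S.hMul_of_finite
  have hq : p ∣ Fintype.card K := (CharP.cast_eq_zero_iff K p _).1 (FiniteField.cast_card_eq_zero K)
  have odd : ∀ (n : ℕ) [NeZero n] (τ : ZMod n) (k : ℕ), Fintype.card K = n → n.Prime → ((-1 : ZMod n) ≠ 1 ∧ τ ^ 2 ≠ 4 * -1 ∧
      !![0, 1; 1, τ] ^ k = !![-1, 0; 0, -1] ∧ ¬ n ∣ k * 2 ∧ ∀ t, ∃ p r, p * (τ - p) - r * (r + p * t + τ) = -1 ∨
        p * (τ - p) - r * (r + p * t - τ) = -1) → ∃ x : G, ¬ p ∣ orderOf x ∧ ∀ g ≠ 1, Pr2 x g := by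
    rintro n _ τ k e hn ⟨a1, a2, a3, a4, a5⟩
    obtain rfl := (Nat.prime_dvd_prime_iff_eq hp.1 hn).1 (e ▸ hq)
    obtain ⟨f1, f2⟩ := ZMod.castHom_bijective K e
    generalize ZMod.castHom _ K = f at f1 f2
    refine sq_odd hS hg hθ (τ := f τ) (fun e => a1 (f1 (by simpa using e))) (fun e => a2 (f1 (by simpa [map_ofNat] using e))) ?_ a4
      fun t => ?_
    · have := congrArg f.mapMatrix a3
      rw [map_pow] at this
      convert this <;> ext i j <;> fin_cases i <;> fin_cases j <;> simp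
    · obtain ⟨t, rfl⟩ := f2 t
      obtain ⟨p, r, h⟩ := a5 t
      exact ⟨f p, f r, h.imp (fun e => by simpa using congrArg f e) fun e => by simpa using congrArg f e⟩
  obtain e | e | e | e | e : Fintype.card K = 3 ∨ Fintype.card K = 4 ∨ Fintype.card K = 5 ∨ Fintype.card K = 6 ∨ 7 ≤ Fintype.card K := by
    omega
  · exact odd 3 1 4 e (by norm_num) (by decide +kernel)
  · obtain rfl : p = 2 := (Nat.prime_dvd_prime_iff_eq hp.1 Nat.prime_two).1 (hp.1.dvd_of_dvd_pow (n := 2) (by rwa [e] at hq))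
    have h2 : (2 : K) = 0 := CharP.cast_eq_zero K 2
    have k : ∀ t : K, t ≠ 0 → t ^ 3 = 1 := fun t h => by simpa [e] using FiniteField.pow_card_sub_one_eq_one t h
    obtain ⟨ω, w0, w1⟩ : ∃ ω : K, ω ≠ 0 ∧ ω ≠ 1 := by
      classical
      by_contra! h
      have := Finset.card_le_card (show (Finset.univ : Finset K) ⊆ {0, 1} from fun t _ => by simpa [or_iff_not_imp_left] using h t)
      have := Finset.card_le_two (a := (0 : K)) (b := 1)
      rw [Finset.card_univ] at *; omega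
    have hω : ω ^ 2 + ω + 1 = 0 := by have := k ω w0; grind
    exact sq_four hS hg hθ h2 hω fun t h => by have := k t h; grind
  · exact odd 5 2 6 e (by norm_num) (by decide +kernel)
  · exact absurd (e ▸ Fintype.isPrimePow_card_of_field (α := K)) (by decide +kernel)
  · obtain ⟨g, h⟩ := IsCyclic.exists_generator (α := Kˣ)
    have h1 := orderOf_eq_card_of_forall_mem_zpowers h
    rw [Nat.card_units, Nat.card_eq_fintype_card] at h1
    refine ⟨torS hS fun i => g ^ ([3, 5].getD i (0 : ℤ)), fun e' => ?_, fun x h => sq_reg hg hθ (fun r e' => ?_) h⟩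
    · have : p ∣ Fintype.card K - 1 := e'.trans (orderOf_dvd_of_pow_eq_one (by
        rw [← map_pow, ← map_one (torS hS)]; congr 1; ext1 i
        rw [Pi.pow_apply, ← zpow_natCast, ← _root_.zpow_mul, mul_comm, _root_.zpow_mul, zpow_natCast, ← h1, pow_orderOf_eq_one, _root_.one_zpow,
          Pi.one_apply]))
      exact hp.1.one_lt.ne' (Nat.dvd_one.1 ((Nat.dvd_sub_iff_right (by omega) hq).1 this))
    · rw [chiOf_zpow, ← orderOf_dvd_iff_zpow_eq_one, h1] at e'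
      have : fv (fun i : Node chevG2 => [3, 5].getD i (0 : ℤ)) r ≠ 0 ∧ |fv (fun i : Node chevG2 => [3, 5].getD i (0 : ℤ)) r| < 6 := by
        clear e'; revert r; decide +kernel
      exact this.1 (Int.eq_zero_of_abs_lt_dvd e' (by omega))

end H11.EG
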