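import Cfsg.Agent.H11.SgInj

/-! Homocyclic subgroups of twisted maximal tori (`exists_homo`), certificates `HC`, and the homocyclic Sylow subgroups
(`sylow_homo`). -/

namespace H11
open Cfsg Cfsg.Lie StSys Set Polynomial

variable {D : ChevalleyDatum} [Good D] [Cert D] {K G : Type*} [Field K] [Group G]

theorem TorE.exists_hom {T : Subgroup (Node D → Kˣ)} (h : TorE G T) {A : Type*} [Group A] (f : A →* (Node D → Kˣ))
    (h1 : ∀ a, f a ∈ T) (h2 : ∀ a, mact (cartanM D) (f a) = 1 → a = 1) : ∃ g : A →* G, Function.Injective g := by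
  obtain ⟨j, hj, hr⟩ := h
  have h3 (a) : ((torS hMul_grp).comp f) a ∈ j.range := (hr.ge ⟨_, h1 a, rfl⟩).1
  refine ⟨(MonoidHom.ofInjective hj).symm.toMonoidHom.comp (MonoidHom.codRestrict _ _ h3), (MonoidHom.ofInjective hj).symm.injective.comp
    ((injective_iff_map_eq_one _).2 fun a e => h2 a (torS_ker_le hMul_grp (show torS hMul_grp (f a) = 1 from congrArg Subtype.val e)))⟩

omit [Good D] [Cert D] in
theorem prod_zpow_zpow {M ι κ : Type*} [CommGroup M] [Fintype ι] [Fintype κ] (x : ι → M) (v : ι → κ → ℤ) (A : κ → ℤ) :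
    ∏ k, (∏ i, x i ^ v i k) ^ A k = ∏ i, x i ^ ∑ k, v i k * A k := by
  simp only [← Finset.prod_zpow, ← zpow_mul, zpow_sum']; exact Finset.prod_comm

theorem exists_homo.{u} {K : Type u} [Field K] [Fintype K]
    (hi : ∀ (Ω : Type u) [Field Ω], Function.Injective (torS (hMul_sg (D := D) (K := Ω)))) (w : Weyl D) {a m N : ℕ}
    (hm : m.Coprime (Fintype.card K)) (hN : m.Coprime N) (v b : Fin a → Node D → ℤ)
    (h1 : ∀ i j, (m : ℤ) ∣ Fintype.card K * ∑ k, v i k * corM w.1 k j - v i j)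
    (h2 : ∀ i i', ∑ j, (∑ k, v i k * cartanM D k j) * b i' j = if i = i' then (N : ℤ) else 0) :
    ∃ f : (Fin a → Multiplicative (ZMod m)) →* D.group K, Function.Injective f := by
  obtain ⟨Ω, _, _, _, hk⟩ := exists_big K
  obtain ⟨σ, h3, h4⟩ := exists_frobΩ (algebraMap K Ω)
  have : NeZero (m : Ω) := ⟨fun e => by
    obtain ⟨x, y, e'⟩ := Nat.isCoprime_iff_coprime.2 hm
    have := congrArg (Int.cast : ℤ → Ω) e'
    rw [Int.cast_add, Int.cast_mul, Int.cast_mul, Int.cast_natCast, Int.cast_natCast, e, ← map_natCast (algebraMap K Ω),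
      FiniteField.cast_card_eq_zero] at this
    simp at this⟩
  have : NeZero m := .of_neZero_natCast Ω
  obtain ⟨ζ, hζ⟩ := HasEnoughRootsOfUnity.exists_primitiveRoot Ω m
  obtain ⟨ζ, rfl⟩ := hζ.isUnit (NeZero.ne m)
  rw [IsPrimitiveRoot.coe_units_iff] at hζ
  let χ : Multiplicative (ZMod m) →* Ωˣ := (Subgroup.zpowers ζ).subtype.comp hζ.zmodEquivZPowers.toMultiplicativeLeft.toMonoidHom
  have hχ : Function.Injective χ := (Subgroup.subtype_injective _).comp hζ.zmodEquivZPowers.toMultiplicativeLeft.injective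
  have h5 (x : Multiplicative (ZMod m)) : x ^ m = 1 := by simpa using pow_card_eq_one (x := x)
  let f : (Fin a → Multiplicative (ZMod m)) →* (Node D → Ωˣ) := MonoidHom.mk' (fun x k => ∏ i, χ (x i) ^ v i k) fun x y => by
    ext1 k; simp [mul_zpow, Finset.prod_mul_distrib]
  refine (torE_untw h3 h4 (hi Ω) hk w).exists_hom f (fun x => funext fun j => ?_) fun x e => funext fun i' => ?_
  · have : twc 1 (fun _ => σ) (f x) = f x ^ Fintype.card K := by ext; simp [twc, h3]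
    rw [MonoidHom.comp_apply, this, map_pow, Pi.pow_apply, mact_apply]
    change (∏ k, (∏ i, χ (x i) ^ v i k) ^ _) ^ _ = ∏ i, χ (x i) ^ v i j
    rw [prod_zpow_zpow, ← Finset.prod_pow]
    refine Finset.prod_congr rfl fun i _ => ?_
    obtain ⟨c, hc⟩ := h1 i j
    rw [← zpow_natCast, ← zpow_mul, mul_comm, eq_add_of_sub_eq hc, zpow_add, zpow_mul, zpow_natCast, ← map_pow, h5]; simp
  · have : ∏ j, (∏ k, (∏ i, χ (x i) ^ v i k) ^ cartanM D k j) ^ b i' j = 1 :=
      Finset.prod_eq_one fun j _ => (congrArg (· ^ b i' j) (congrFun e j)).trans (one_zpow _)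
    simp only [prod_zpow_zpow, h2, pow_ite, zpow_zero, Finset.prod_ite_eq', Finset.mem_univ, if_true, zpow_natCast, ← map_pow,
      map_eq_one_iff _ hχ] at this
    simpa [hN.gcd_eq_one] using pow_gcd_eq_one.2 ⟨h5 _, this⟩

/-- certificate for a homocyclic subgroup of a twisted torus -/
structure HC where
  w : List ℕ
  a : ℕ
  k : ℕ
  N : ℕ
  M : List (List ℤ)
  V : List (List (List ℤ))
  B : List (List ℤ)

/-- check of a certificate against the coefficient list `φ` -/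
noncomputable def Fast.chkHC (F : Fast) (T : HC) (φ : List ℤ) : Bool :=
  T.w.all (Nat.blt · F.l) && allLt F.l (fun i => allLt F.l fun j => g2 T.M i j == F.cor (T.w.foldr F.rf (F.sim i)) j) &&
  allLt T.a fun i => allLt F.l (fun j => sumLt F.l (fun t => g2 (T.V.getD i []) T.k t * g2 T.M t j) == 0 &&
    g2 (T.V.getD i []) 0 j == g2 (T.V.getD i []) 0 j * φ.getD 0 0 * φ.getD 0 0 &&
    allLt T.k fun s => sumLt F.l (fun t => g2 (T.V.getD i []) s t * g2 T.M t j) - g2 (T.V.getD i []) (s + 1) j ==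
      -(g2 (T.V.getD i []) 0 j * φ.getD 0 0) * φ.getD (s + 1) 0) &&
    allLt T.a fun i' => allLt (T.k + 1) fun s => sumLt F.l (fun j => sumLt F.l (fun t => g2 (T.V.getD i []) s t * F.wt (F.sim j) t) *
      g2 T.B i' j) == if i = i' ∧ s = 0 then (T.N : ℤ) else 0

theorem Agree.exists_hc.{u} {F : Fast} (A : Agree D F) {K : Type u} [Field K] [Fintype K]
    (hi : ∀ (Ω : Type u) [Field Ω], Function.Injective (torS (hMul_sg (D := D) (K := Ω)))) {T : HC} {φ : List ℤ}
    (h : F.chkHC T φ = true) {m : ℕ} (hm : m.Coprime (Fintype.card K)) (hN : m.Coprime T.N)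
    (hφ : (m : ℤ) ∣ pv (T.k + 1) (φ.getD · 0) (Fintype.card K)) :
    ∃ f : (Fin T.a → Multiplicative (ZMod m)) →* D.group K, Function.Injective f := by
  simp only [Fast.chkHC, allLt_iff, Bool.and_eq_true, beq_iff_eq, List.all_eq_true, Nat.blt_eq] at h
  obtain ⟨⟨h0, h1⟩, h2⟩ := h
  have hl := A.lt_l
  obtain ⟨w, hw⟩ : ∃ w : List (Node D), w.map Fin.val = T.w :=
    ⟨T.w.pmap (fun i hi => ⟨i, hi⟩) fun i hi => A.l_eq ▸ h0 i hi, by simp [List.map_pmap]⟩
  refine exists_homo hi (wp sW w) hm hN (fun i j => pv (T.k + 1) (fun s => g2 (T.V.getD i []) s j) (Fintype.card K))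
    (fun i j => g2 T.B i j) (fun i j => hφ.trans ⟨-(g2 (T.V.getD i []) 0 j * φ.getD 0 0), ?_⟩) fun i i' => ?_
  · obtain ⟨⟨h3, h4⟩, h5⟩ := (h2 i i.2).1 j (hl j)
    have e (t : Node D) : corM (wp sW w : Weyl D).1 t j = g2 T.M t j := by
      rw [h1 t (hl t) j (hl j), corM, Matrix.of_apply, A.cor_eq, A.wp_val, A.sv, hw]
    simp only [e, mul_comm (pv _ _ _), pv_sum]
    simp only [A.sum_eq, mul_comm _ (g2 T.M _ _)] at h3 h5
    rw [pv_shift (χ := (φ.getD · 0)) h3 (by rw [neg_neg]; exact h4) h5, mul_comm]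
  · have e (s) (hs : s < T.k + 1) : ∑ j : Node D, g2 T.B i' j * ∑ t : Node D, cartanM D t j * g2 (T.V.getD i []) s t =
        if i = i' ∧ s = 0 then (T.N : ℤ) else 0 := by
      simpa only [A.sum_eq, cartanM, Matrix.of_apply, A.wt_eq, A.sv, Fin.ext_iff, mul_comm] using (h2 i i.2).2 i' i'.2 s hs
    simp only [mul_comm (pv _ _ _), pv_sum]
    rw [pv, Finset.sum_range_succ', e 0 (by omega), Finset.sum_eq_zero fun s hs => by
      rw [e _ (by simpa using hs), if_neg (by omega), zero_mul]]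
    simp

omit [Good D] [Cert D]

theorem val_cyc {r q d : ℕ} [hr : Fact r.Prime] (hq : 1 < q) (hd : orderOf (q : ZMod r) = d) (h0 : 0 < d) :
    padicValNat r (q ^ d - 1) = padicValNat r ((cyclotomic d ℤ).eval (q : ℤ)).natAbs := by
  have h1 := congrArg (fun f => (f.eval (q : ℤ)).natAbs) (prod_cyclotomic_eq_X_pow_sub_one h0 ℤ)
  have h2 : 1 < q ^ d := Nat.one_lt_pow h0.ne' hq
  simp only [← Nat.cons_self_properDivisors h0.ne', Finset.prod_cons, eval_mul, Int.natAbs_mul, eval_sub, eval_pow, eval_X, eval_one] at h1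
  rw [show (q : ℤ) ^ d - 1 = ((q ^ d - 1 : ℕ) : ℤ) by push_cast [h2.le]; rfl, Int.natAbs_natCast] at h1
  have h3 : q ^ d - 1 ≠ 0 := by omega
  rw [← h1] at h3 ⊢
  rw [padicValNat.mul (left_ne_zero_of_mul h3) (right_ne_zero_of_mul h3), padicValNat.eq_zero_of_not_dvd (n := Int.natAbs (eval _ (∏ _ ∈ _, _))),
    add_zero]
  rw [← Int.natCast_dvd, eval_prod, (Nat.prime_iff_prime_int.1 hr.out).dvd_finsetProd_iff]
  rintro ⟨e, he, h4⟩
  have h5 := h4.trans (eval_dvd (x := (q : ℤ)) (cyclotomic.dvd_X_pow_sub_one e ℤ))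
  rw [← ZMod.intCast_zmod_eq_zero_iff_dvd] at h5
  simp only [eval_sub, eval_pow, eval_X, eval_one, Int.cast_sub, Int.cast_pow, Int.cast_natCast, Int.cast_one, sub_eq_zero,
    ← orderOf_dvd_iff_pow_eq_one, hd] at h5
  exact (Nat.le_of_dvd (Nat.pos_of_mem_properDivisors he) h5).not_gt (Nat.mem_properDivisors.1 he).2

theorem dvd_pow_sub_one_iff {r q e : ℕ} (hq : 0 < q) : r ∣ q ^ e - 1 ↔ orderOf (q : ZMod r) ∣ e := by
  rw [orderOf_dvd_iff_pow_eq_one, ← ZMod.natCast_eq_zero_iff, Nat.cast_sub (Nat.one_le_pow _ _ hq), sub_eq_zero]; simp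

theorem val_prod {r q : ℕ} [hr : Fact r.Prime] (h2 : r ≠ 2) (hq : 1 < q) (hrq : ¬ r ∣ q) (L : List ℕ) (hL : ¬ r ∣ L.prod) :
    (L.map (q ^ · - 1)).prod ≠ 0 ∧ padicValNat r (L.map (q ^ · - 1)).prod =
      padicValNat r (q ^ orderOf (q : ZMod r) - 1) * (L.filter (fun e => orderOf (q : ZMod r) ∣ e)).length := by
  induction L with
  | nil => simp
  | cons e L ih =>
    rw [List.prod_cons] at hL
    obtain ⟨h3, h4⟩ := ih fun h => hL (h.mul_left _)
    have h5 : ¬ r ∣ e := fun h => hL (h.mul_right _)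
    have h6 : 1 < q ^ e := Nat.one_lt_pow (by rintro rfl; simp at h5) hq
    rw [List.map_cons, List.prod_cons, padicValNat.mul (by omega) h3, h4, List.filter_cons]
    refine ⟨mul_ne_zero (by omega) h3, ?_⟩
    by_cases h : orderOf (q : ZMod r) ∣ e
    · obtain ⟨s, rfl⟩ := id h
      have := padicValNat.pow_sub_pow (hr.out.odd_of_ne_two h2) (x := q ^ orderOf (q : ZMod r)) (y := 1) (n := s)
        (Nat.one_lt_pow (by intro e; simp [e] at h5) hq) ((dvd_pow_sub_one_iff (by omega)).2 dvd_rfl)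
        (fun h => hrq (hr.out.dvd_of_dvd_pow h)) (by rintro rfl; simp at h5)
      rw [one_pow, ← pow_mul, padicValNat.eq_zero_of_not_dvd (n := s) fun h => h5 (h.mul_left _)] at this
      simp [this, mul_add, add_comm]
    · rw [padicValNat.eq_zero_of_not_dvd (mt (dvd_pow_sub_one_iff (by omega)).1 h)]; simp [h]

/-- `φ` lists the coefficients of a polynomial vanishing at the primitive `d`-th roots of unity -/
def PhiD (d k : ℕ) (φ : List ℤ) : Prop :=
  ∃ L : List ℕ, (∀ e ∈ L, 0 < e ∧ e < d) ∧ ∀ q : ℤ, q ^ d - 1 ∣ pv (k + 1) (φ.getD · 0) q * (L.map (q ^ · - 1)).prod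

theorem sylow_homo.{u} [Good D] [Cert D] {F : Fast} (A : Agree D F) {K : Type u} [Field K] [Fintype K] {q : ℕ} (hq : Fintype.card K = q)
    (hi : ∀ (Ω : Type u) [Field Ω], Function.Injective (torS (hMul_sg (D := D) (K := Ω)))) (L : List ℕ) (h2 : 2 ∣ L.prod) {n : ℕ}
    (hG : Nat.card (D.group K) ∣ q ^ n * (L.map (q ^ · - 1)).prod) (T : ℕ → HC) (φ : ℕ → List ℤ) (E : List ℕ)
    (hE : ∀ e ∈ L, ∀ d ∈ e.divisors, d ∈ E) (hT : ∀ d ∈ E, F.chkHC (T d) (φ d) = true ∧ (T d).N ∣ L.prod ∧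
      (T d).a = (L.filter (d ∣ ·)).length ∧ (T d).k + 1 = (φ d).length) (hφ : ∀ d ∈ E, PhiD d ((φ d).length - 1) (φ d))
    (r : ℕ) [hr : Fact r.Prime] (hrq : ¬ r ∣ q) (hrW : ¬ r ∣ L.prod) (hrG : r ∣ Nat.card (D.group K)) (P : Sylow r (D.group K)) :
    Nonempty (P ≃* (Fin (L.filter (fun e => orderOf (q : ZMod r) ∣ e)).length →
      Multiplicative (ZMod (r ^ padicValNat r ((cyclotomic (orderOf (q : ZMod r)) ℤ).eval (q : ℤ)).natAbs)))) := by
  have h1 : 1 < q := hq ▸ Fintype.one_lt_card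
  obtain ⟨h3, h4⟩ := val_prod (by rintro rfl; exact hrW h2) h1 hrq L hrW
  obtain ⟨e, he', h5⟩ := (Nat.Prime.prime hr.out).dvd_prod_iff.1 (((Nat.Prime.dvd_mul hr.out).1 (hrG.trans hG)).resolve_left
    fun h => hrq (hr.out.dvd_of_dvd_pow h))
  obtain ⟨e, he, rfl⟩ := List.mem_map.1 he'
  have h6 : e ≠ 0 := by rintro rfl; exact hrW (by rw [List.prod_eq_zero he]; simp)
  rw [dvd_pow_sub_one_iff (by omega)] at h5
  have h7 := hE e he _ (Nat.mem_divisors.2 ⟨h5, h6⟩)
  generalize hd : orderOf (q : ZMod r) = d at *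
  obtain ⟨a1, a2, a3, a4⟩ := hT d h7
  obtain ⟨L', b1, b2⟩ := hφ d h7
  rw [← val_cyc h1 hd (Nat.pos_of_dvd_of_pos h5 (by omega)), ← a3]
  rw [← a3] at h4
  generalize hv : padicValNat r (q ^ d - 1) = v at *
  have h8 : ((r ^ v : ℕ) : ℤ) ∣ (q : ℤ) ^ d - 1 := by
    have := Int.natCast_dvd_natCast.2 (hv ▸ pow_padicValNat_dvd (p := r) (n := q ^ d - 1))
    rwa [Nat.cast_sub (Nat.one_le_pow _ _ (by omega)), Nat.cast_pow q, Nat.cast_one] at this
  obtain ⟨f, hf⟩ := A.exists_hc (K := K) hi a1 (m := r ^ v) (hq ▸ (hr.out.coprime_iff_not_dvd.2 hrq).pow_left _)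
    ((hr.out.coprime_iff_not_dvd.2 fun h => hrW (h.trans a2)).pow_left _) (by
      rw [hq, show (T d).k = (φ d).length - 1 by omega]
      refine IsCoprime.dvd_of_dvd_mul_right ?_ (h8.trans (b2 q))
      rw [Nat.cast_pow]
      refine ((Nat.prime_iff_prime_int.1 hr.out).coprime_iff_not_dvd.2 fun h => ?_).pow_left
      obtain ⟨_, hx', h⟩ := (Nat.prime_iff_prime_int.1 hr.out).dvd_prod_iff.1 h
      obtain ⟨x, hx, rfl⟩ := List.mem_map.1 hx'
      rw [show (q : ℤ) ^ x - 1 = ((q ^ x - 1 : ℕ) : ℤ) by push_cast [Nat.one_le_pow _ _ (show 0 < q by omega)]; rfl,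
        Int.natCast_dvd_natCast, dvd_pow_sub_one_iff (by omega), hd] at h
      exact (Nat.le_of_dvd (b1 x hx).1 h).not_gt (b1 x hx).2)
  have h9 : Nat.card f.range = r ^ (v * (T d).a) := by
    rw [← Nat.card_congr (MonoidHom.ofInjective hf).toEquiv]; simp [pow_mul]
  have h10 : Nat.card (D.group K) ≠ 0 := Nat.card_pos.ne'
  refine ⟨(Sylow.equiv P (Sylow.ofCard f.range ?_)).trans (MonoidHom.ofInjective hf).symm⟩
  rw [h9, Nat.factorization_def _ hr.out]
  congr 1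
  refine le_antisymm ((padicValNat_dvd_iff_le h10).1 (h9 ▸ Subgroup.card_subgroup_dvd_card _)) ?_
  have h11 := (padicValNat_dvd_iff_le (mul_ne_zero (by positivity) h3)).1 ((pow_padicValNat_dvd (p := r)).trans hG)
  rwa [padicValNat.mul (by positivity) h3, h4, padicValNat.eq_zero_of_not_dvd fun h => hrq (hr.out.dvd_of_dvd_pow h), zero_add] at h11

end H11
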