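import Mathlib

/-! A computation in `S₆`: the overgroups of a Sylow `2`-subgroup of `A₆` (`tA_spec`). -/

namespace H11.Pm
open Equiv

/-- the two involutions of `S₆` whose centralizers give the parabolic subgroups of `A₆` -/
def tA : Bool → Perm (Fin 6) := fun i => if i then swap 4 5 else swap 0 1 * swap 2 3 * swap 4 5

theorem tA_spec : (∀ g : Perm (Fin 6), Perm.sign g = 1 → (∀ i, g * tA i = tA i * g) ∨
    ∃ s ∈ [swap 2 3 * swap 4 5, swap 0 1 * swap 4 5, swap 0 2 * swap 1 3, swap 0 3 * swap 1 2], ∃ i,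
      g * s * g⁻¹ * (swap 0 1 * swap 2 3) * g * tA i = tA i * (g * s * g⁻¹ * (swap 0 1 * swap 2 3) * g) ∧
      g * s * g⁻¹ * (swap 0 1 * swap 2 3) * g * tA (!i) ≠ tA (!i) * (g * s * g⁻¹ * (swap 0 1 * swap 2 3) * g)) ∧
    (∀ i, Fintype.card {g : Perm (Fin 6) // Perm.sign g = 1 ∧ g * tA i = tA i * g} = 24) ∧
    Fintype.card {g : Perm (Fin 6) // Perm.sign g = 1 ∧ ∀ i, g * tA i = tA i * g} = 8 ∧
    ∀ s ∈ [swap 0 1 * swap 2 3, swap 2 3 * swap 4 5, swap 0 1 * swap 4 5, swap 0 2 * swap 1 3, swap 0 3 * swap 1 2],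
      Perm.sign s = 1 ∧ ∀ i, s * tA i = tA i * s := by decide +kernel

end H11.Pm
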