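import Mathlib
import Cfsg.Agent.H11.LtX
import Cfsg.Agent.H12.LtX

/-! `p`-minimal groups over a normal subgroup with a split BN-pair: `no_cycle` (finite Coxeter groups), `setup`, `coatom_of`,
`lt_main`, `am_main`. -/

namespace H11.Pm
open Cfsg H12.Lt H12.St H12.Ri H11.Lx

section cox
variable {ι W : Type*} [Group W] {s : ι → W} {A : ι → W → Prop} (h : PreCox s A) (hs : Function.Injective s)
include h hs

theorem desc_two {i j : ι} (e : i ≠ j) {w : W} (h1 : ¬ A i w) (h2 : ¬ A j w) :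
    ¬ A j (s i * w) ∧ (A j (s i * s j) → ¬ A i (s j * (s i * w))) := by
  obtain ⟨a, ha, d, hd, rfl⟩ := exists_min h {i, j} w
  have hi : i ∈ ({i, j} : Set ι) := .inl rfl
  have hj : j ∈ ({i, j} : Set ι) := .inr rfl
  have k : ∀ k ∈ ({i, j} : Set ι), ∀ b ∈ par s {i, j}, A k (b * d) ↔ A k b := fun k hk b hb => by
    rw [h.iff_len, h.iff_len, ← mul_assoc, len_mul_of_least h hd hb, len_mul_of_least h hd (mul_mem (mem_par_self hk) hb),
      add_lt_add_iff_right]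
  have a1 := mul_mem (mem_par_self hi) ha
  have a2 := mul_mem (mem_par_self hj) a1
  rw [k i hi a ha] at h1
  rw [k j hj a ha] at h2
  rw [← mul_assoc, ← mul_assoc, k j hj _ a1, k i hi _ a2]
  have h3 : ¬ A j (s i * a) := fun b => by
    by_cases c : s i * a = 1
    · obtain rfl : a = s i := by rw [← h.mul_mul i a, c, mul_one]
      exact e ((h.s_mem_par_iff hs).1 (h.s_mem_par_of_not (mem_par_self (J := {i}) rfl) h2)).symm
    · obtain ⟨_, rfl | rfl, c⟩ := h.exists_not_par a1 c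
      exacts [h1 (not_not.1 (mt h.iff_not.2 c)), c b]
  refine ⟨h3, fun b c => ?_⟩
  by_cases c' : s j * (s i * a) = 1
  · rw [← h.mul_mul i a, ← h.mul_mul j (s i * a), c', mul_one] at h2
    exact h2 b
  · obtain ⟨_, rfl | rfl, c'⟩ := h.exists_not_par a2 c'
    exacts [c' c, h3 (not_not.1 (mt h.iff_not.2 c'))]

theorem no_cycle [Finite W] [Nonempty ι] (h3 : ∀ i j, s i * s j ≠ s j * s i → A j (s i * s j))
    (h1 : ∀ i j, ∃ k ≠ j, s i * s k ≠ s k * s i) : False := by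
  have key : ∀ n, ∃ w i j, len s w = n ∧ A i w ∧ (∀ k, ¬ A k w → k = j) ∧ ∀ k, ¬ A k (s i * w) → k = i := fun n => by
    induction n with
    | zero =>
      obtain ⟨i⟩ := ‹Nonempty ι›
      exact ⟨1, i, i, len_one _, h.one _, fun k a => (a (h.one k)).elim, fun k a =>
        (h.s_mem_par_iff (J := {i}) hs).1 (h.s_mem_par_of_not (mem_par_self (J := {i}) rfl) (by rwa [mul_one] at a))⟩
    | succ n ih =>
      obtain ⟨w, i, j, a, b, c, d⟩ := ih
      obtain ⟨k, e, f⟩ := h1 i j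
      have g : A k (s i * w) := by
        by_contra g
        obtain rfl := d k g
        exact f rfl
      refine ⟨s i * w, k, i, by rw [h.len_of b, a], g, d, fun l hl => ?_⟩
      by_contra e'
      obtain ⟨a1, a2⟩ := desc_two h hs (Ne.symm e') (h.not _ _ g) hl
      rw [h.mul_mul] at a1 a2
      obtain rfl := d l a1
      rw [h.mul_mul] at a2
      exact e (c k (a2 (h3 _ _ f.symm)))
  have : Finite ℕ := .of_surjective (len s) fun n => (key n).imp fun _ ⟨_, _, a, _⟩ => a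
  exact not_finite ℕ

end cox

section lt
variable {ι W G : Type*} [Group W] [Group G] {p : ℕ} {s : ι → W} {A : ι → W → Prop} {δ : G → W} {P : Set ι → Subgroup G}
  {U H N : Subgroup G} {ν : ι → G} {X : ι → Subgroup G} (C : LT p s A δ P U H N ν X)
include C

theorem nu_mem_P {i : ι} {J : Set ι} : ν i ∈ P J ↔ i ∈ J := by rw [C.mem, C.nu, C.cox.s_mem_par_iff C.inj]

theorem mp_unique {α : MulAut G} {i j k : ι} (h : Mp α (P {i}) (P {j})) (h' : Mp α (P {i}) (P {k})) : j = k :=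
  (nu_mem_P C (J := {k})).1 (by simpa using (h' (α⁻¹ (ν j))).2 ((h _).1 (by simp [nu_mem_P C])))

theorem top_le {M : Subgroup G} (hB : P ∅ ≤ M) (h : ∀ i, P {i} ≤ M) : M = ⊤ :=
  eq_top_iff.2 (C.univ.ge.trans (C.P_le hB fun i _ => ⟨_, h i ((nu_mem_P C).2 rfl), C.nu i⟩))

variable [Finite G] [Fact p.Prime]

theorem mp_props {α : MulAut G} (h : Mp α U U) : (∀ i j, Mp α (P {i}) (P {j}) → Nat.card (X i) = Nat.card (X j)) ∧
    ∀ i j k l, Mp α (P {i}) (P {k}) → Mp α (P {j}) (P {l}) → s k * s l = s l * s k → s i * s j = s j * s i := by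
  obtain ⟨n0, hn0, ht⟩ := C.exists_n0
  obtain ⟨g, hg⟩ := exists_conj C hn0 ht α
  have h0 : g ∈ P ∅ := by
    have := hg.1.mul h.inv
    rw [mul_inv_cancel_right] at this
    exact C.norm_U (Subgroup.mem_normalizer_iff.2 fun u => (this u).symm)
  have h4 : ∀ i j, Mp α (P {i}) (P {j}) → Mp (MulAut.conj g * α) (P {i}) (P {j}) := fun i j a x => by
    rw [← a, MulAut.mul_apply, MulAut.conj_apply, mul_mem_cancel_right (inv_mem (C.B_le _ h0)), mul_mem_cancel_left (C.B_le _ h0)]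
  generalize MulAut.conj g * α = β at hg h4
  choose π h1 h2 h3 using exists_perm C hn0 ht hg
  have h5 : ∀ i j, Mp α (P {i}) (P {j}) → π i = j := fun i j a => by
    have := (h4 i j a _).2 ((nu_mem_P C).2 rfl)
    rwa [C.mem, (h3 i _ (C.nu_mem i) (C.nu i)).2, C.cox.s_mem_par_iff C.inj] at this
  refine ⟨fun i j a => h5 i j a ▸ (h1 i).card, fun i j k l a b e => ?_⟩
  obtain rfl := h5 _ _ a
  obtain rfl := h5 _ _ b
  have a := h3 i _ (C.nu_mem i) (C.nu i)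
  have b := h3 j _ (C.nu_mem j) (C.nu j)
  have c := C.N_eq (mul_mem a.1 b.1) (mul_mem b.1 a.1) (by rw [C.mul _ a.1 _ b.1, C.mul _ b.1 _ a.1, a.2, b.2, e])
  rw [← map_mul, ← map_mul, ← map_inv, ← map_mul, mp_H C hn0 ht hg] at c
  rw [← C.nu, ← C.nu, ← C.mul _ (C.nu_mem i) _ (C.nu_mem j), ← C.mul _ (C.nu_mem j) _ (C.nu_mem i), ← C.left (C.H_le c),
    inv_mul_cancel_right]

/-- a group of automorphisms transitive on the nodes forces rank at most two -/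
theorem rank_le (h : ∀ i j, ∃ α : MulAut G, Mp α U U ∧ Mp α (P {i}) (P {j})) {i j : ι} (e : i ≠ j) (k : ι) : k = i ∨ k = j := by
  by_contra! hk
  have := C.finW
  have : Nonempty ι := ⟨i⟩
  obtain ⟨a, b, c, h1, h2, h3⟩ : ∃ a b c, b ≠ c ∧ s a * s b ≠ s b * s a ∧ s a * s c ≠ s c * s a := by
    obtain ⟨i', e', b, -, h1⟩ := C.conn {i} ⟨i, rfl⟩ ⟨j, e.symm⟩
    obtain rfl : i = i' := e'.symm
    obtain ⟨a, rfl | rfl, c, h2, h3⟩ := C.conn {i, b} ⟨i, .inl rfl⟩ (by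
      by_cases a : b = j
      · exact ⟨k, by simp [a, hk.1, hk.2]⟩
      · exact ⟨j, by simp [e.symm, Ne.symm a]⟩)
    · exact ⟨a, b, c, fun e => h2 (.inr e.symm), h1, h3⟩
    · exact ⟨a, i, c, fun e => h2 (.inl e.symm), h1.symm, h3⟩
  refine no_cycle C.cox C.inj (fun i j a => (C.len_three a).1) fun x y => ?_
  obtain ⟨α, h4, h5⟩ := h a x
  obtain ⟨b', h6⟩ := exists_P C h4 b
  obtain ⟨c', h7⟩ := exists_P C h4 c
  by_cases a : b' = y
  · exact ⟨c', fun e => h1 (mp_unique C h6.inv (by rw [a, ← e]; exact h7.inv)), mt ((mp_props C h4).2 _ _ _ _ h5 h7) h3⟩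
  · exact ⟨b', a, mt ((mp_props C h4).2 _ _ _ _ h5 h6) h2⟩

end lt

variable {X : Type*} [Group X] {p : ℕ} [Fact p.Prime] {K : Subgroup X} [K.Normal]

/-- conjugation action on the normal subgroup -/
abbrev cn : X →* MulAut K := MulAut.conjNormal

omit [Fact p.Prime] in
theorem mem_norm {L : Subgroup K} {x : X} : x ∈ Subgroup.normalizer (L.map K.subtype : Set X) ↔ Mp (cn x) L L := by
  have h : ∀ g : K, (g : X) ∈ L.map K.subtype ↔ g ∈ L := fun g => Subgroup.mem_map_iff_mem K.subtype_injective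
  rw [Subgroup.mem_normalizer_iff]
  refine ⟨fun a g => by rw [← h, ← h, a g]; rfl, fun a g => ⟨?_, fun b => ?_⟩⟩
  · rintro ⟨g, hg, rfl⟩
    exact (h (cn x g)).2 ((a g).2 hg)
  · have c : g ∈ K := by simpa [mul_assoc] using ‹K.Normal›.conj_mem _ (Subgroup.map_subtype_le _ b) x⁻¹
    exact (h ⟨g, c⟩).2 ((a _).1 ((h (cn x ⟨g, c⟩)).1 b))

omit [Fact p.Prime] in
theorem mp_self {L : Subgroup K} {x : K} (h : x ∈ L) : Mp (cn (x : X)) L L := fun g => by
  rw [show cn (x : X) g = x * g * x⁻¹ from rfl, mul_mem_cancel_right (inv_mem h), mul_mem_cancel_left h]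

omit [Fact p.Prime] in
theorem mp_of {S : Subgroup X} {L : Subgroup K} (h : ∀ x ∈ S, ∀ g ∈ L, cn x g ∈ L) {x : X} (hx : x ∈ S) : Mp (cn x) L L :=
  fun g => ⟨fun a => by simpa using h _ (inv_mem hx) _ a, h x hx g⟩

variable [Finite X]

theorem setup (hX : IsPMinimal p X) (U : Sylow p K) (hn : ¬ U.1.Normal) : ∃ S M : Subgroup X, IsPGroup p S ∧ S ≤ M ∧ IsCoatom M ∧
    Subgroup.normalizer (U.1.map K.subtype : Set X) ≤ M ∧ M.subgroupOf K ≠ ⊤ ∧ (∀ x ∈ S, Mp (cn x) U.1 U.1) ∧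
    (∀ x : K, x.1 ∈ S → x ∈ U.1) ∧ ∀ L : Subgroup K, U.1 ≤ L → L ≠ ⊤ → (∀ x ∈ S, ∀ g ∈ L, cn x g ∈ L) → L ≤ M.subgroupOf K := by
  obtain ⟨S, hS⟩ := (U.2.map K.subtype).exists_le_sylow
  obtain ⟨-, M, ⟨h1, h2⟩, h3⟩ := hX S
  have h4 : ∀ L, L ≠ ⊤ → S.1 ≤ L → L ≤ M := fun L a b =>
    ((eq_top_or_exists_le_coatom L).resolve_left a).elim fun _ c => h3 _ ⟨c.1, b.trans c.2⟩ ▸ c.2
  have h5 : S.1.subgroupOf K = U.1 := U.3 S.2.comap_subtype (Subgroup.map_le_iff_le_comap.1 hS)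
  have h6 : ∀ x ∈ S.1, Mp (cn x) U.1 U.1 := fun x hx => mp_of (fun x hx g hg => h5 ▸ by
    rw [← h5] at hg
    exact S.1.mul_mem (S.1.mul_mem hx hg) (S.1.inv_mem hx)) hx
  have h7 := h4 (Subgroup.normalizer (U.1.map K.subtype : Set X)) (fun e => hn ⟨fun u hu g => (mem_norm.1 (e.ge (Subgroup.mem_top g.1)) u).2 hu⟩)
    fun x hx => mem_norm.2 (h6 x hx)
  refine ⟨S, M, S.2, h2, h1, h7, fun e => h1.1 (eq_top_iff.2 ((Sylow.normalizer_sup_eq_top U).ge.trans (sup_le h7 (Subgroup.subgroupOf_eq_top.1 e)))),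
    h6, fun x hx => h5.le hx, fun L a b c => Subgroup.map_le_iff_le_comap.1 (le_sup_left.trans (h4 (L.map K.subtype ⊔ S.1) (fun e => b ?_) le_sup_right))⟩
  refine eq_top_iff.2 fun g _ => ?_
  have := e.ge (Subgroup.mem_top g.1)
  rw [← SetLike.mem_coe, Subgroup.coe_mul_of_right_le_normalizer_left _ _ fun x hx => mem_norm.2 (mp_of c hx)] at this
  obtain ⟨_, ⟨y, hy, rfl⟩, x, hx, e⟩ := this
  have : y⁻¹ * g ∈ U.1 := h5.le (show (y⁻¹ * g).1 ∈ S.1 by simpa [← e] using! hx)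
  simpa using mul_mem hy (a this)

omit [Finite X] [Fact p.Prime] in
theorem mp_M {M : Subgroup X} {x : X} (hx : x ∈ M) : Mp (cn x) (M.subgroupOf K) (M.subgroupOf K) :=
  mp_of (fun _ hx _ hg => M.mul_mem (M.mul_mem hx hg) (M.inv_mem hx)) hx

omit [Finite X] [Fact p.Prime] in
theorem coatom_of {U : Sylow p K} {M : Subgroup X} (h1 : IsCoatom M) (h2 : Subgroup.normalizer (U.1.map K.subtype : Set X) ≤ M)
    (h3 : M.subgroupOf K ≤ Subgroup.normalizer (U : Set K)) : IsCoatom (Subgroup.normalizer (U.1.map K.subtype : Set X)) := by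
  have h4 : U.1 ≤ M.subgroupOf K := fun u hu => h2 (mem_norm.2 (mp_self hu))
  refine (h2.antisymm fun x hx => mem_norm.2 (mp_of (fun x hx u hu => ?_) hx)).symm ▸ h1
  exact (((U.2.map (cn x).toMonoidHom).inf_normalizer_sylow U).le ⟨⟨u, hu, rfl⟩, h3 ((mp_M hx u).2 (h4 hu))⟩).2

theorem coatom_conj {U V : Sylow p K} (h : IsCoatom (Subgroup.normalizer (U.1.map K.subtype : Set X))) :
    IsCoatom (Subgroup.normalizer (V.1.map K.subtype : Set X)) := by
  obtain ⟨g, rfl⟩ := MulAction.exists_smul_eq K U V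
  have h1 : Mp (cn (g : X)) U.1 (g • U).1 := fun u => by
    rw [Sylow.smul_def, Sylow.pointwise_smul_def]
    exact Subgroup.smul_mem_pointwise_smul_iff
  convert ((MulAut.conj (g : X)).mapSubgroup.isCoatom_iff _).2 h
  ext x
  erw [MulEquiv.mapSubgroup_apply, Subgroup.mem_map_equiv]
  rw [mem_norm, mem_norm]
  simp only [MulAut.conj_symm_apply, map_mul, map_inv]
  exact ⟨fun a => (h1.inv.mul a).mul h1, fun a => by simpa [mul_assoc] using (h1.mul a).mul h1.inv⟩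

/-- two nodes interchanged by an automorphism -/
def Sw {G : Type*} [Group G] (C : Dat p G) : Prop :=
  ∃ i j, i ≠ j ∧ (∀ k, k = i ∨ k = j) ∧ ∃ α : MulAut G, Mp α C.U C.U ∧ Mp α (C.P {i}) (C.P {j})

theorem lt_main (hX : IsPMinimal p X) (C : Dat p K) (V : Sylow p K) :
    IsCoatom (Subgroup.normalizer (V.1.map K.subtype : Set X)) ∧ (Subsingleton C.ι ∨ p = 2 ∧ K ≠ ⊤ ∧ Sw C) := by
  have L := C.lt
  obtain ⟨S, M, h0, h1, h2, h3, h4, h5, h6, h7⟩ := setup hX L.syl fun a => by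
    obtain ⟨x, hx, e⟩ := L.exists_x (Classical.arbitrary _)
    exact e (L.core x fun y => L.U_le (by simpa using! a.conj_mem x (L.X_le _ hx) y⁻¹))
  have hB : C.P ∅ ≤ M.subgroupOf K := fun b hb => h3 (mem_norm.2 fun u => (Subgroup.mem_normalizer_iff.1 (L.B_le_norm hb) u).symm)
  obtain ⟨i, hi⟩ : ∃ i, ∀ j, ∃ x ∈ S, Mp (cn x) (C.P {i}) (C.P {j}) := by
    by_contra! a
    refine h4 (top_le L hB fun i => (L.mono ?_).trans (h7 (C.P {j | ∃ x ∈ S, Mp (cn x) (C.P {i}) (C.P {j})}) (L.U_le.trans (L.B_le _))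
      (fun e => ?_) fun x hx => ?_))
    · rintro _ rfl
      exact ⟨1, one_mem _, fun g => by simp⟩
    · obtain ⟨j, b⟩ := a i
      obtain ⟨x, hx, c⟩ := (nu_mem_P L).1 (e.ge (Subgroup.mem_top (C.ν j)))
      exact b x hx c
    · refine L.P_le (M := Subgroup.comap (cn x : MulAut K).toMonoidHom _) (fun b hb => L.B_le _ ((mp_B L (h5 x hx) b).2 hb)) fun j hj => ?_
      obtain ⟨y, hy, b⟩ := hj
      obtain ⟨k, c⟩ := exists_P L (h5 x hx) j
      exact ⟨_, L.mono (J := {k}) (by rintro _ rfl; exact ⟨x * y, mul_mem hx hy, map_mul (cn (K := K)) x y ▸ c.mul b⟩) ((c _).2 ((nu_mem_P L).2 rfl)), L.nu j⟩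
  have tr : ∀ j k, ∃ x ∈ S, Mp (cn x) (C.P {j}) (C.P {k}) := fun j k =>
    let ⟨x, hx, a⟩ := hi j; let ⟨y, hy, b⟩ := hi k
    ⟨y * x⁻¹, mul_mem hy (inv_mem hx), by rw [map_mul, map_inv]; exact b.mul a.inv⟩
  refine ⟨coatom_conj (coatom_of h2 h3 fun g hg => L.B_le_norm ?_), (subsingleton_or_nontrivial C.ι).imp_right fun hn => ?_⟩
  · refine L.mono (fun j hj => h4 (top_le L hB fun k g hg => ?_)) (L.over_U (L.U_le.trans hB) hg)
    obtain ⟨n, hn, e⟩ := hj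
    obtain ⟨x, hx, a⟩ := tr k j
    exact (mp_M (h1 hx) g).1 (L.P_le hB (by rintro _ rfl; exact ⟨n, hn.1, e⟩) ((a g).2 hg))
  obtain ⟨j, e⟩ := @exists_ne _ hn i
  have r := rank_le L (fun j k => let ⟨x, hx, a⟩ := tr j k; ⟨_, h5 x hx, a⟩) e.symm
  obtain ⟨x, hx, a⟩ := hi j
  refine ⟨?_, fun b => e ?_, i, j, e.symm, r, _, h5 x hx, a⟩
  · by_contra b
    obtain ⟨k, c⟩ := exists_P L (h5 x hx) j
    obtain rfl : k = i := (r k).resolve_right fun d => e (mp_unique L c.inv (d ▸ a.inv))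
    obtain ⟨n, hn⟩ := h0 ⟨x, hx⟩
    obtain ⟨m, hm⟩ := ((Fact.out : p.Prime).odd_of_ne_two b).pow (n := n)
    have d : ∀ m, Mp (cn (x ^ (2 * m + 1))) (C.P {k}) (C.P {j}) := fun m => by
      induction m with
      | zero => simpa using a
      | succ m ih => rw [show 2 * (m + 1) + 1 = 1 + (1 + (2 * m + 1)) by ring, pow_add, pow_add, pow_one, map_mul, map_mul]; exact a.mul (c.mul ih)
    have d := d m
    rw [← hm, show x ^ p ^ n = 1 from congrArg Subtype.val hn, map_one] at d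
    exact e (mp_unique L d fun g => Iff.rfl)
  · exact mp_unique L a (mp_self (x := ⟨x, b.ge trivial⟩) (L.B_le _ (L.U_le (h6 _ hx))))

theorem am_main (hX : IsPMinimal p X) (U V : Sylow p K) {L : Bool → Subgroup K} (le : ∀ i, U.1 ≤ L i) (ne : ∀ i, L i ≠ ⊤)
    (hn : ¬ U.1.Normal) (ov : ∀ M, U.1 ≤ M → M ≤ U.1 ∨ ∃ i, L i ≤ M) (ov' : ∀ M, U.1 ≤ M → M = ⊤ ∨ ∃ i, M ≤ L i)
    (sup : ∀ i, L i ⊔ L (!i) = ⊤) : IsCoatom (Subgroup.normalizer (V.1.map K.subtype : Set X)) ∧ K ≠ ⊤ ∧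
      ∃ α : MulAut K, Mp α U.1 U.1 ∧ ∀ i, Mp α (L i) (L (!i)) := by
  obtain ⟨S, M, h0, h1, h2, h3, h4, h5, h6, h7⟩ := setup hX U hn
  have a1 : ∀ i j, L i ≤ L j → i = j := fun i j a => by
    by_contra b
    obtain rfl : i = !j := Bool.eq_not_iff.2 b
    exact ne j (by rw [← sup j, sup_eq_left.2 a])
  have a2 : ∀ x ∈ S, ∀ i, ∃ j, Mp (cn x) (L i) (L j) := fun x hx i => by
    have b : U.1 ≤ (L i).comap (cn x)⁻¹.toMonoidHom := fun u hu => le i (((h5 x hx).inv u).2 hu)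
    obtain ⟨j, c⟩ := (ov' _ b).resolve_left fun e => ne i (eq_top_iff.2 fun g _ => by simpa using e.ge (Subgroup.mem_top (cn x g)))
    obtain ⟨k, d⟩ := (ov _ b).resolve_left fun e => (Bool.not_ne_self i).symm (a1 _ _ fun g hg => le _ ((h5 x hx g).1 (e (by simpa))))
    obtain rfl := a1 _ _ (d.trans c)
    exact ⟨k, fun g => ⟨fun a => by simpa using d a, fun a => c (by simpa)⟩⟩
  have a3 : ∀ {α i j k}, Mp α (L i) (L j) → Mp α (L i) (L k) → j = k := fun {α i j k} a b =>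
    a1 _ _ fun g hg => by simpa using (b (α⁻¹ g)).2 ((a _).1 (by simpa))
  have a4 : ∀ x ∈ S, (∀ i, Mp (cn x) (L i) (L i)) ∨ ∀ i, Mp (cn x) (L i) (L (!i)) := fun x hx => by
    obtain ⟨_ | _, b⟩ := a2 x hx true <;> obtain ⟨_ | _, c⟩ := a2 x hx false
    · cases a3 b.inv c.inv
    · exact .inr (Bool.rec c b)
    · exact .inl (Bool.rec c b)
    · cases a3 b.inv c.inv
  obtain ⟨x, hx, a⟩ : ∃ x ∈ S, ∀ i, Mp (cn x) (L i) (L (!i)) := by
    by_contra! b
    have c := fun i => h7 (L i) (le i) (ne i) fun x hx g => (((a4 x hx).resolve_right fun c => let ⟨i, d⟩ := b x hx; d (c i)) i g).2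
    exact h4 (eq_top_iff.2 ((sup true).ge.trans (sup_le (c _) (c _))))
  refine ⟨coatom_conj (coatom_of h2 h3 (((ov _ fun u hu => h3 (mem_norm.2 (mp_self hu))).resolve_right fun ⟨i, b⟩ => h4 (eq_top_iff.2
    ((sup i).ge.trans (sup_le b fun g hg => ?_)))).trans Subgroup.le_normalizer)), fun b => ?_, _, h5 x hx, a⟩
  · exact (mp_M (h1 hx) g).1 (b (by simpa using (a (!i) g).2 hg))
  · cases a3 (a true) (mp_self (x := ⟨x, b.ge trivial⟩) (le _ (h6 _ hx)))

end H11.Pm
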