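import Cfsg.Agent.H11.Ree4

/-! Coordinates on the Borel subgroup of a small Ree group: the structure `RX` (`Ree.exists_rx`) and field automorphisms. -/

namespace H11
open Cfsg Cfsg.Lie StSys Set

variable {K : Type*} [Field K] {G R : Type*} [Group G] [Group R]

/-- coordinates on the Sylow 3-subgroup `P` and the torus `H` -/
structure RX (φ : K ≃+* K) (x : K → K → K → R) (h : Kˣ →* R) (P H : Subgroup R) : Prop where
  three : (3 : K) = 0
  φφ : ∀ t, φ (φ t) = t ^ 3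
  mul : ∀ t u v t' u' v', x t u v * x t' u' v' = x (t + t') (u + u' - t * φ t') (v + v' - u * t' - t ^ 2 * φ t' + t * t' * φ t')
  inj : ∀ {t u v t' u' v'}, x t u v = x t' u' v' → t = t' ∧ u = u' ∧ v = v'
  memP : ∀ {g}, g ∈ P ↔ ∃ t u v, g = x t u v
  memH : h.range = H
  conj : ∀ (c : Kˣ) t u v, h c * x t u v * (h c)⁻¹ = x (c * t) (c * φ c * u) (c ^ 2 * φ c * v)
  aut : ∀ τ : K ≃+* K, ∃ α : MulAut R, ∀ t u v, α (x t u v) = x (τ t) (τ u) (τ v)

namespace Ree
variable {e : ℕ} {θ : K ≃+* K} (F : ReeF 3 e θ) {S : StSys chevG2 K G} {σ : MulAut G} (h : IsTw S σ exG2 θ)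

open Pol in
theorem word_mul (hp : ((3 : ℕ) : K) = 0) (A B C D E H A' B' C' D' E' H' : K) :
    wordG S.x [(7, A), (6, B), (8, C), (9, D), (10, E), (11, H)] * wordG S.x [(7, A'), (6, B'), (8, C'), (9, D'), (10, E'), (11, H')] =
      wordG S.x [(7, A + A'), (6, B + B'), (8, C + C' + A' * B), (9, D + D' - C * A' + A' ^ 2 * B), (10, E + E' - B * A' ^ 3),
        (11, H + H' - E * B' - B ^ 2 * A' ^ 3 + B * B' * A' ^ 3)] := by
  have := wordG_eq_of_col agreeG2 S.rel hp (fun i => if i < 17 then v6 A B C D E H i else if i = 17 then A' else if i = 19 then B' else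
    if i = 23 then C' else if i = 29 then D' else if i = 31 then E' else H') (f := 50) (k := 5)
    (w := [(7, X 2), (6, X 3), (8, X 5), (9, X 7), (10, X 11), (11, X 13), (7, X 17), (6, X 19), (8, X 23), (9, X 29), (10, X 31), (11, X 37)])
    (w' := [(7, add 3 (X 2) (X 17)), (6, add 3 (X 3) (X 19)), (8, add 3 (add 3 (X 5) (X 23)) (mul 3 (X 17) (X 3))),
      (9, add 3 (add 3 (add 3 (X 7) (X 29)) (neg 3 (mul 3 (X 5) (X 17)))) (mul 3 (pow 3 (X 17) 2) (X 3))),
      (10, add 3 (add 3 (X 11) (X 31)) (neg 3 (mul 3 (X 3) (pow 3 (X 17) 3)))),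
      (11, add 3 (add 3 (add 3 (add 3 (X 13) (X 37)) (neg 3 (mul 3 (X 11) (X 19)))) (neg 3 (mul 3 (pow 3 (X 3) 2) (pow 3 (X 17) 3))))
        (mul 3 (mul 3 (X 3) (X 19)) (pow 3 (X 17) 3)))]) (by decide +kernel)
  simpa [ev_add _ hp, ev_mul _ hp, ev_pow _ hp, ev_neg _ hp, ev_X2, ev_X3, ev_X5, ev_X7, ev_X11, ev_X13, ev_X _ (q := 17) (by decide),
    ev_X _ (q := 19) (by decide), ev_X _ (q := 23) (by decide), ev_X _ (q := 29) (by decide), ev_X _ (q := 31) (by decide),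
    ev_X _ (q := 37) (by decide), v6, mul_assoc, sub_eq_add_neg] using this

include F h in
theorem eq_ru {g : G} (hg : g ∈ S.U ⊓ fixS σ) {A B C D E H : K} (e' : g = wordG S.x [(7, A), (6, B), (8, C), (9, D), (10, E), (11, H)]) :
    g = ru e S B E H := by
  obtain ⟨t, u, v, rfl⟩ := (mem_U F h).1 hg
  rw [ru, U_eq F] at e'
  obtain ⟨-, rfl, -, -, rfl, rfl⟩ := word_inj e'
  rfl

theorem exists_rx [Fintype K] {m : ℕ} (hK : Fintype.card K = 3 ^ (2 * m + 1)) : ∃ (φ : K ≃+* K) (x : _) (h : _), (∀ t, φ t = t ^ 3 ^ (m + 1)) ∧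
    RX φ x h ((chevG2.posUnipotent K ⊓ twistedG2 K (3 ^ m)).subgroupOf (twistedG2 K (3 ^ m)))
      ((chevG2.diagonalSubgroup K ⊓ twistedG2 K (3 ^ m)).subgroupOf _) := by
  obtain ⟨θ, F, σ, h⟩ := exists_ree hK
  have hi : Function.Injective (ι K (3 ^ m)) := Subgroup.inclusion_injective _
  have hc := inclusion_range_gen (D := chevG2) (g2Words K (3 ^ m))
  have hr : (ι K (3 ^ m)).range = fixS σ := hc.trans (eq_fix F h (grpSys_θ_injective _ _) (grpSys_grp _ _))
  have hH := H_inf F h (grpSys_θ_injective _ _)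
  simp only [Subgroup.inf_subgroupOf_right]
  suffices ∃ x h, RX (fn F (nd _ 0)) x h ((grpSys chevG2 K).U.comap (ι K (3 ^ m))) ((grpSys chevG2 K).H.comap (ι K (3 ^ m))) by
    rw [grpSys_U, grpSys_H] at this
    exact this.elim fun x a => a.elim fun h a => ⟨_, x, h, fun t => show θ t ^ 3 = _ by rw [F.eq, ← pow_mul, ← pow_succ], a⟩
  have hφ (t) : fn F (nd _ 0) t = θ t ^ 3 := rfl
  generalize fn F (nd _ 0) = φ at hφ
  change (ι K (3 ^ m)).range = _ at hc
  generalize ι K (3 ^ m) = j at *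
  have h1 (t) : φ (φ t) = t ^ 3 := by rw [hφ, hφ, map_pow, F.sq]
  have hU (t u v) := (mem_U F h).2 ⟨t, u, v, rfl⟩
  choose x hx using fun t u v => hr.ge (hU t u v).2
  let ψ := (MonoidHom.ofInjective hi).symm.toMonoidHom.comp (((torS _).comp (tor θ)).codRestrict j.range fun c => hr.ge (hH.ge ⟨c, rfl⟩).2)
  have h2 (c) : j (ψ c) = torS (grpSys _ K).hMul_of_finite (tor θ c) := MonoidHom.apply_ofInjective_symm hi _
  clear_value ψ
  refine ⟨x, ψ.comp (powMonoidHom 2 * Units.map (φ : K →* K)), by exact_mod_cast three F, h1, fun t u v t' u' v' => hi ?_,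
    fun e => ru_inj F (by rw [← hx, ← hx, e]), ⟨fun hg => ((mem_U F h).1 ⟨hg, hr.le ⟨_, rfl⟩⟩).imp fun t => .imp fun u => .imp fun v e =>
      hi (e.trans (hx ..).symm), fun ⟨t, u, v, e⟩ => show j _ ∈ _ from e ▸ hx t u v ▸ (hU ..).1⟩, le_antisymm ?_ fun g hg => ?_,
    fun c t u v => hi ?_, fun τ => ?_⟩
  · rw [map_mul, hx, hx, hx, hφ]
    exact eq_ru F h (mul_mem (hU ..) (hU ..)) (by rw [ru, ru, U_eq F, U_eq F, word_mul (three F)])
  · rintro _ ⟨c, rfl⟩
    exact show j (ψ _) ∈ _ from h2 _ ▸ torS_mem _ _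
  · obtain ⟨s, hs⟩ := hH.le ⟨hg, hr.le ⟨g, rfl⟩⟩
    refine ⟨s ^ 2 / Units.map (φ : K →* K) s, hi ?_⟩
    rw [← hs, MonoidHom.comp_apply, MonoidHom.comp_apply, h2]
    congr 2; ext; simp [h1]; field_simp
  · have h4 := hH.ge ⟨(powMonoidHom 2 * Units.map (φ : K →* K) : Kˣ →* Kˣ) c, rfl⟩
    rw [MonoidHom.comp_apply] at h4
    rw [map_mul, map_mul, map_inv, hx, hx, MonoidHom.comp_apply, h2]
    refine (eq_ru F h ⟨(Subgroup.mem_normalizer_iff.1 (B_le_normalizer_U (H_le_B h4.1)) _).1 (hU ..).1,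
      (fixS σ).mul_mem ((fixS σ).mul_mem h4.2 (hU ..).2) ((fixS σ).inv_mem h4.2)⟩
      (by rw [ru, U_eq F, conj_word])).trans ?_
    simp only [chi_tor, show wt (rt chevG2 6) (nd _ 0) = -3 from by decide +kernel, show wt (rt chevG2 6) (nd _ 1) = 2 from by decide +kernel,
      show wt (rt chevG2 10) (nd _ 0) = 3 from by decide +kernel, show wt (rt chevG2 10) (nd _ 1) = -1 from by decide +kernel,
      show wt (rt chevG2 11) (nd _ 0) = 0 from by decide +kernel, show wt (rt chevG2 11) (nd _ 1) = 1 from by decide +kernel]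
    congr 2 <;> simp [zpow_ofNat, -map_mul, -map_pow, ← hφ] <;> simp [h1] <;> field_simp
  · have k (τ : K ≃+* K) (w) : fieldAut chevG2 K τ (wordG (grpSys _ K).x w) = wordG (grpSys _ K).x (w.map (Prod.map id τ)) := by
      induction w with
      | nil => simp
      | cons a w ih => rw [List.map_cons, wordG_cons, wordG_cons, map_mul, ih]; congr 1; simp only [xNat, Prod.map_fst, id]; split_ifs <;> simp
    have k1 (τ : K ≃+* K) (t) : τ (θ t) = θ (τ t) := by rw [F.eq, F.eq, map_pow]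
    have k2 (τ : K ≃+* K) (g) : fieldAut chevG2 K τ (j g) ∈ j.range := by
      have : j.range ≤ j.range.comap (fieldAut chevG2 K τ).toMonoidHom := by
        rw [hc, Subgroup.closure_le]
        rintro _ ⟨_, ⟨t, u, v, rfl | rfl⟩, rfl⟩ <;> refine Subgroup.subset_closure ⟨_, ⟨τ t, τ u, τ v, ?_⟩, (k ..).symm⟩ <;>
          simp [U_eq F, V_eq F, k1]
      exact this ⟨g, rfl⟩
    choose f hf using k2
    refine ⟨⟨⟨f τ, f τ⁻¹, fun g => hi ?_, fun g => hi ?_⟩, fun a b => hi ?_⟩, fun t u v => hi ?_⟩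
    · rw [hf, hf, map_inv]; simp
    · rw [hf, hf, map_inv]; simp
    · simp [hf]
    · refine (hf ..).symm ▸ ?_
      rw [hx, hx, ru, k]; simp [ru, U_eq F, k1]

end Ree

theorem conj_mul_conj' (g y z : R) : g * y * z * (g * y)⁻¹ = g * (y * z * y⁻¹) * g⁻¹ := by group

namespace RX
variable {φ : K ≃+* K} {x : K → K → K → R} {h : Kˣ →* R} {P H B : Subgroup R} {q : ℕ} {n a : R} (X : RX φ x h P H)
include X

theorem zero : x 0 0 0 = 1 := by simpa using X.mul 0 0 0 0 0 0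

theorem mem (t u v : K) : x t u v ∈ P := X.memP.2 ⟨t, u, v, rfl⟩

theorem h_mem (c : Kˣ) : h c ∈ H := X.memH.le ⟨c, rfl⟩

theorem inv (t u v : K) : (x t u v)⁻¹ = x (-t) (-u - t * φ t) (-v - u * t + t ^ 2 * φ t) := by
  rw [inv_eq_iff_mul_eq_one, X.mul, ← X.zero]; congr 1 <;> simp
  · ring
  · linear_combination t ^ 2 * φ t * X.three

theorem h_inj : Function.Injective h := fun c d e => Units.ext (by
  have := X.conj c 1 0 0
  rw [e, X.conj] at this
  simpa using (X.inj this).1.symm)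

theorem two_ne : (2 : K) ≠ 0 := fun e => one_ne_zero (α := K) (by linear_combination X.three - e)

theorem conj_P (t u v t' u' v' : K) : x t u v * x t' u' v' * (x t u v)⁻¹ =
    x t' (u' + t' * φ t - t * φ t') (v' + t * u' - u * t' + t * φ t' * (t' + t) + t' ^ 2 * φ t) := by
  rw [X.inv, X.mul, X.mul]; congr 1 <;> simp
  · ring
  · linear_combination (t * t' * φ t - t ^ 2 * φ t' + t ^ 2 * φ t) * X.three

theorem cube (t u v : K) : x t u v ^ 3 = x 0 0 (-(t ^ 2 * φ t)) := by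
  rw [pow_succ, sq, X.mul, X.mul]; congr 1
  · linear_combination t * X.three
  · linear_combination (u - t * φ t) * X.three
  · linear_combination (v - u * t) * X.three

theorem split (t u v : K) : x t u v = x t 0 0 * x 0 u 0 * x 0 0 v := by simp [X.mul]

theorem conj_neg (t u v : K) : h (-1) * x t u v * (h (-1))⁻¹ = x (-t) u (-v) := by simp [X.conj]

theorem conj_B (b : RB q P H B n a) {g : R} (hg : g ∈ B) : ∃ c : Kˣ, ∀ t u v, ∃ u' v', g * x t u v * g⁻¹ = x (c * t) u' v' := by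
  obtain ⟨_, hu, _, hy, rfl⟩ := b.mulB g hg
  obtain ⟨t, u, v, rfl⟩ := X.memP.1 hu
  obtain ⟨c, rfl⟩ := X.memH.ge hy
  exact ⟨c, fun _ _ _ => ⟨_, _, by rw [conj_mul_conj', X.conj, X.conj_P]⟩⟩

end RX
end H11
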