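import Cfsg.Agent.H11.TwM

/-! Central extensions restricted to subgroups: `Tc` (kernel meets the commutator subgroup trivially), complements from fixed point
free actions (`Fp`, `exists_compl`), `Tc.step`, `Tc.of_index`, `lam2`. -/

namespace H11
open Subgroup
open scoped commutatorElement IsMulCommutative
attribute [-simp] commutatorElement_inv map_commutatorElement

universe u
variable {E G : Type*} [Group E] [Group G] {κ : E →* G}

/-- the kernel meets the commutator subgroup of the preimage trivially -/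
def Tc (κ : E →* G) (Y : Subgroup G) : Prop := ∀ z ∈ ⁅Y.comap κ, Y.comap κ⁆, κ z = 1 → z = 1

/-- `h` acts fixed point freely on the abelianisation of `R` -/
def Fp (R : Subgroup G) (h : G) : Prop := h ∈ normalizer (R : Set G) ∧ ∀ a ∈ R, ⁅h, a⁆ ∈ ⁅R, R⁆ → a ∈ ⁅R, R⁆

theorem Tc.mono {Y Y' : Subgroup G} (h : Tc κ Y) (e : Y' ≤ Y) : Tc κ Y' := fun z a =>
  h z (commutator_mono (comap_mono e) (comap_mono e) a)

theorem noStem_of_tc {p : ℕ} {G : Type u} [Group G] (h : ∀ (X : Type u) [Group X] [Finite X] (ξ : X →* G), Function.Surjective ξ →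
    ξ.ker ≤ center X → (∀ z, ξ z = 1 → z ^ p = 1) → Tc ξ ⊤) : H15.NoStem p G := fun X _ _ ξ a b =>
  eq_bot_iff.2 fun z hz => h X ξ a.1 a.2.1 b z (a.2.2 hz) hz

theorem Fp.surj [Finite G] {R : Subgroup G} {h : G} (F : Fp R h) {b : G} (hb : b ∈ R) : ∃ a ∈ R, b * ⁅h, a⁆⁻¹ ∈ ⁅R, R⁆ := by
  let c : R →* R := ((MulAut.conj h).toMonoidHom.comp R.subtype).codRestrict R fun a => (F.1 _).1 a.2
  have e : ∀ a : R, Abelianization.of a = 1 ↔ a.1 ∈ ⁅R, R⁆ := fun a => by
    rw [← MonoidHom.mem_ker, Abelianization.ker_of, ← map_subtype_commutator]; exact (mem_map_iff_mem R.subtype_injective).symm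
  have : Finite (Abelianization R) := Quotient.finite _
  let f : Abelianization R →* Abelianization R := Abelianization.map c / MonoidHom.id _
  have e' : ∀ a, f (Abelianization.of a) = Abelianization.of (c a * a⁻¹) := fun a => by simp [f, div_eq_mul_inv]
  obtain ⟨x, hx⟩ := (Finite.injective_iff_surjective (f := f)).1 ((injective_iff_map_eq_one _).2 fun x hx => by
    obtain ⟨a, rfl⟩ := QuotientGroup.mk_surjective x
    exact (e a).2 (F.2 a a.2 ((e (c a * a⁻¹)).1 ((e' a).symm.trans hx)))) (Abelianization.of ⟨b, hb⟩)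
  obtain ⟨a, rfl⟩ := QuotientGroup.mk_surjective x
  exact ⟨a, a.2, (e (⟨b, hb⟩ * (c a * a⁻¹)⁻¹)).1 (by rw [map_mul, ← hx, map_inv, ← e']; exact mul_inv_cancel _)⟩

variable (hc : κ.ker ≤ center E)
include hc

theorem tc_bot : Tc κ ⊥ := fun z a _ => by
  rwa [commutator_eq_bot_iff_le_centralizer.2 fun g (h : g ∈ comap κ ⊥) => mem_centralizer_iff.2 fun x _ => mem_center_iff.1 (hc h) x] at a

theorem conj_of_map {g a b : E} (h : κ g * κ a * (κ g)⁻¹ = κ a) : ⁅a, g * b * g⁻¹⁆ = g * ⁅a, b⁆ * g⁻¹ := by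
  rw [conjugate_commutatorElement]; exact H16.commutatorElement_eq_of_map_eq hc (by simp [h]) rfl

theorem mem_norm_of {A : Subgroup E} {g : E} (h : κ g ∈ (normalizer (A : Set E)).map κ) : g ∈ normalizer (A : Set E) := by
  obtain ⟨a, ha, e⟩ := h
  simpa using mul_mem ha (center_le_normalizer _ (hc (show κ (a⁻¹ * g) = 1 by simp [e])))

omit hc in
theorem Tc.step {A : Subgroup E} {Y Y' : Subgroup G} (h1 : ∀ a ∈ A, κ a ∈ Y' → a = 1) (h2 : Y'.comap κ ≤ normalizer (A : Set E))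
    (h3 : ∀ g, κ g ∈ Y → ∃ a ∈ A, (κ a)⁻¹ * κ g ∈ Y') (h : Tc κ Y') : Tc κ Y := fun z hz h0 => by
  have h4 : ⁅Y'.comap κ, Y'.comap κ⁆ ≤ Y'.comap κ := commutator_le_self _
  let B : Subgroup E :=
    { carrier := {e | ∃ c ∈ ⁅Y'.comap κ, Y'.comap κ⁆, e * c⁻¹ ∈ A}
      one_mem' := ⟨1, one_mem _, by simp⟩
      mul_mem' := fun ⟨c, a, b⟩ ⟨c', a', b'⟩ => ⟨c * c', mul_mem a a', by
        simpa [mul_assoc] using mul_mem b ((h2 (h4 a) _).1 b')⟩
      inv_mem' := fun ⟨c, a, b⟩ => ⟨c⁻¹, inv_mem a, by simpa [mul_assoc] using (h2 (h4 (inv_mem a)) _).1 (inv_mem b)⟩ }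
  obtain ⟨c, a, b⟩ : z ∈ B := commutator_le.2 (fun g hg g' hg' => by
    obtain ⟨a, ha, e⟩ := h3 g hg
    obtain ⟨a', ha', e'⟩ := h3 g' hg'
    have f : a⁻¹ * g ∈ Y'.comap κ := by simpa
    have f' : a'⁻¹ * g' ∈ Y'.comap κ := by simpa
    refine ⟨_, commutator_mem_commutator f f', ?_⟩
    convert mul_mem (mul_mem (mul_mem ha ((h2 f _).1 ha')) ((h2 (mul_mem (mul_mem f f') (inv_mem f)) _).1 (inv_mem ha)))
      ((h2 (h4 (commutator_mem_commutator f f')) _).1 (inv_mem ha')) using 1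
    simp only [commutatorElement_def]; group) hz
  obtain rfl := mul_inv_eq_one.1 (h1 _ b (by rw [map_mul, h0, one_mul]; exact h4 (inv_mem a)))
  exact h z a h0

theorem Tc.of_index [Finite E] {p : ℕ} (hp : p.Prime) (he : ∀ z, κ z = 1 → z ^ p = 1) {S L : Subgroup G} (hL : L ≤ κ.range)
    (h1 : ¬ p ∣ S.relIndex L) (h : Tc κ S) : Tc κ L := fun z hz h0 => by
  have h2 : z ∈ L.comap κ := by simp [h0]
  have h3 := mem_map_of_mem (L.comap κ).subtype (H16.pow_index_mem_commutator ((S.comap κ).subgroupOf (L.comap κ)) (z := ⟨z, h2⟩)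
    (mem_center_iff.2 fun g => Subtype.ext (mem_center_iff.1 (hc h0) g))
    ((mem_map_iff_mem (subtype_injective _)).1 ((map_subtype_commutator _).ge hz)))
  rw [map_commutator, subgroupOf_map_subtype, ← relIndex, relIndex_comap, map_comap_eq, inf_eq_right.2 hL] at h3
  have := pow_gcd_eq_one.2 ⟨he z h0, h _ (commutator_mono inf_le_left inf_le_left h3) (by simp [h0])⟩
  rwa [(hp.coprime_iff_not_dvd.2 h1 : Nat.gcd _ _ = 1), pow_one] at this

variable {R : Subgroup G} (hR : R ≤ κ.range)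
include hR

omit hc in
theorem exists_comm {g : G} (h : g ∈ ⁅R, R⁆) : ∃ c ∈ ⁅R.comap κ, R.comap κ⁆, κ c = g := by
  rwa [← inf_eq_right.2 hR, ← map_comap_eq, ← map_commutator] at h

theorem Fp.comm [Finite G] {y d a : E} (F : Fp R (κ y)) (h1 : Commute (κ y) (κ d)) (h2 : ∀ g ∈ R, Commute (κ d) g) (ha : κ a ∈ R) :
    Commute d a := by
  let χ : R.comap κ →* center E := MonoidHom.mk' (fun a => ⟨⁅d, a⁆, hc (by simp [map_commutatorElement, (h2 _ a.2).commutator_eq])⟩)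
    fun a b => Subtype.ext (by
      have := mem_center_iff.1 (hc (show κ ⁅d, b.1⁆ = 1 by simp [map_commutatorElement, (h2 _ b.2).commutator_eq])) a
      change ⁅d, a.1 * b⁆ = ⁅d, a.1⁆ * ⁅d, b.1⁆
      rw [← mul_inv_cancel_right ⁅d, b.1⁆ a, ← this]; simp only [commutatorElement_def]; group)
  obtain ⟨_, hb, e⟩ := F.surj ha
  obtain ⟨b, rfl⟩ := hR hb
  obtain ⟨c, h3, e⟩ := exists_comm hR e
  obtain ⟨c, h7, rfl⟩ := (map_subtype_commutator _).ge h3
  replace hb : b ∈ R.comap κ := hb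
  have h4 : y * b * y⁻¹ ∈ R.comap κ := by simpa using (F.1 _).1 hb
  have h5 : χ (c * (⟨_, h4⟩ * (⟨b, hb⟩ : R.comap κ)⁻¹)) = 1 := by
    rw [map_mul, show χ c = 1 from Abelianization.commutator_subset_ker (A := center E) χ h7, one_mul, map_mul, map_inv, mul_inv_eq_one]
    refine Subtype.ext ((conj_of_map hc (by simp [h1.eq])).trans ?_)
    exact mul_inv_eq_of_eq_mul (mem_center_iff.1 (χ ⟨b, hb⟩).2 y)
  refine commutatorElement_eq_one_iff_commute.1 ((H16.commutatorElement_eq_of_map_eq hc rfl ?_).trans (congrArg Subtype.val h5))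
  simp [show κ c = _ from e, commutatorElement_def, mul_assoc]

theorem exists_compl [Finite G] (T : Tc κ R) {y : E} (F : Fp R (κ y)) : ∃ A : Subgroup E, (∀ a ∈ A, κ a = 1 → a = 1) ∧ A.map κ = R ∧
    ∀ y', Fp R (κ y') → Commute (κ y) (κ y') → ∀ g, κ g ∈ normalizer (R : Set G) → Commute (κ g) (κ y') → g ∈ normalizer (A : Set E) := by
  set C := ⁅R.comap κ, R.comap κ⁆
  have h1 : ∀ {g}, κ g ∈ normalizer (R : Set G) → ∀ {a}, κ a ∈ R → κ (g * a * g⁻¹) ∈ R := fun h a e => by simpa using (h _).1 e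
  have h2 : ∀ {g}, κ g ∈ normalizer (R : Set G) → ∀ c ∈ C, g * c * g⁻¹ ∈ C := fun {g} h =>
    have : (R.comap κ).map (MulAut.conj g).toMonoidHom ≤ R.comap κ := map_le_iff_le_comap.2 fun _ a => h1 h a
    fun _ a => ((map_commutator ..).trans_le (commutator_mono this this)) (mem_map_of_mem (MulAut.conj g).toMonoidHom a)
  have h3 : ∀ {y}, Fp R (κ y) → ∀ {a}, κ a ∈ R → κ ⁅y, a⁆ ∈ R := fun F _ h => by
    simpa [commutatorElement_def] using mul_mem (h1 F.1 h) (inv_mem h)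
  have h4 : ∀ c ∈ C, κ c ∈ ⁅R, R⁆ := fun _ a =>
    ((map_commutator ..).trans_le (commutator_mono (map_comap_le _ _) (map_comap_le _ _))) (mem_map_of_mem κ a)
  let A : ∀ y, Fp R (κ y) → Subgroup E := fun y F =>
    { carrier := {e | ∃ a, κ a ∈ R ∧ e * ⁅y, a⁆⁻¹ ∈ C}
      one_mem' := ⟨1, by simp, by simp⟩
      mul_mem' := fun ⟨v, a, b⟩ ⟨w, c, d⟩ => ⟨v * w, by simpa using mul_mem a c, by
        convert mul_mem b (h2 (le_normalizer (h3 F a)) _ (mul_mem d (commutator_mem_commutator (h3 F c) a))) using 1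
        simp only [commutatorElement_def]; group⟩
      inv_mem' := fun {e} ⟨v, a, b⟩ => ⟨v⁻¹, by simpa using a, by
        convert mul_mem (h2 (g := ⁅y, v⁆⁻¹) (le_normalizer (by simpa using h3 F a)) _ (inv_mem b))
          (commutator_mem_commutator (inv_mem (h3 F a)) (inv_mem a)) using 1
        simp only [commutatorElement_def]; group⟩ }
  have a1 : ∀ y F, ∀ a ∈ A y F, κ a = 1 → a = 1 := fun y F e ⟨v, a, b⟩ he => T e (by
    obtain ⟨c, h5, h6⟩ := exists_comm hR (F.2 _ a (by simpa [he, map_commutatorElement] using h4 _ b))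
    simpa using mul_mem b ((H16.commutatorElement_eq_of_map_eq hc rfl h6).subst (motive := (· ∈ C)) (mul_mem (h2 F.1 _ h5) (inv_mem h5) : ⁅y, c⁆ ∈ C))) he
  have a2 : ∀ y F, (A y F).map κ = R := fun y F => le_antisymm (by
    rintro _ ⟨e, ⟨v, a, b⟩, rfl⟩
    simpa using mul_mem (commutator_le_self _ (h4 _ b)) (h3 F a)) fun g hg => by
      obtain ⟨_, hb, e⟩ := F.surj hg
      obtain ⟨b, rfl⟩ := hR hb
      obtain ⟨c, h5, e⟩ := exists_comm hR e
      exact ⟨c * ⁅y, b⁆, ⟨b, hb, by simpa⟩, by simp [e, map_commutatorElement]⟩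
  have a3 : ∀ y F g, κ g ∈ normalizer (R : Set G) → Commute (κ g) (κ y) → ∀ e ∈ A y F, g * e * g⁻¹ ∈ A y F := fun y F g h h' e ⟨v, a, b⟩ =>
    ⟨_, h1 h a, by rw [conj_of_map hc (by simp [h'.eq])]; simpa [mul_assoc] using h2 h _ b⟩
  have a4 : ∀ y F y' F', Commute (κ y) (κ y') → A y' F' ≤ A y F := fun y F y' F' h e ⟨v, a, b⟩ => by
    obtain ⟨w, h5, h6⟩ := (a2 y F).ge a
    rw [← inv_mul_cancel_right e ⁅y', v⁆]
    exact mul_mem (show _ ∈ A y F from ⟨1, by simp, by simpa using b⟩)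
      ((H16.commutatorElement_eq_of_map_eq hc rfl h6).subst (motive := (· ∈ A y F)) (mul_mem (a3 y F y' F'.1 h.symm _ h5) (inv_mem h5) : ⁅y', w⁆ ∈ A y F))
  refine ⟨A y F, a1 y F, a2 y F, fun y' F' h g h5 h6 => ?_⟩
  rw [le_antisymm (a4 y' F' y F h.symm) (a4 y F y' F' h)]
  exact mem_normalizer_iff.2 fun e => ⟨a3 y' F' g h5 h6 e, fun a => by
    simpa [mul_assoc] using a3 y' F' g⁻¹ (by simpa) (by simpa) _ a⟩

omit hc hR
theorem c2_left {a a' b : E} (h : Commute ⁅a', b⁆ a) (h' : Commute ⁅a', b⁆ ⁅a, b⁆) : ⁅a * a', b⁆ = ⁅a, b⁆ * ⁅a', b⁆ := by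
  rw [← h'.eq, ← mul_inv_cancel_right ⁅a', b⁆ a, h.eq]; simp only [commutatorElement_def]; group

theorem c2_right {a b b' : E} (h : Commute ⁅a, b'⁆ b) : ⁅a, b * b'⁆ = ⁅a, b⁆ * ⁅a, b'⁆ := by
  rw [← mul_inv_cancel_right ⁅a, b'⁆ b, h.eq]; simp only [commutatorElement_def]; group

theorem c2_gen {R C : Subgroup E} {s : Set E} (hs : s ⊆ R) (c : ∀ a ∈ R, ∀ b ∈ R, ∀ c ∈ R, Commute ⁅a, b⁆ c)
    (h : ∀ a ∈ s, ∀ b ∈ s, ⁅a, b⁆ ∈ C) : ⁅closure s, closure s⁆ ≤ C := by
  have h1 := (closure_le R).2 hs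
  have h2 : ∀ b ∈ R, (∀ a ∈ s, ⁅a, b⁆ ∈ C) → ∀ a ∈ closure s, ⁅a, b⁆ ∈ C := fun b hb h a ha => by
    have h3 : ∀ a ∈ R, ∀ a' ∈ R, ⁅a * a', b⁆ = ⁅a, b⁆ * ⁅a', b⁆ := fun a u a' v =>
      c2_left (c _ v _ hb _ u) (c _ v _ hb _ (commutator_le_self _ (commutator_mem_commutator u hb)))
    induction ha using closure_induction with
    | mem a ha => exact h a ha
    | one => simp
    | mul a a' u v i j => exact h3 a (h1 u) a' (h1 v) ▸ mul_mem i j
    | inv a u i => exact eq_inv_of_mul_eq_one_left ((h3 _ (inv_mem (h1 u)) a (h1 u)).symm.trans (by simp)) ▸ inv_mem i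
  exact commutator_le.2 fun a ha b hb => h2 b (h1 hb) (fun a u => commutatorElement_inv b a ▸ inv_mem
    (h2 a (hs u) (fun b v => h b v a u) b hb)) a ha

theorem c2_congr {a a' b b' : E} (h : Commute (a⁻¹ * a') b') (h' : Commute (b⁻¹ * b') a) : ⁅a', b'⁆ = ⁅a, b⁆ := by
  calc _ = a * (a⁻¹ * a' * b' * (a⁻¹ * a')⁻¹) * a⁻¹ * b'⁻¹ := by simp only [commutatorElement_def]; group
    _ = a * b * a⁻¹ * (a * (b⁻¹ * b') * a⁻¹) * b'⁻¹ := by rw [h.mul_inv_cancel]; group
    _ = _ := by rw [h'.symm.mul_inv_cancel]; simp only [commutatorElement_def]; group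

theorem lam2 {I K D : Type*} [Fintype I] [LinearOrder I] [CommGroup D] (h0 : ∀ i j : I, ∃ k, k ≠ i ∧ k ≠ j) (b : I → I → K → K → D)
    (φ : I → I → D →* D) (h1 : ∀ i j s t, b j i t s = (b i j s t)⁻¹)
    (h3 : ∀ i k s t, k ≠ i → φ k i (b i i s t) = b i k s t * b k i s t * b k k s t)
    (h4 : ∀ i j k s t, k ≠ i → j ≠ i → φ k i (b i j s t) = b k j s t) (h5 : ∀ i j j' k s t, k ≠ i → j ≠ i → j' ≠ i → φ k i (b j j' s t) = 1)
    (h6 : ∀ i k s t, k ≠ i → φ k i (b i i s t) = 1) {d : D} (hd : d ∈ closure {d | ∃ i j s t, d = b i j s t})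
    (h : ∀ k i, k ≠ i → φ k i d = 1) : d = 1 := by
  have a1 : ∀ i j k s t, k ≠ i → j ≠ i → φ k i (b j i s t) = b j k s t := fun i j k s t a c => by rw [h1, map_inv, h4 _ _ _ _ _ a c, ← h1]
  have a2 : ∀ k s t, b k k s t = 1 := fun k s t => by
    obtain ⟨i, a, -⟩ := h0 k k
    obtain ⟨j, c, e⟩ := h0 k i
    have := congrArg (φ j i) ((h3 i k s t a.symm).symm.trans (h6 i k s t a.symm))
    rw [map_mul, map_mul, h4 _ _ _ _ _ e a.symm, a1 _ _ _ _ _ e a.symm, h5 _ _ _ _ _ _ e a.symm a.symm, mul_one, map_one] at this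
    rw [← h6 j k s t c.symm, h3 j k s t c.symm, this, one_mul]
  choose k k1 k2 using h0
  let P : I → I → D →* D := fun i j => (φ i (k i j)).comp ((φ (k i j) i).comp ((φ j (k i j)).comp (φ (k i j) j)))
  have a3 : ∀ i j a c s t, i ≠ j → P i j (b a c s t) = if a = j ∧ c = i then b a c s t else if a = i ∧ c = j then b a c s t else 1 := by
    have : ∀ i j c s t, i ≠ j → P i j (b j c s t) = if c = i then b j c s t else 1 := fun i j c s t e => by
      by_cases f : c = j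
      · simp [f, a2]
      simp only [P, MonoidHom.comp_apply, h4 _ _ _ _ _ (k2 i j) f]
      by_cases g : c = k i j
      · simp [g, a2, k1]
      rw [h4 _ _ _ _ _ (k2 i j).symm g]
      split_ifs with l
      · rw [l, a1 _ _ _ _ _ (k1 i j) e.symm, a1 _ _ _ _ _ (k1 i j).symm (k2 i j).symm]
      · rw [h5 _ _ _ _ _ _ (k1 i j) e.symm l, map_one]
    intro i j a c s t e
    by_cases f : a = j
    · simp [f, this _ _ _ _ _ e, e.symm]
    by_cases g : c = j
    · rw [h1, map_inv, g, this _ _ _ _ _ e]; simp [f]; split_ifs <;> simp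
    · simp [P, h5 _ _ _ _ _ _ (k2 i j) f g, f, g]
  have a4 : (∏ x : I × I with x.1 < x.2, P x.1 x.2) d = d := by
    refine MonoidHom.eqOn_closure (g := .id D) ?_ hd
    rintro _ ⟨a, c, s, t, rfl⟩
    rw [MonoidHom.finsetProd_apply, Finset.prod_congr rfl fun x hx => a3 _ _ a c s t (Finset.mem_filter.1 hx).2.ne]
    rcases lt_trichotomy a c with e | rfl | e
    · rw [Finset.prod_eq_single (a, c)] <;> simp [e, e.ne, e.ne']
      intro x y l m; split_ifs with u v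
      exacts [absurd (u.1 ▸ u.2 ▸ l) e.not_gt, absurd v.2.symm (m v.1.symm), rfl]
    · simp [a2]
    · rw [Finset.prod_eq_single (c, a)] <;> simp [e]
      intro x y l m; split_ifs with u v
      exacts [absurd u.1.symm (m u.2.symm), absurd (v.1 ▸ v.2 ▸ l) e.not_gt, rfl]
  rw [← a4, MonoidHom.finsetProd_apply]
  exact Finset.prod_eq_one fun x _ => by simp [P, h _ _ (k2 x.1 x.2)]

end H11
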