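import Cfsg.Agent.H11.Spl

/-! Twisting by an involution: orthogonal orbits (`od_orth`, `card_orth`, `Tw.ri_orth`, `Tw.fix_le_MF`), lifting to the Steinberg group
(`exists_lift`) and the final descent (`Tw.mult_fix`). -/

namespace H11
open Cfsg Cfsg.Lie Equiv StSys Lx Subgroup
open scoped commutatorElement

universe u
variable {D : ChevalleyDatum} [Good D] {K G E : Type*} [Field K] [Group G] [Group E] {S : StSys D K G}

theorem exists_lift [Cert D] [Finite K] {σ : MulAut G} {π : Root D → Root D} {τ : K ≃+* K}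
    (h : ∀ r t, σ (S.x r t) = S.x (π r) (τ t)) (h1 : ∀ r, π (π r) = r) (h2 : ∀ t, τ (τ t) = t)
    (h3 : ∀ r s : Root D, s ≠ r.rev → ∃ ψ ψ', 0 < fv ψ r ∧ 0 < fv ψ s ∧ ∀ u, 0 < fv ψ u → 0 < fv ψ' (π u)) :
    ∃ σ' : MulAut (D.SteinbergGroup K), ∀ r t, σ' ((sgSys D K).x r t) = (sgSys D K).x (π r) (τ t) := by
  have e : S.θ.comp (sgLift S.hMul_of_finite) = (sgSys D K).θ := hom_ext (sgSys_grp D K) fun r t => by simp [θ_x']
  let S' : StSys D K (D.SteinbergGroup K) := ⟨fun r t => (sgSys D K).x (π r) (τ t), fun r t u => by rw [StSys.add, map_add],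
    fun r s a b t u => by
      obtain ⟨ψ, ψ', c1, c2, c3⟩ := h3 r s b
      refine eq_of_θ_eq (closed_pos ψ') (fun _ a => a) (mul_mem (x_mem_US (c3 s c2) _) (x_mem_US (c3 r c1) _))
        (mul_mem (mul_mem (x_mem_US (c3 r c1) _) (x_mem_US (c3 s c2) _)) (AS_le.2 (fun v hv t => x_mem_US (c3 v hv) _)
          (commWord_mem_AS (T := {r | 0 < fv ψ r}) (fun v i j hi hj e => closed_pos ψ r c1 s c2 v i j hi hj e) t u))) ?_
      rw [← e, MonoidHom.comp_apply, MonoidHom.comp_apply]; congr 1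
      simpa [map_wordG, ← h] using (S.rel.map σ.toMonoidHom).comm r s a b t u,
    (S.θ.comp σ.symm.toMonoidHom).comp (sgLift S.hMul_of_finite), fun r t => by simp [← h, S.θ_x]⟩
  have : (sgLift S'.hMul_of_finite).comp (sgLift S'.hMul_of_finite) = .id _ := hom_ext (sgSys_grp D K) fun r t => by simp [S', h1, h2]
  exact ⟨MonoidHom.toMulEquiv _ _ this this, sgLift_x S'.hMul_of_finite⟩

variable {σ : MulAut G} {ρ : Perm (Node D)} {τ : K ≃+* K} {i : Node D} (h2 : ∀ i, ρ (ρ i) = i)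
  (h0 : ∀ a ∈ orb ρ i, ∀ b ∈ orb ρ i, a ≠ b → wt (sroot b) a = 0)
include h2

omit [Good D] in
theorem mem_orb_two {j : Node D} : j ∈ orb ρ i ↔ j = ρ i ∨ j = i := by
  rw [orb_eq_orbL (by simp [orbL, h2])]; simp [orbL, h2]; tauto

include h0

theorem nc_orth (e : ρ i ≠ i) : refl (sroot (ρ i)) (sroot i) = sroot i ∧ refl (sroot i) (sroot (ρ i)) = sroot (ρ i) ∧
    Nc (sroot (ρ i)) (sroot i) = 0 ∧ Nc (sroot (ρ i)) (sroot i).rev = 0 := by
  have a := mem_orb_self ρ i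
  have b := apply_mem_orb.2 a
  have h1 : refl (sroot i) (sroot (ρ i)) = sroot (ρ i) := refl_eq (by simp [pair_sroot, h0 _ a _ b e.symm])
  have h3 := (H12.Lt.posJ_orth h0).1 _ b _ a
  exact ⟨refl_eq (by simp [pair_sroot, h0 _ b _ a e]), h1, h3, by simpa [h1] using Nc_weyl (sW i) h3⟩

theorem od_orth (hτ : ∀ t, τ (τ t) = t) : ρ i = i ∧ OD ρ (fun _ => τ) i [i] (fun _ => (Lx.Fx τ).subtype) ∨
    ρ i ≠ i ∧ OD ρ (fun _ => τ) i [ρ i, i] fun k => if k = ρ i then τ else RingHom.id K := by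
  have h1 : ∀ L : List (Node D), L.Nodup → (∀ j, j ∈ L ↔ j ∈ orb ρ i) → IsList (PosJ (orb ρ i)) (L.map fun j : Node D => D.simple j) :=
    fun L a b => ⟨fun r => ⟨fun c => by
      obtain ⟨j, e, d⟩ := List.mem_map.1 c
      obtain rfl : sroot j = r := Fin.ext d
      exact ⟨isPos_sroot j, inJ_sroot.2 ((b j).1 e)⟩, fun c => by
        obtain ⟨j, e, rfl⟩ := (H12.Lt.posJ_orth h0).2 r c; exact List.mem_map.2 ⟨j, (b j).2 e, rfl⟩⟩,
      by simpa using fun j _ => (sroot j).2, a.map fun j k e => sroot_injective (Fin.ext e)⟩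
  refine (eq_or_ne (ρ i) i).imp (fun e => ⟨e, h1 _ (by simp) (by simp [mem_orb_two h2, e]), List.pairwise_singleton _ _,
    fun j hj t => t.2.symm, fun v hv => ⟨⟨v i, by simpa [e] using (hv i (by simp)).symm⟩, by simp⟩⟩) fun e =>
    ⟨e, h1 _ (by simp [e]) (by simp [mem_orb_two h2]), List.pairwise_pair.2 fun r s a b => ?_, by simp [e.symm, e, hτ],
      fun v hv => ⟨v i, by simpa [e.symm] using hv i (by simp)⟩⟩
  obtain ⟨-, -, c1, c2⟩ := nc_orth h2 h0 e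
  have c4 := fun a => e (sroot_injective a)
  have c5 : ∀ a b : Node D, sroot a ≠ (sroot b).rev := fun a b e => not_isPos_rev (isPos_sroot b) (e ▸ isPos_sroot a)
  have c6 := Nc_rev_rev (sroot (ρ i)) (sroot i).rev
  simp only [← sroot_val, neg_val, List.mem_cons, List.not_mem_nil, or_false, Fin.val_inj] at a b
  suffices s ≠ r ∧ s ≠ r.rev ∧ Nc r s = 0 from ⟨this.1, this.2.1,
    commTerms_nil (clen_eq_zero_iff.2 this.2.2) (clen_eq_zero_iff.2 (by rw [Nc_antisymm, this.2.2, neg_zero]))⟩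
  rcases a with rfl | rfl <;> rcases b with rfl | rfl <;> simp [Nc_rev_rev, c5, (c5 _ _).symm, Fin.rev_inj, c1, c2, Ne.symm c4]
  simpa [c2] using c6

variable [Cert D] (h : S.SimpAct σ ρ 1 fun _ => τ)

omit h2 h0 [Cert D] in
theorem Lx.OD.card {f : Node D → K ≃+* K} (h : S.SimpAct σ ρ 1 f) {F : Type*} [Field F] {L : List (Node D)} {g : Node D → F →+* K}
    (O : OD ρ f i L g) : Nat.card ↥(S.US (PosJ (orb ρ i)) ⊓ fixS σ) = Nat.card F ∧ len sW (wJ (orb ρ i)) = L.length :=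
  ⟨(Nat.card_eq_of_bijective (fun t => (⟨_, xv_mem (fun j a _ => x_mem_US (T := PosJ _) ⟨isPos_sroot j, inJ_sroot.2 (O.mem.1 a)⟩ _) _,
    (O.fix h t).1⟩ : ↥(S.US (PosJ (orb ρ i)) ⊓ fixS σ))) ⟨fun _ _ e => (g i).injective (O.inj (congrArg Subtype.val e) i
      (O.mem.2 (mem_orb_self ρ i))), fun a => (O.ex h a.2.1 a.2.2).imp fun _ => Subtype.ext⟩).symm,
    by rw [← ncard_invS, invS_wJ, O.list.ncard, List.length_map]⟩

include h in
omit [Cert D] in
theorem card_orth {q : ℕ} (F : FrF 2 q τ) : Nat.card ↥(S.US (PosJ (orb ρ i)) ⊓ fixS σ) = q ^ len sW (wJ (orb ρ i)) := by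
  rcases od_orth h2 h0 F.iter with ⟨-, O⟩ | ⟨-, O⟩ <;> rw [(O.card h).1, (O.card h).2]
  exacts [(pow_one q).symm ▸ F.card_fix, F.card]

variable {h} [Finite K] (hτ : ∀ t, τ (τ t) = t)
include hτ

theorem StSys.Tw.ri_orth {M : Subgroup G} (T : Tw h M) [Finite E] {p : ℕ} [Fact p.Prime] [CharP K p] {κ : E →* G} (C : PF p κ) (hκ : κ.range = M) :
    RI S p κ (orb ρ i) := by
  have h1 : ∀ (L : List (Node D)) j, (wp sW L : Weyl D).1 (sroot j) = (sroot j).rev →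
      ¬ D.nroots < 2 * L.foldr (fun (i : Node D) r => D.reflectRoot i r) (D.simple j) + 1 := fun L j a => by
    rw [← sroot_val, ← wp_apply, ← isPos_iff_val, a]; exact not_isPos_rev (isPos_sroot j)
  rcases od_orth h2 h0 hτ with ⟨-, O⟩ | ⟨e, O⟩
  · exact T.ri_od C hκ O ⟨List.pairwise_singleton _ _, fun j a => h1 _ _ (by simp [List.mem_singleton.1 a])⟩
  obtain ⟨c1, c2, c3⟩ := nc_orth h2 h0 e
  refine T.ri_od C hκ O ⟨List.pairwise_pair.2 ⟨e.symm, c3⟩, fun j a => h1 _ _ ?_⟩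
  rcases List.mem_pair.1 a with rfl | rfl <;> simp [c1, c2, refl_rev_right]

omit h0 in
theorem StSys.Tw.fix_le_MF (T : Tw h (fixS σ)) (hi : Function.Injective (torS S.hMul_of_finite))
    (h0 : ∀ i, ∀ a ∈ orb ρ i, ∀ b ∈ orb ρ i, a ≠ b → wt (sroot b) a = 0) : fixS σ ≤ S.MF σ ρ := by
  classical
  have h1 : ∀ i, S.US (PosJ (orb ρ i)) ⊓ fixS σ ≤ S.MF σ ρ := fun i => le_iSup_of_le i le_sup_left
  have h3 : ∀ i, S.US (NegJ (orb ρ i)) ⊓ fixS σ ≤ S.MF σ ρ := fun i => le_iSup_of_le i le_sup_right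
  have h4 : ∀ i, ∀ j ∈ orb ρ i, ∀ t, S.x (sroot j) t ∈ S.US (PosJ (orb ρ i)) ∧ S.x (sroot j).rev t ∈ S.US (NegJ (orb ρ i)) := fun i j a t =>
    ⟨x_mem_US (T := PosJ _) ⟨isPos_sroot j, inJ_sroot.2 a⟩ _, x_mem_US (T := NegJ _) ⟨not_isPos_rev (isPos_sroot j), inJ_rev.2 (inJ_sroot.2 a)⟩ _⟩
  refine ((⟨T.gen, T.MF_le, h1, fun i => let ⟨x, a, b, c⟩ := T.neg i; ⟨x, h3 i ⟨b, a⟩, b, c⟩⟩ : Tw h _).eq_fix fun y hy => ?_).ge
  obtain ⟨c, rfl⟩ := (torS_range S.hMul_of_finite).ge hy.1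
  have hc := mem_Tf.2 (hi ((h.map_torS _ c).symm.trans hy.2))
  rw [show c = ∏ a : H12.Lt.Orb ρ, fun j => if ⟦j⟧ = a then c j else 1 by ext j; simp [Finset.prod_apply]]
  refine Subgroup.prod_mem ((S.MF σ ρ).comap _) fun a _ => mem_comap.2 ?_
  simp only [← H12.Lt.mem_orb_out, mem_orb_two h2]
  generalize a.out = i
  have a := mem_orb_self ρ i
  have b := apply_mem_orb.2 a
  rcases od_orth h2 (h0 i) hτ with ⟨e, O⟩ | ⟨e, O⟩
  · rw [show (fun j => _) = Pi.mulSingle i (c i) by ext j; by_cases j = i <;> simp_all, torS_single]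
    exact h_mem_one (θ := τ) i (fun t d => by simpa [xv, ← sroot_val] using h1 i ⟨(h4 i i a t).1, by simpa [xv] using (O.fix h ⟨t, d⟩).1⟩)
      (fun t d => by simpa [xv, ← sroot_val, neg_val, -Fin.val_rev] using h3 i ⟨(h4 i i a t).2, by simpa [xv] using (O.fix h ⟨t, d⟩).2⟩) (by rw [← hc, e])
  rw [show (fun j => ite _ _ _) = Pi.mulSingle (ρ i) (c (ρ i)) * Pi.mulSingle i (c i) by
    ext j; by_cases j = i <;> by_cases j = ρ i <;> simp_all, map_mul, torS_single, torS_single, show (c i : K) = τ (c (ρ i)) by rw [← hc, h2]]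
  exact h_mem_two (by simpa [Orth] using O.orth) τ (fun t => by
    simpa [← sroot_val] using h1 i ⟨mul_mem (h4 i _ b t).1 (h4 i i a (τ t)).1, by simpa [xv, e.symm, hτ] using (O.fix h (τ t)).1⟩)
    (fun t => by simpa [← sroot_val, neg_val, -Fin.val_rev] using h3 i ⟨mul_mem (h4 i _ b t).2 (h4 i i a (τ t)).2, by
      simpa [xv, e.symm, hτ] using (O.fix h (τ t)).2⟩) _

omit h2 h0 hτ in
theorem StSys.Tw.mult_fix {K G G' : Type u} [Field K] [Finite K] [Group G] [Group G'] {S : StSys D K G} {σ : MulAut G} {f : Node D → K ≃+* K}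
    {h : S.SimpAct σ ρ 1 f} (T : Tw h (fixS σ)) (big : ∀ i, ∃ j ∈ orb ρ i, ∃ u ∈ S.U ⊓ fixS σ, u ∉ S.UJ {j})
    (hi : Function.Injective (torS S.hMul_of_finite)) (hc : commutator (fixS σ) = ⊤) (h0 : HasCyclicSchurMultiplier (fixS σ) 1)
    {π : fixS σ →* G'} (h1 : Function.Surjective π) (h2 : ∀ g, π g = 1 → S.θ g = 1) {n : ℕ}
    (hn : Nat.card ↥((mact (cartanM D)).ker ⊓ Tf ρ f) = n) (hy : IsCyclic ↥((mact (cartanM D)).ker ⊓ Tf ρ f)) :
    HasCyclicSchurMultiplier (G' ⧸ center G') n := by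
  have := S.finite_of_gen T.gen
  obtain ⟨σ', h', T', big', -⟩ := H12.Lt.descent T big
  have h3 := T'.center_eq_bot (subtype_injective _) (range_subtype _) (grpSys_θ_injective D K) big'
  have h4 : ((QuotientGroup.mk' (center G')).comp π).ker = (center G).subgroupOf (fixS σ) := Subgroup.ext fun z => by
    rw [MonoidHom.mem_ker, MonoidHom.comp_apply, QuotientGroup.mk'_apply, QuotientGroup.eq_one_iff]
    refine ⟨fun a => (center_eq_ker T.gen).ge (congrArg (fun x : (fixS σ).map (S.θG T.gen) => x.1.1)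
      (h3.le (x := ⟨_, z, z.2, rfl⟩) (mem_center_iff.2 ?_))), fun a => mem_center_iff.2 fun y => ?_⟩
    · rintro ⟨_, y, hy, rfl⟩
      have := h2 ⁅(⟨y, hy⟩ : fixS σ), z⁆ (by rw [map_commutatorElement, commutatorElement_eq_one_iff_mul_comm, mem_center_iff.1 a])
      exact Subtype.ext ((commutatorElement_eq_one_iff_mul_comm.1 (Subtype.ext (by simpa [commutatorElement_def, θG] using this))))
    · obtain ⟨y, rfl⟩ := h1 y
      rw [← map_mul, ← map_mul]; exact congrArg π (Subtype.ext (mem_center_iff.1 a y))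
  have h5 : ((mact (cartanM D)).ker ⊓ Tf ρ f).map (torS S.hMul_of_finite) = ((center G).subgroupOf (fixS σ)).map (fixS σ).subtype := by
    rw [subgroupOf_map_subtype, center_eq_map S.hMul_of_finite T.gen]
    refine le_antisymm ?_ ?_
    · rintro _ ⟨c, a, rfl⟩
      exact ⟨⟨c, a.1, rfl⟩, (h.map_torS _ c).trans (congrArg _ (mem_Tf.1 a.2))⟩
    · rintro _ ⟨⟨c, a, rfl⟩, b⟩
      exact ⟨c, ⟨a, mem_Tf.2 (hi ((h.map_torS _ c).symm.trans b))⟩, rfl⟩
  have e := ((equivMapOfInjective _ _ hi).trans (MulEquiv.subgroupCongr h5)).trans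
    ((equivMapOfInjective _ _ (fixS σ).subtype_injective).symm.trans (MulEquiv.subgroupCongr h4.symm))
  exact H15.hasCyclic_of_cover (σ := (QuotientGroup.mk' _).comp π) hc h0 ((QuotientGroup.mk'_surjective _).comp h1) (fun z a => mem_center_iff.2 fun y =>
    Subtype.ext (mem_center_iff.1 (h4.le a) y)) (hn ▸ Nat.card_congr e.symm.toEquiv) (isCyclic_of_surjective e e.surjective)

end H11
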