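import Cfsg.Agent.H11.G2Sp
import Cfsg.Agent.S1059
import Cfsg.Prelude.Def_G2

/-! The automorphism group of Zorn's vector-matrix algebra is the Chevalley group of type G₂ (`Zorn.exists_equiv`). -/

namespace H11.Zorn
open Cfsg Cfsg.Lie StSys Set MulAction

variable {F : Type*} [Field F]

/-- basis vectors -/
def e (i : Fin 8) : Fin 8 → F := Pi.single i 1

theorem ext8 {x y : Fin 8 → F} : x = y ↔ x 0 = y 0 ∧ x 1 = y 1 ∧ x 2 = y 2 ∧ x 3 = y 3 ∧ x 4 = y 4 ∧ x 5 = y 5 ∧ x 6 = y 6 ∧ x 7 = y 7 := by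
  simp [funext_iff, Fin.forall_fin_succ]

theorem zm (x y : Fin 8 → F) : zornMul x y 0 = x 0 * y 0 + (x 1 * y 4 + x 2 * y 5 + x 3 * y 6) ∧
    zornMul x y 1 = x 0 * y 1 + y 7 * x 1 - (x 5 * y 6 - x 6 * y 5) ∧ zornMul x y 2 = x 0 * y 2 + y 7 * x 2 - (x 6 * y 4 - x 4 * y 6) ∧
    zornMul x y 3 = x 0 * y 3 + y 7 * x 3 - (x 4 * y 5 - x 5 * y 4) ∧ zornMul x y 4 = y 0 * x 4 + x 7 * y 4 + (x 2 * y 3 - x 3 * y 2) ∧
    zornMul x y 5 = y 0 * x 5 + x 7 * y 5 + (x 3 * y 1 - x 1 * y 3) ∧ zornMul x y 6 = y 0 * x 6 + x 7 * y 6 + (x 1 * y 2 - x 2 * y 1) ∧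
    zornMul x y 7 = x 4 * y 1 + x 5 * y 2 + x 6 * y 3 + x 7 * y 7 := ⟨rfl, rfl, rfl, rfl, rfl, rfl, rfl, rfl⟩

theorem smul_mul (g : Lie.G2 F) (x y : Fin 8 → F) : g • zornMul x y = zornMul (g • x) (g • y) := g.2 x y

theorem smul_one (g : Lie.G2 F) : g • (e 0 + e 7 : Fin 8 → F) = e 0 + e 7 := by
  have h1 (x : Fin 8 → F) : zornMul (e 0 + e 7) x = x := by simp [ext8, zm, e]
  have h2 (x : Fin 8 → F) : zornMul x (e 0 + e 7) = x := by simp [ext8, zm, e]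
  have := smul_mul g (e 0 + e 7) (g⁻¹ • (e 0 + e 7))
  rw [h1, smul_inv_smul, h2] at this
  exact this.symm

theorem sq0 (g : Lie.G2 F) {i : Fin 8} (hi : zornMul (e i) (e i) = (0 : Fin 8 → F) := by simp [ext8, zm, e])
    {x : Fin 8 → F} (hx : g • e i = x) : x 7 = -x 0 ∧ x 0 * x 0 + (x 1 * x 4 + x 2 * x 5 + x 3 * x 6) = 0 := by
  have h := smul_mul g (e i) (e i)
  rw [hi, smul_zero, hx] at h
  simp [ext8, zm] at h
  grind

theorem anti (g : Lie.G2 F) {i j : Fin 8} (h : g • (e i : Fin 8 → F) = e i) {c : F}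
    (hi : zornMul (e i) (e j) + zornMul (e j) (e i) = c • (e 0 + e 7 : Fin 8 → F) := by simp [ext8, zm, e])
    {x : Fin 8 → F} (hx : g • e j = x) : zornMul (e i) x + zornMul x (e i) = c • (e 0 + e 7) := by
  rw [← hx, ← h, ← smul_mul, ← smul_mul, ← smul_add, hi, smul_comm, smul_one]

theorem fix (g : Lie.G2 F) {i j k : Fin 8} (h : g • (e i : Fin 8 → F) = e i) (h' : g • (e j : Fin 8 → F) = e j)
    (hi : zornMul (e i) (e j) = (e k : Fin 8 → F) := by simp [ext8, zm, e]) : g • (e k : Fin 8 → F) = e k := by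
  rw [← hi, smul_mul, h, h']

theorem card_le [Fintype F] : Nat.card (Lie.G2 F) ≤ Fintype.card F ^ 6 * (Fintype.card F ^ 2 - 1) * (Fintype.card F ^ 6 - 1) := by
  classical
  have h1 : (orbit (Lie.G2 F) (e 1 : Fin 8 → F)).ncard ≤ Fintype.card F ^ 6 - 1 := by
    refine (ncard_le_ncard_of_injOn (t := univ \ {0}) (fun x : Fin 8 → F => (![x 1, x 2, x 3, if x 1 = 0 ∧ x 2 = 0 ∧ x 3 = 0 then x 6 else x 0,
      if x 1 = 0 then x 4 else x 6, if x 1 = 0 ∧ x 2 ≠ 0 then x 6 else x 5] : Fin 6 → F)) ?_ ?_).trans_eq (by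
        rw [ncard_sdiff_singleton_of_mem (mem_univ _), ncard_univ]; simp)
    · rintro x ⟨g, hx⟩
      refine ⟨trivial, fun h => (smul_ne_zero_iff_ne g).2 (show (e 1 : Fin 8 → F) ≠ 0 by simp [e]) (hx.trans ?_)⟩
      have h0 := sq0 g (hx := hx)
      simp [funext_iff, Fin.forall_fin_succ] at h ⊢
      grind
    · rintro x ⟨g, hx⟩ y ⟨g', hy⟩ h
      have h0 := sq0 g (hx := hx)
      have h0' := sq0 g' (hx := hy)
      simp [funext_iff, Fin.forall_fin_succ] at h ⊢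
      grind
  have h2 : (orbit (stabilizer (Lie.G2 F) (e 1 : Fin 8 → F)) (e 2 : Fin 8 → F)).ncard ≤ (Fintype.card F ^ 2 - 1) * Fintype.card F ^ 3 := by
    have k (x) (hx : x ∈ orbit (stabilizer (Lie.G2 F) (e 1 : Fin 8 → F)) (e 2 : Fin 8 → F)) : (x 7 = -x 0 ∧
        x 0 * x 0 + (x 1 * x 4 + x 2 * x 5 + x 3 * x 6) = 0) ∧ x 4 = 0 ∧ ¬ (x 2 = 0 ∧ x 3 = 0) := by
      obtain ⟨g, hx⟩ := hx
      have h0 := sq0 g.1 (hx := hx)
      have h1 := anti g.1 g.2 (c := 0) (hx := hx)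
      have h2 : zornMul (e 1) x ≠ 0 := by
        exact ((congrArg₂ zornMul g.2 hx).symm.trans (smul_mul g.1 _ _).symm).trans_ne ((smul_ne_zero_iff_ne _).2 (by simp [ext8, zm, e]))
      simp [ext8, zm, e] at h1 h2
      grind
    refine (ncard_le_ncard_of_injOn (t := (univ \ {0}) ×ˢ univ) (fun x : Fin 8 → F => ((![x 2, x 3] : Fin 2 → F),
      (![x 0, x 1, if x 2 = 0 then x 5 else x 6] : Fin 3 → F))) ?_ ?_).trans_eq (by
        rw [ncard_prod, ncard_sdiff_singleton_of_mem (mem_univ _), ncard_univ, ncard_univ]; simp)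
    · exact fun x hx => ⟨⟨trivial, fun h => (k x hx).2.2 (by simpa [funext_iff, Fin.forall_fin_succ] using h)⟩, trivial⟩
    · intro x hx y hy h
      have h0 := k x hx
      have h0' := k y hy
      simp [funext_iff, Fin.forall_fin_succ] at h ⊢
      grind
  have h3 : (orbit (stabilizer (stabilizer (Lie.G2 F) (e 1 : Fin 8 → F)) (e 2 : Fin 8 → F)) (e 3 : Fin 8 → F)).ncard ≤ Fintype.card F ^ 3 := by
    have k (x) (hx : x ∈ orbit (stabilizer (stabilizer (Lie.G2 F) (e 1 : Fin 8 → F)) (e 2 : Fin 8 → F)) (e 3 : Fin 8 → F)) : (x 7 = -x 0 ∧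
        x 0 * x 0 + (x 1 * x 4 + x 2 * x 5 + x 3 * x 6) = 0) ∧ x 4 = 0 ∧ x 5 = 0 ∧ x 3 = 1 := by
      obtain ⟨g, hx⟩ := hx
      have h0 := sq0 g.1.1 (hx := hx)
      have h1 := anti g.1.1 g.1.2 (c := 0) (hx := hx)
      have h2 := anti g.1.1 g.2 (c := 0) (hx := hx)
      have h3 := anti g.1.1 (fix (k := 6) g.1.1 g.1.2 g.2) (c := 1) (hx := hx)
      simp [ext8, zm, e] at h1 h2 h3
      grind
    refine (ncard_le_ncard_of_injOn (t := univ) (fun x : Fin 8 → F => (![x 0, x 1, x 2] : Fin 3 → F)) (fun _ _ => trivial) ?_).trans_eq (by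
        rw [ncard_univ]; simp)
    intro x hx y hy h
    have h0 := k x hx
    have h0' := k y hy
    simp [funext_iff, Fin.forall_fin_succ] at h ⊢
    grind
  have h4 : Nat.card (stabilizer (stabilizer (stabilizer (Lie.G2 F) (e 1 : Fin 8 → F)) (e 2 : Fin 8 → F)) (e 3 : Fin 8 → F)) = 1 := by
    refine Subgroup.card_eq_one.2 (eq_bot_iff.2 fun g a3 => Subtype.ext (Subtype.ext (Subtype.ext (Units.ext ?_))))
    have a1 := g.1.2
    have a2 := g.2
    have a4 := fix (k := 4) g.1.1 a2 a3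
    have a5 := fix (k := 5) g.1.1 a3 a1
    have a6 := fix (k := 6) g.1.1 a1 a2
    have a0 := fix (k := 0) g.1.1 a1 a4
    have a7 := fix (k := 7) g.1.1 a4 a1
    have : ∀ i, g.1.1 • (e i : Fin 8 → F) = e i := by
      intro i; fin_cases i; exacts [a0, a1, a2, a3, a4, a5, a6, a7]
    ext a b
    exact (by simp [e] : _ = (g.1.1.1.1.mulVec (e b)) a).trans ((congrFun (this b) a).trans (by simp [e, Matrix.one_apply, Pi.single_apply]))
  rw [← (stabilizer (Lie.G2 F) (e 1 : Fin 8 → F)).index_mul_card, ← (stabilizer _ (e 2 : Fin 8 → F)).index_mul_card,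
    ← (stabilizer _ (e 3 : Fin 8 → F)).index_mul_card, h4, index_stabilizer, index_stabilizer, index_stabilizer]
  exact (Nat.mul_le_mul h1 (Nat.mul_le_mul h2 (Nat.mul_le_mul h3 le_rfl))).trans_eq (by ring)

theorem o2_mem {r : Root chevG2} (hr : r.1 ∈ [4, 5, 6, 7]) (t : F) : G2.o2 r t ∈ Lie.G2 F := fun x y => by
  obtain ⟨r, h⟩ := r
  simp only [List.mem_cons, List.not_mem_nil, or_false] at hr
  simp only [Units.coeHom_apply, G2.o2_val, Matrix.add_mulVec, Matrix.smul_mulVec, Matrix.one_mulVec]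
  obtain rfl | rfl | rfl | rfl := hr <;>
    simp [ext8, zm, Matrix.mulVec, dotProduct, Fin.sum_univ_eight, G2.oA, G2.oB, G2.spM] <;> and_intros <;> ring

theorem exists_equiv [Fintype F] (hK : ∃ a : F, a ≠ 0 ∧ a ≠ 1) : Nonempty (chevG2.group F ≃* Lie.G2 F) := by
  obtain ⟨ρ, h1, h2⟩ := G2.exists_rho hK
  have h3 (g) : ρ g ∈ Lie.G2 F := grp_le_of_simple (S := grpSys chevG2 F) (M := (Lie.G2 F).comap ρ)
    (fun i t => show ρ _ ∈ _ from h2 _ t ▸ o2_mem (by revert i; decide +kernel) t)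
    (fun i t => show ρ _ ∈ _ from h2 _ t ▸ o2_mem (by revert i; decide +kernel) t) ((grpSys_grp _ _).ge (Subgroup.mem_top g))
  exact ⟨.ofBijective (ρ.codRestrict _ h3) ((Function.Injective.bijective_of_nat_card_le
    (fun a b e => h1 (congrArg Subtype.val e))) (card_le.trans_eq (Agent.S1059.result rfl).symm))⟩

end H11.Zorn
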